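import Cfsg.Agent.Lib.UW.Sub
import Cfsg.Agent.Lib.Char.Basic

/-!
# In odd dimension every centralizer has no fixed vector in the Weil representation
-/

set_option autoImplicit false
set_option linter.unusedSectionVars false

open scoped Classical
open Module Polynomial

namespace UW

theorem sum_comp_addHom {A B : Type*} [AddCommGroup A] [AddCommGroup B] [Fintype A] [Fintype B]
    (f : A →+ B) (g : B → ℂ) :
    ∑ a, g (f a) = (Nat.card f.ker : ℂ) * ∑ b ∈ Finset.univ.filter (· ∈ f.range), g b := by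
  have := CT.sum_comp_of_surjective (AddMonoidHom.toMultiplicative f.rangeRestrict)
    f.rangeRestrict_surjective (fun b => g (Multiplicative.toAdd b : f.range))
  rw [Finset.sum_subtype (p := (· ∈ f.range)) _ (by simp) g]
  have h1 : Nat.card f.ker = Nat.card (AddMonoidHom.toMultiplicative f.rangeRestrict).ker := by
    refine Nat.card_congr (Equiv.subtypeEquiv Multiplicative.ofAdd fun x => ?_)
    change _ ↔ f.rangeRestrict x = 0
    rw [AddMonoidHom.mem_ker, Subtype.ext_iff]
    rfl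
  rw [h1, ← Equiv.sum_comp Multiplicative.toAdd, ← Equiv.sum_comp Multiplicative.toAdd
    (fun b : f.range => g b)]
  exact this

theorem exists_quot {F E : Type*} [Field F] [Ring E] [Algebra F E] (ψ : F[X] →ₐ[F] E) :
    ∃ (I : Ideal F[X]) (φ : (F[X] ⧸ I) →ₐ[F] E), Function.Injective φ ∧
      ∀ P, φ (Ideal.Quotient.mk I P) = ψ P :=
  ⟨_, Ideal.kerLiftAlg ψ, Ideal.kerLiftAlg_injective ψ, fun _ => rfl⟩

namespace HS

universe u

variable {F V : Type*} [Field F] [Fintype F] [StarRing F] [HF F] [AddCommGroup V] [Module F V]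
  [Fintype V] {H : HS F V}

theorem finrank_le_of_pairing (A B : Submodule F V)
    (h : ∀ x ∈ A, (∀ y ∈ B, H.b y x = 0) → x = 0) : finrank F A ≤ finrank F B := by
  have hinj : Function.Injective (fun x : A => ((H.bl x).domRestrict B : Module.Dual F B)) := by
    intro x x' e
    refine Subtype.ext (sub_eq_zero.1 (h _ (A.sub_mem x.2 x'.2) fun y hy => ?_))
    have := LinearMap.congr_fun e ⟨y, hy⟩
    simp only [LinearMap.domRestrict_apply, bl_apply] at this
    rw [sub_right, this, sub_self]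
  have : Finite (Module.Dual F B) := Finite.of_injective _ DFunLike.coe_injective
  have h1 := Nat.card_le_card_of_injective _ hinj
  rw [Module.natCard_eq_pow_finrank (K := F), Module.natCard_eq_pow_finrank (K := F)
    (V := Module.Dual F B), Subspace.dual_finrank_eq] at h1
  exact (Nat.pow_le_pow_iff_right Finite.one_lt_card).1 h1

variable (H) in
/-- A commutative algebra with involution acting faithfully and indecomposably. -/
structure Ad (R : Type*) [CommRing R] [Algebra F R] where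
  φ : R →ₐ[F] Module.End F V
  σ : R →+* R
  inj : Function.Injective φ
  adj : ∀ r x y, H.b (φ r x) y = H.b x (φ (σ r) y)
  ind : ∀ D : Submodule F V, H.Nd D → (∀ r, ∀ y ∈ D, φ r y ∈ D) → D = ⊥ ∨ D = ⊤
  odd : Odd (finrank F V)

namespace Ad

variable {R : Type*} [CommRing R] [Algebra F R] [Fintype R] [IsPrincipalIdealRing R] (A : H.Ad R)

include A

theorem nontrivialV : Nontrivial V :=
  Module.nontrivial_of_finrank_pos (R := F) A.odd.pos

theorem nontrivialR : Nontrivial R := by
  have := A.nontrivialV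
  exact A.φ.toRingHom.domain_nontrivial

theorem ext' {r r' : R} (h : ∀ y, A.φ r y = A.φ r' y) : r = r' := A.inj (LinearMap.ext h)

theorem mul_app (r s : R) (y : V) : A.φ (r * s) y = A.φ r (A.φ s y) := by
  rw [map_mul]; rfl

theorem σσ (r : R) : A.σ (A.σ r) = r :=
  A.ext' fun y => H.eq_of_b' fun x => by rw [← A.adj, ← H.herm, ← A.adj, herm]

theorem σ_smul (a : F) (r : R) : A.σ (a • r) = star a • A.σ r :=
  A.ext' fun y => H.eq_of_b' fun x => by
    rw [← A.adj]
    simp [A.adj]

theorem idem_sa {e : R} (he : e * e = e) (hs : A.σ e = e) : e = 0 ∨ e = 1 := by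
  have h1 : H.Nd (LinearMap.range (A.φ e)) := by
    rintro _ ⟨x, rfl⟩ h
    refine H.nondeg _ fun y => ?_
    have := h _ ⟨y, rfl⟩
    rwa [← hs, ← A.adj, ← A.mul_app, hs, he] at this
  rcases A.ind _ h1 (by
    rintro r _ ⟨x, rfl⟩
    exact ⟨A.φ r x, by rw [← A.mul_app, mul_comm, A.mul_app]⟩) with h | h
  · exact Or.inl (A.inj (by rw [LinearMap.range_eq_bot.1 h, map_zero]))
  · refine Or.inr (A.ext' fun y => ?_)
    obtain ⟨x, rfl⟩ := LinearMap.range_eq_top.1 h y
    rw [← A.mul_app, he, map_one]; rfl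

theorem idem {e : R} (he : e * e = e) : e = 0 ∨ e = 1 := by
  have he' : A.σ e * A.σ e = A.σ e := by rw [← map_mul, he]
  rcases A.idem_sa (e := e * A.σ e) (by linear_combination (A.σ e * A.σ e) * he + e * he')
    (by rw [map_mul, A.σσ, mul_comm]) with h | h
  swap
  · exact Or.inr (by linear_combination (A.σ e) * he + (1 - e) * h)
  rcases A.idem_sa (e := e + A.σ e) (by linear_combination he + he' + 2 * h)
    (by rw [map_add, A.σσ, add_comm]) with h' | h'
  · exact Or.inl (by linear_combination e * h' - he - h)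
  exfalso
  have h1 : ∀ y, A.φ (A.σ e) y = y - A.φ e y := fun y => by
    rw [show A.σ e = 1 - e by rw [← h']; ring, map_sub, map_one]; rfl
  have h2 : ∀ y, y - A.φ e y ∈ LinearMap.ker (A.φ e) := fun y => by
    rw [LinearMap.mem_ker, map_sub, ← A.mul_app, he, sub_self]
  have h3 := finrank_le_of_pairing (H := H) (LinearMap.range (A.φ e)) (LinearMap.ker (A.φ e)) (by
    rintro _ ⟨x, rfl⟩ hx
    refine H.nondeg' fun y => ?_
    have h4 := hx _ (h2 y)
    rwa [sub_left, A.adj, h1, ← A.mul_app, he, sub_self, zero_right, sub_zero] at h4)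
  have h4 := finrank_le_of_pairing (H := H) (LinearMap.ker (A.φ e)) (LinearMap.range (A.φ e)) (by
    intro x hx hx'
    refine H.nondeg' fun y => ?_
    have h4 := hx' _ ⟨y, rfl⟩
    rwa [A.adj, h1, LinearMap.mem_ker.1 hx, sub_zero] at h4)
  have h5 := LinearMap.finrank_range_add_finrank_ker (A.φ e)
  obtain ⟨k, hk⟩ := A.odd
  omega

theorem unit_or_nil (r : R) : IsUnit r ∨ IsNilpotent r := by
  obtain ⟨n, y, hy⟩ := IsArtinian.exists_pow_succ_smul_dvd r (1 : R)
  rw [smul_eq_mul, smul_eq_mul, mul_one, Nat.succ_eq_add_one] at hy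
  have h1 : ∀ k, r ^ n * (r * y) ^ k = r ^ n := by
    intro k
    induction k with
    | zero => simp
    | succ k ih => rw [pow_succ, ← mul_assoc, ih, ← mul_assoc, ← pow_succ, hy]
  rcases A.idem (e := (r * y) ^ (n + 1)) (by
    rw [mul_pow, pow_succ r]
    have := h1 (n + 1)
    rw [mul_pow, pow_succ r] at this
    linear_combination (r * y ^ (n + 1)) * this) with h | h
  · exact Or.inr ⟨n, by rw [← h1 (n + 1), h, mul_zero]⟩
  · exact Or.inl (IsUnit.of_mul_eq_one (y * (r * y) ^ n) (by rw [← h]; ring))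

theorem parts {a : F} (ha : star a ≠ a) (x : R) :
    ∃ r s, A.σ r = r ∧ A.σ s = s ∧ x = r + a • s ∧ (IsNilpotent x → IsNilpotent r ∧ IsNilpotent s) := by
  have h1 : a - star a ≠ 0 := sub_ne_zero.2 ha.symm
  have h2 : star a - a ≠ 0 := sub_ne_zero.2 ha
  refine ⟨x - a • (a - star a)⁻¹ • (x - A.σ x), (a - star a)⁻¹ • (x - A.σ x), ?_, ?_, by simp,
    fun hx => ?_⟩
  · simp only [map_sub, A.σ_smul, A.σσ, star_inv₀, star_sub, star_star]
    match_scalars <;> field_simp <;> ring
  · simp only [map_sub, A.σ_smul, A.σσ, star_inv₀, star_sub, star_star]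
    match_scalars <;> field_simp <;> ring
  · have h3 : IsNilpotent (x - A.σ x) := (Commute.all _ _).isNilpotent_sub hx (hx.map A.σ)
    exact ⟨(Commute.all _ _).isNilpotent_sub hx ((h3.smul _).smul _), h3.smul _⟩

theorem parts_unique {a : F} (ha : star a ≠ a) {r s r' s' : R} (hr : A.σ r = r) (hs : A.σ s = s)
    (hr' : A.σ r' = r') (hs' : A.σ s' = s') (h : r + a • s = r' + a • s') : r = r' ∧ s = s' := by
  have h1 : a - star a ≠ 0 := sub_ne_zero.2 ha.symm
  have h2 := congrArg A.σ h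
  simp only [map_add, A.σ_smul, hr, hs, hr', hs'] at h2
  have h3 : s = s' := by
    apply smul_right_injective R h1
    simp only [sub_smul]
    linear_combination h - h2
  subst h3
  exact ⟨add_right_cancel h, rfl⟩

theorem exists_gen : ∃ t : R, A.σ t = t ∧ IsNilpotent t ∧ ∀ x, IsNilpotent x → t ∣ x := by
  obtain ⟨a, ha⟩ := HF.ex (F := F)
  obtain ⟨t, ht⟩ := (IsPrincipalIdealRing.principal (nilradical R)).principal
  have h1 : ∀ x, IsNilpotent x ↔ t ∣ x := fun x => by
    rw [← mem_nilradical, ht, Ideal.submodule_span_eq, Ideal.mem_span_singleton]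
  obtain ⟨r, s, hr, hs, e, hn⟩ := A.parts ha t
  obtain ⟨hrn, hsn⟩ := hn ((h1 t).2 dvd_rfl)
  obtain ⟨r', hr'⟩ := (h1 r).1 hrn
  obtain ⟨s', hs'⟩ := (h1 s).1 hsn
  rcases A.unit_or_nil r' with h | h
  · exact ⟨r, hr, hrn, fun x hx => by rw [hr', h.mul_right_dvd]; exact (h1 x).1 hx⟩
  rcases A.unit_or_nil s' with h' | h'
  · exact ⟨s, hs, hsn, fun x hx => by rw [hs', h'.mul_right_dvd]; exact (h1 x).1 hx⟩
  have h2 := ((Commute.all _ _).isNilpotent_add h (h'.smul a)).isUnit_one_sub
  have h3 : t = 0 := by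
    refine h2.mul_left_cancel ?_
    rw [hr', hs', ← mul_smul_comm] at e
    linear_combination e
  exact ⟨0, map_zero _, IsNilpotent.zero, fun x hx => h3 ▸ (h1 x).1 hx⟩

theorem exists_socle : ∃ (t : R) (m : ℕ), A.σ t = t ∧ t ^ (m + 1) = 0 ∧ t ^ m ≠ 0 ∧
    (∀ x, IsNilpotent x → t ∣ x) ∧ (∀ x, x ≠ 0 → x ∣ t ^ m) ∧ ∀ x, t * x = 0 → t ^ m ∣ x := by
  have := A.nontrivialR
  obtain ⟨t, ht, hn, hd⟩ := A.exists_gen
  obtain ⟨m, hm⟩ : ∃ m, Nat.find hn = m + 1 := Nat.exists_eq_succ_of_ne_zero fun h => by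
    have := Nat.find_spec hn
    rw [h, pow_zero] at this
    exact one_ne_zero this
  have h1 : t ^ (m + 1) = 0 := hm ▸ Nat.find_spec hn
  have h2 : t ^ m ≠ 0 := Nat.find_min hn (by omega)
  refine ⟨t, m, ht, h1, h2, hd, fun x hx => ?_, fun x hx => ?_⟩
  · by_contra h
    have h3 : ∀ k, k ≤ m + 1 → t ^ k ∣ x := by
      intro k
      induction k with
      | zero => simp
      | succ k ih =>
        intro hk
        obtain ⟨y, rfl⟩ := ih (by omega)
        rcases A.unit_or_nil y with hy | hy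
        · exact absurd (hy.mul_right_dvd.2 (pow_dvd_pow t (by omega))) h
        · rw [pow_succ]
          exact mul_dvd_mul_left _ (hd y hy)
    have := h3 _ le_rfl
    rw [h1, zero_dvd_iff] at this
    exact hx this
  · have h3 : ∀ k, k ≤ m → t ^ k ∣ x := by
      intro k
      induction k with
      | zero => simp
      | succ k ih =>
        intro hk
        obtain ⟨y, rfl⟩ := ih (by omega)
        rcases A.unit_or_nil y with hy | hy
        · rw [← mul_assoc, hy.mul_left_eq_zero, ← pow_succ'] at hx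
          exact absurd (pow_eq_zero_of_le hk hx) h2
        · rw [pow_succ]
          exact mul_dvd_mul_left _ (hd y hy)
    exact h3 _ le_rfl

theorem exists_cyclic {s : R} (h0 : s ≠ 0) (hd : ∀ x, x ≠ 0 → x ∣ s) :
    ∃ v : V, Function.Bijective fun r => A.φ r v := by
  obtain ⟨v, hv⟩ : ∃ v, H.b (A.φ s v) v ≠ 0 := by
    by_contra h
    push Not at h
    obtain ⟨a, ha⟩ := HF.ex (F := F)
    refine h0 (A.ext' fun x => H.eq_of_b fun y => ?_)
    have h1 := h (x + y)
    have h2 := h (a • x + y)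
    simp only [map_add, map_smul, add_left, add_right, smul_left, smul_right, h x, h y] at h1 h2
    have h3 : (a - star a) * H.b (A.φ s x) y = 0 := by linear_combination h2 - star a * h1
    simpa using (mul_eq_zero.1 h3).resolve_left (sub_ne_zero.2 ha.symm)
  let ev : R →ₗ[F] V := LinearMap.applyₗ v ∘ₗ A.φ.toLinearMap
  have hev : ∀ r, ev r = A.φ r v := fun r => rfl
  have h1 : ∀ r, (∀ r', H.b (A.φ r v) (A.φ r' v) = 0) → r = 0 := by
    intro r h
    by_contra hr
    obtain ⟨r', rfl⟩ := hd r hr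
    exact hv (by rw [mul_comm, A.mul_app, A.adj, h])
  have h2 : H.Nd (LinearMap.range ev) := by
    rintro _ ⟨r, rfl⟩ h
    rw [h1 r fun r' => h _ ⟨r', rfl⟩, map_zero]
  refine ⟨v, fun r r' e => sub_eq_zero.1 (h1 _ fun _ => ?_), ?_⟩
  · simp only at e
    rw [map_sub, LinearMap.sub_apply, e, sub_self, zero_left]
  rcases A.ind _ h2 (by
    rintro r _ ⟨x, rfl⟩
    exact ⟨r * x, A.mul_app r x v⟩) with h | h
  · have := LinearMap.congr_fun (LinearMap.range_eq_bot.1 h) s
    rw [hev] at this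
    exact absurd (by rw [this]; simp) hv
  · exact LinearMap.range_eq_top.1 h

/-- The nullity of an element. -/
noncomputable def κ (z : R) : ℕ := finrank F (LinearMap.ker (A.φ z))

theorem κ_zero : A.κ 0 = finrank F V := by
  rw [κ, map_zero, LinearMap.ker_zero, finrank_top]

theorem κ_unit {u : R} (hu : IsUnit u) (z : R) : A.κ (u * z) = A.κ z := by
  rw [κ, κ, map_mul, Module.End.mul_eq_comp, LinearMap.ker_comp_of_ker_eq_bot]
  exact LinearMap.ker_eq_bot.2 ((Module.End.isUnit_iff _).1 (hu.map A.φ)).1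

theorem κ_one : A.κ 1 = 0 := by
  rw [κ, map_one, Module.End.one_eq_id, LinearMap.ker_id, finrank_bot]

theorem κ_mul {t z : R} {v : V} (hv : Function.Bijective fun r => A.φ r v)
    (h : ∀ x, t * x = 0 → z ∣ x) : A.κ (t * z) = A.κ z + A.κ t := by
  let L : LinearMap.ker (A.φ (t * z)) →ₗ[F] LinearMap.ker (A.φ t) :=
    (A.φ z).restrict fun y hy => by
      rw [LinearMap.mem_ker] at hy ⊢
      rw [← A.mul_app, hy]
  have h1 : LinearMap.range L = ⊤ := by
    rw [LinearMap.range_eq_top]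
    rintro ⟨y, hy⟩
    obtain ⟨r, rfl⟩ := hv.2 y
    rw [LinearMap.mem_ker, ← A.mul_app] at hy
    have h2 : t * r = 0 := hv.1 (by simpa using hy)
    obtain ⟨r', rfl⟩ := h r h2
    refine ⟨⟨A.φ r' v, ?_⟩, Subtype.ext (A.mul_app _ _ _).symm⟩
    rw [LinearMap.mem_ker, ← A.mul_app, mul_assoc, h2, map_zero]; rfl
  have h2 : LinearMap.ker L = (LinearMap.ker (A.φ z)).comap (LinearMap.ker (A.φ (t * z))).subtype :=
    LinearMap.ker_restrict _
  have h3 := LinearMap.finrank_range_add_finrank_ker L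
  rw [h1, h2, finrank_top, (Submodule.comapSubtypeEquivOfLe (fun y hy => by
    rw [LinearMap.mem_ker] at hy ⊢
    rw [A.mul_app, hy, map_zero])).finrank_eq] at h3
  rw [κ, κ, κ, ← h3, add_comm]

/-- The self-adjoint elements. -/
def R₀ : AddSubgroup R where
  carrier := {r | A.σ r = r}
  add_mem' {r s} hr hs := by
    change A.σ _ = _
    rw [map_add, hr, hs]
  zero_mem' := map_zero A.σ
  neg_mem' {r} hr := by
    change A.σ _ = _
    rw [map_neg, hr]

omit A in
theorem Ad_realise_eqns : True := by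
  have := @κ.eq_1.{0, 0, 0}
  have := @R₀.eq_1.{0, 0, 0}
  trivial

theorem sum_parts {a : F} (ha : star a ≠ a) (g : R → ℂ) :
    ∑ x, g x = ∑ r : A.R₀, ∑ s : A.R₀, g (r + a • (s : R)) := by
  rw [← Fintype.sum_prod_type']
  refine (Fintype.sum_bijective (fun x : A.R₀ × A.R₀ => (x.1 : R) + a • (x.2 : R))
    ⟨fun x y e => ?_, fun x => ?_⟩ _ _ fun _ => rfl).symm
  · have := A.parts_unique ha x.1.2 x.2.2 y.1.2 y.2.2 e
    exact Prod.ext (Subtype.ext this.1) (Subtype.ext this.2)
  · obtain ⟨r, s, hr, hs, e, -⟩ := A.parts ha x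
    exact ⟨(⟨r, hr⟩, ⟨s, hs⟩), e.symm⟩

theorem sum_units : ∑ x : Rˣ, (-(qq F : ℂ)) ^ A.κ (x - A.σ x) = 0 := by
  have := A.nontrivialR
  obtain ⟨a, ha⟩ := HF.ex (F := F)
  obtain ⟨t, m, ht, h1, h2, h3, h4, h5⟩ := A.exists_socle
  obtain ⟨v, hv⟩ := A.exists_cyclic h2 h4
  have hκ : ∀ z, z ≠ 0 → A.κ (t * z) = A.κ z + A.κ t := fun z hz =>
    A.κ_mul hv fun x hx => (h4 z hz).trans (h5 x hx)
  have hpow : ∀ j, j ≤ m + 1 → A.κ (t ^ j) = j * A.κ t := by
    intro j
    induction j with
    | zero => simp [A.κ_one]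
    | succ j ih =>
      intro hj
      rw [pow_succ', hκ _ fun h => h2 (pow_eq_zero_of_le (by omega) h), ih (by omega)]
      ring
  have hodd : Odd (A.κ t) := by
    have := hpow _ le_rfl
    rw [h1, A.κ_zero] at this
    exact (Nat.odd_mul.1 (this ▸ A.odd)).2
  set f : R → ℂ := fun z => (-(qq F : ℂ)) ^ A.κ z with hf
  let μ : A.R₀ →+ A.R₀ :=
    { toFun := fun s => ⟨t * s, by
        change A.σ _ = _
        rw [map_mul, ht, s.2]⟩
      map_zero' := Subtype.ext (by simp)
      map_add' := fun r s => Subtype.ext (by simp [mul_add]) }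
  have hμ : ∀ s, (μ s : R) = t * s := fun s => rfl
  have hrange : ∀ s : A.R₀, s ∈ μ.range ↔ IsNilpotent (s : R) := by
    intro s
    constructor
    · rintro ⟨r, rfl⟩
      exact (Commute.all _ _).isNilpotent_mul_right ⟨_, h1⟩
    · intro hs
      obtain ⟨y, hy⟩ := h3 _ hs
      obtain ⟨r, r', hr, hr', e, -⟩ := A.parts ha y
      have := A.parts_unique ha (r := s) (s := 0) (r' := t * r) (s' := t * r') s.2 (map_zero _)
        (by rw [map_mul, ht, hr]) (by rw [map_mul, ht, hr'])
        (by rw [hy, e, smul_zero, add_zero, mul_add, mul_smul_comm])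
      exact ⟨⟨r, hr⟩, Subtype.ext this.1.symm⟩
  have hsq : ∀ (k : ℕ) (p : R → Prop), (∀ r s : A.R₀, p (r + a • (s : R)) ↔ p r ∧ p s) →
      Fintype.card {x // p x} = qq F ^ (2 * k) → Fintype.card {r : A.R₀ // p r} = qq F ^ k := by
    intro k p hp hc
    have e1 := A.sum_parts ha fun x => if p x then 1 else 0
    have e2 : ∀ r s : A.R₀, (if p (r + a • (s : R)) then (1 : ℂ) else 0) =
        (if p r then 1 else 0) * (if p s then 1 else 0) := by
      intro r s
      rw [hp]
      by_cases h : p r <;> by_cases h' : p s <;> simp [h, h']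
    simp only [e2, ← Finset.sum_mul_sum, Finset.sum_boole, ← Fintype.card_subtype, hc] at e1
    refine Nat.pow_left_injective two_ne_zero ?_
    simp only
    rw [← pow_mul, mul_comm k, sq]
    exact_mod_cast e1.symm
  have hR₀ : Fintype.card A.R₀ = qq F ^ finrank F V := by
    rw [← hsq _ (fun _ => True) (by simp) (by
      rw [Fintype.card_subtype_true, Fintype.card_of_bijective hv, card_eq_pow (F := F)]),
      Fintype.card_subtype_true]
  have hker : Nat.card μ.ker = qq F ^ A.κ t := by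
    refine Eq.trans ?_ (hsq _ (fun x => t * x = 0) (fun r s => ?_) ?_)
    · rw [← Nat.card_eq_fintype_card]
      exact Nat.card_congr (Equiv.subtypeEquivRight fun x => by
        rw [AddMonoidHom.mem_ker, Subtype.ext_iff]; rfl)
    · refine ⟨fun h => ?_, fun h => by rw [mul_add, mul_smul_comm, h.1, h.2]; simp⟩
      exact A.parts_unique ha (r' := 0) (s' := 0) (μ r).2 (μ s).2 (map_zero _) (map_zero _)
        (show t * r + a • (t * s) = 0 + a • 0 by rw [← mul_smul_comm, ← mul_add, h]; simp)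
    · rw [κ, ← card_eq_pow]
      refine Fintype.card_congr (Equiv.subtypeEquiv (Equiv.ofBijective _ hv) fun x => ?_)
      rw [Equiv.ofBijective_apply, LinearMap.mem_ker, ← A.mul_app]
      exact ⟨fun h => by simp [h], fun h => hv.1 (by simpa using h)⟩
  set Q : ℂ := (qq F : ℂ) ^ A.κ t with hQ
  have hQ0 : Q ≠ 0 := pow_ne_zero _ (qq_ne F)
  set M : ℂ := ∑ s : A.R₀, if IsNilpotent (s : R) then 1 else 0 with hM
  set S₁ : ℂ := ∑ s : A.R₀, if IsNilpotent (s : R) then f s else 0 with hS₁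
  set S : ℂ := ∑ s : A.R₀, f s with hS
  have hγ : (Fintype.card A.R₀ : ℂ) = Q * M := by
    have := sum_comp_addHom μ fun _ => 1
    simp only [hker, Finset.sum_filter, hrange] at this
    rw [hM, hQ, ← Nat.cast_pow, ← this]
    simp
  have hδ : f 0 = -(Q * M) := by
    rw [← hγ, hR₀, hf]
    simp only [A.κ_zero]
    rw [A.odd.neg_pow, Nat.cast_pow]
  have hα : S = Q * M - M + S₁ := by
    rw [← hγ, hM, hS₁, hS, ← Finset.card_univ, Finset.cast_card, ← Finset.sum_sub_distrib,
      ← Finset.sum_add_distrib]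
    refine Finset.sum_congr rfl fun s _ => ?_
    rcases A.unit_or_nil s with h | h
    · have := A.κ_unit h 1
      rw [mul_one, A.κ_one] at this
      simp [h.not_isNilpotent, hf, this]
    · simp [h]
  have hβ : Q * S₁ = -Q * (S - f 0) + f 0 := by
    have := sum_comp_addHom μ fun s => f s
    simp only [hker, Finset.sum_filter, hrange, hμ] at this
    rw [Nat.cast_pow, ← hQ, ← hS₁] at this
    rw [← this, hS, Fintype.sum_eq_add_sum_compl 0, Fintype.sum_eq_add_sum_compl 0]
    simp only [ZeroMemClass.coe_zero, mul_zero, add_sub_cancel_left, Finset.mul_sum]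
    rw [add_comm]
    congr 1
    refine Finset.sum_congr rfl fun s hs => ?_
    have hs' : (s : R) ≠ 0 := fun h => by
      simp [Subtype.ext (p := (· ∈ A.R₀)) (a2 := 0) h] at hs
    simp only [hf, hκ _ hs', pow_add, hodd.neg_pow, hQ]
    ring
  have hS₁' : S₁ = -(Q * M) := by
    rw [hα, hδ] at hβ
    have : Q * (2 * (S₁ + Q * M)) = 0 := by linear_combination hβ
    have := (mul_eq_zero.1 this).resolve_left hQ0
    linear_combination this / 2
  have hS' : S = -M := by rw [hα, hS₁']; ring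
  have e1 : ∑ x : Rˣ, f (x - A.σ x) =
      ∑ x : R, f (x - A.σ x) - ∑ x : R, if IsNilpotent x then f (x - A.σ x) else 0 := by
    rw [← Finset.sum_sub_distrib]
    refine Finset.sum_of_injOn Units.val Units.val_injective.injOn (fun _ _ => by simp)
      (fun x _ hx => ?_) fun u _ => ?_
    · rcases A.unit_or_nil x with h | h
      · obtain ⟨u, rfl⟩ := h
        simp at hx
      · simp [h]
    · simp [u.isUnit.not_isNilpotent]
  have e2 : ∀ r s : A.R₀, f (r + a • (s : R) - A.σ (r + a • (s : R))) = f s := by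
    intro r s
    have hu : IsUnit (algebraMap F R (a - star a)) :=
      (IsUnit.mk0 _ (sub_ne_zero.2 ha.symm)).map _
    have : r + a • (s : R) - A.σ (r + a • (s : R)) = algebraMap F R (a - star a) * s := by
      rw [map_add, A.σ_smul, r.2, s.2, ← Algebra.smul_def, sub_smul]; ring
    simp only [hf, this, A.κ_unit hu]
  have e3 : ∀ r s : A.R₀, IsNilpotent (r + a • (s : R)) ↔
      IsNilpotent (r : R) ∧ IsNilpotent (s : R) := by
    intro r s
    refine ⟨fun h => ?_, fun h => (Commute.all _ _).isNilpotent_add h.1 (h.2.smul a)⟩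
    obtain ⟨r', s', hr', hs', e, hn⟩ := A.parts ha (r + a • (s : R))
    obtain ⟨e4, e5⟩ := A.parts_unique ha r.2 s.2 hr' hs' e
    rw [e4, e5]
    exact hn h
  have e4 : ∀ r s : A.R₀, (if IsNilpotent (r : R) ∧ IsNilpotent (s : R) then f s else 0) =
      (if IsNilpotent (r : R) then 1 else 0) * (if IsNilpotent (s : R) then f s else 0) := by
    intro r s
    by_cases h : IsNilpotent (r : R) <;> by_cases h' : IsNilpotent (s : R) <;> simp [h, h']
  change ∑ x : Rˣ, f (x - A.σ x) = 0
  rw [e1, A.sum_parts ha, A.sum_parts ha]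
  simp only [e2, e3, e4, ← Finset.sum_mul_sum]
  rw [← hM, ← hS₁, ← hS, Finset.sum_const, Finset.card_univ, nsmul_eq_mul, hγ, hS', hS₁']
  ring

theorem exists_subgroup : ∃ B : Subgroup H.U, (∀ b ∈ B, ∃ r, H.lin b = A.φ r) ∧
    ∑ b : B, (-(qq F : ℂ)) ^ H.kk b = 0 := by
  let j : Rˣ →* H.U :=
    { toFun := fun x => H.mkU (A.φ (x * A.σ (x⁻¹ : Rˣ))) fun y z => by
        rw [A.adj, ← A.mul_app, map_mul A.σ, A.σσ]
        have : A.σ x * (x⁻¹ : Rˣ) * (x * A.σ (x⁻¹ : Rˣ)) = 1 := by
          rw [mul_assoc, Units.inv_mul_cancel_left, ← map_mul, Units.mul_inv, map_one]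
        rw [this, map_one]; rfl
      map_one' := U_ext fun y => by simp
      map_mul' := fun x y => U_ext fun z => by
        rw [mul_smul, mkU_smul, mkU_smul, mkU_smul, ← A.mul_app, mul_inv, Units.val_mul,
          Units.val_mul, map_mul A.σ]
        congr 2
        ring }
  have hj : ∀ x, H.kk (j x) = A.κ (x - A.σ x) := by
    intro x
    rw [← A.κ_unit ((x⁻¹ : Rˣ).isUnit.map A.σ), kk, κ, fx]
    have : H.lin (j x) - 1 = A.φ (A.σ (x⁻¹ : Rˣ) * (x - A.σ x)) := by
      rw [mul_sub, ← map_mul A.σ, Units.inv_mul, map_one, map_sub, map_one, mul_comm]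
      rfl
    rw [this]
  refine ⟨j.range, by rintro _ ⟨x, rfl⟩; exact ⟨_, rfl⟩, ?_⟩
  have := CT.sum_comp_of_surjective j.rangeRestrict j.rangeRestrict_surjective
    fun b => (-(qq F : ℂ)) ^ H.kk b
  simp only [MonoidHom.coe_rangeRestrict, hj, A.sum_units] at this
  convert (mul_eq_zero.1 this.symm).resolve_left CT.card_cast_ne_zero

end Ad

theorem exists_ad (h : H.U) (hodd : Odd (finrank F V))
    (hind : ∀ D : Submodule F V, H.Nd D → (∀ y ∈ D, h • y ∈ D) → D = ⊥ ∨ D = ⊤) :
    ∃ B : Subgroup H.U, (∀ b ∈ B, Commute b h) ∧ ∑ b : B, (-(qq F : ℂ)) ^ H.kk b = 0 := by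
  obtain ⟨I, φ, hφ, hφ'⟩ := exists_quot (aeval (H.lin h) : F[X] →ₐ[F] Module.End F V)
  let R := F[X] ⧸ I
  have : Finite (Module.End F V) := Finite.of_injective _ DFunLike.coe_injective
  have : Finite R := Finite.of_injective _ hφ
  let _ : Fintype R := Fintype.ofFinite R
  have : IsPrincipalIdealRing R :=
    IsPrincipalIdealRing.of_surjective (Ideal.Quotient.mk _) Ideal.Quotient.mk_surjective
  have hadj : ∀ r : R, ∃ r' : R, ∀ x y, H.b (φ r x) y = H.b x (φ r' y) := by
    intro r
    obtain ⟨P, rfl⟩ := Ideal.Quotient.mk_surjective r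
    induction P using Polynomial.induction_on with
    | C a => exact ⟨Ideal.Quotient.mk _ (C (star a)), fun x y => by simp [hφ']⟩
    | add P Q hP hQ =>
      obtain ⟨r, hr⟩ := hP
      obtain ⟨s, hs⟩ := hQ
      exact ⟨r + s, fun x y => by simp [hr, hs]⟩
    | monomial n a hP =>
      obtain ⟨r, hr⟩ := hP
      refine ⟨Ideal.Quotient.mk _ (X ^ (orderOf h - 1)) * r, fun x y => ?_⟩
      have h1 : h ^ (orderOf h - 1) = h⁻¹ := by
        rw [eq_inv_iff_mul_eq_one, ← pow_succ, Nat.sub_add_cancel (orderOf_pos h),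
          pow_orderOf_eq_one]
      rw [pow_succ, ← mul_assoc, map_mul, map_mul, Module.End.mul_apply, hr, map_mul φ, hφ', hφ',
        aeval_X, map_pow, aeval_X, ← map_pow, h1, Module.End.mul_apply, lin_apply, lin_apply,
        b_gsmul_left]
  choose σ hσ using hadj
  have huniq : ∀ r r', (∀ x y, H.b (φ r x) y = H.b x (φ r' y)) → σ r = r' := fun r r' e =>
    hφ (LinearMap.ext fun y => H.eq_of_b' fun x => by rw [← hσ, e])
  let A : H.Ad R :=
    { φ := φ
      σ :=
        { toFun := σ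
          map_one' := huniq _ _ fun x y => by simp
          map_mul' := fun r s => huniq _ _ fun x y => by
            rw [mul_comm (σ r), map_mul, map_mul, Module.End.mul_apply, Module.End.mul_apply,
              hσ, hσ]
          map_zero' := huniq _ _ fun x y => by simp
          map_add' := fun r s => huniq _ _ fun x y => by simp [hσ] }
      inj := hφ
      adj := hσ
      ind := fun D hD hD' => hind D hD fun y hy => by
        simpa [hφ'] using hD' (Ideal.Quotient.mk _ X) y hy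
      odd := hodd }
  obtain ⟨B, hB, hB'⟩ := A.exists_subgroup
  refine ⟨B, fun b hb => ?_, hB'⟩
  obtain ⟨r, hr⟩ := hB b hb
  have h1 : H.lin h = φ (Ideal.Quotient.mk _ X) := by simp [hφ']
  refine U_ext fun y => ?_
  rw [← lin_apply, ← lin_apply, map_mul, map_mul, hr, h1, ← map_mul, ← map_mul, mul_comm]

theorem cent_of_sub {D : Submodule F V} (hD : H.Nd D) (h : H.U) (hh : ∀ y ∈ D, h • y ∈ D)
    (ih : ∀ h' : (H.sub D hD).U, ∃ B : Subgroup (H.sub D hD).U, (∀ b ∈ B, Commute b h') ∧
      ∑ b : B, (-(qq F : ℂ)) ^ (H.sub D hD).kk b = 0) :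
    ∃ B : Subgroup H.U, (∀ b ∈ B, Commute b h) ∧ ∑ b : B, (-(qq F : ℂ)) ^ H.kk b = 0 := by
  obtain ⟨h', hh'⟩ := hD.exists_res h hh
  obtain ⟨B, hB, hB'⟩ := ih h'
  refine ⟨B.map hD.ext, ?_, ?_⟩
  · rintro _ ⟨b, hb, rfl⟩
    refine hD.U_ext (fun y hy => ?_) fun y hy => ?_
    · rw [mul_smul, mul_smul, hD.ext_coe b ⟨y, hy⟩, ← hh', ← hh' ⟨y, hy⟩, hD.ext_coe,
        ← mul_smul, ← mul_smul, (hB b hb).eq]
    · rw [mul_smul, mul_smul, hD.ext_perp b hy, hD.ext_perp b (perp_invariant h hh y hy)]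
  · rw [← Equiv.sum_comp (B.equivMapOfInjective hD.ext hD.ext_injective).toEquiv]
    have : ∀ b : B, (-(qq F : ℂ)) ^ H.kk
        ((B.equivMapOfInjective hD.ext hD.ext_injective).toEquiv b : H.U) =
        (-(qq F : ℂ)) ^ (H.sub D hD).kk b * (-(qq F : ℂ)) ^ finrank F (H.perp D) := fun b => by
      rw [← pow_add, ← hD.kk_ext]; rfl
    rw [Finset.sum_congr rfl fun b _ => this b, ← Finset.sum_mul, hB', zero_mul]

theorem cent_aux (n : ℕ) : ∀ (V : Type u) [AddCommGroup V] [Module F V] [Fintype V] (H : HS F V)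
    (h : H.U), finrank F V = n → Odd n →
    ∃ B : Subgroup H.U, (∀ b ∈ B, Commute b h) ∧ ∑ b : B, (-(qq F : ℂ)) ^ H.kk b = 0 := by
  induction n using Nat.strong_induction_on with
  | _ n ih =>
  intro V _ _ _ H h hn hodd
  by_cases hind : ∀ D : Submodule F V, H.Nd D → (∀ y ∈ D, h • y ∈ D) → D = ⊥ ∨ D = ⊤
  · exact exists_ad h (hn ▸ hodd) hind
  push Not at hind
  obtain ⟨D, hD, hh, h0, h1⟩ := hind
  have h2 := hD.finrank_add
  have h3 : finrank F D ≠ 0 := fun h => h0 (Submodule.finrank_eq_zero.1 h)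
  have h4 : finrank F D < finrank F V := Submodule.finrank_lt h1
  by_cases h5 : Odd (finrank F D)
  · exact cent_of_sub hD h hh fun h' => ih _ (by omega) _ _ h' rfl h5
  · refine cent_of_sub hD.perp h (perp_invariant h hh) fun h' => ih _ (by omega) _ _ h' rfl ?_
    rw [Nat.odd_iff] at h5 hodd ⊢
    omega

/-- Each centralizer contains a subgroup on which the Weil character sums to zero. -/
theorem exists_cent_sum_zero (hodd : Odd (finrank F V)) (h : H.U) :
    ∃ B : Subgroup H.U, (∀ b ∈ B, Commute b h) ∧ ∑ b : B, (-(qq F : ℂ)) ^ H.kk b = 0 :=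
  cent_aux _ V H h rfl hodd

end HS

end UW
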