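import Cfsg.Agent.Lib.UW.Step
import Cfsg.Agent.Lib.UW.Weil

/-!
# Nontrivial representations with property (Z) are Weil representations
-/

set_option autoImplicit false
set_option linter.unusedSectionVars false

open scoped Classical
open Module

namespace UW

section Trace

variable {W : Type*} [AddCommGroup W] [Module ℂ W] [FiniteDimensional ℂ W]

theorem trace_idem {p : Module.End ℂ W} (hp : p * p = p) :
    ∃ m : ℕ, LinearMap.trace ℂ W p = m ∧ (p ≠ 0 → 0 < m) := by
  have hp' : IsIdempotentElem p := hp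
  refine ⟨_, (LinearMap.IsIdempotentElem.isProj_range p hp').trace, fun h => ?_⟩
  rw [Nat.pos_iff_ne_zero, Ne, Submodule.finrank_eq_zero, LinearMap.range_eq_bot]
  exact h

theorem sum_trace_mul_trace {ι : Type*} (s : Finset ι) (a b : ι → Module.End ℂ W)
    (h : ∀ X, ∑ i ∈ s, a i * X * b i = 0) :
    ∑ i ∈ s, LinearMap.trace ℂ W (a i) * LinearMap.trace ℂ W (b i) = 0 := by
  let B := Module.finBasis ℂ W
  simp only [LinearMap.trace_eq_matrix_trace ℂ B, Matrix.trace, Matrix.diag,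
    LinearMap.toMatrix_apply, Finset.sum_mul_sum]
  rw [Finset.sum_comm]
  refine Finset.sum_eq_zero fun j _ => ?_
  rw [Finset.sum_comm]
  refine Finset.sum_eq_zero fun k _ => ?_
  have := congrArg (fun T : Module.End ℂ W => B.repr (T (B k)) j)
    (h ((B.coord k).smulRight (B j)))
  simpa [LinearMap.sum_apply, mul_comm] using this

end Trace

namespace HS

universe u

variable {F V : Type*} [Field F] [Fintype F] [StarRing F] [HF F] [AddCommGroup V] [Module F V]
  [Fintype V] {H : HS F V}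

section Alg

variable {A : Type*} [Ring A] [Algebra ℂ A] (R : H.U →ₙ* A)

/-- The sum over a subgroup. -/
noncomputable def sm (K : Subgroup H.U) : A := ∑ g : K, R g

/-- The elements fixing `Y` on the left. -/
def Fixer (Y : A) (h : R 1 * Y = Y) : Subgroup H.U where
  carrier := {g | R g * Y = Y}
  mul_mem' {g k} hg hk := by
    change R (g * k) * Y = Y
    rw [map_mul, mul_assoc, hk, hg]
  one_mem' := h
  inv_mem' {g} hg := by
    change R g⁻¹ * Y = Y
    have hg' : R g * Y = Y := hg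
    nth_rw 1 [← hg']
    rw [← mul_assoc, ← map_mul, inv_mul_cancel, h]

theorem Class_realise_eqns : True := by
  have := @sm.eq_1.{0, 0, 0}
  have := @Fixer.eq_1.{0, 0, 0}
  trivial

theorem mul_sm {K : Subgroup H.U} {k : H.U} (hk : k ∈ K) : R k * sm R K = sm R K := by
  rw [sm, Finset.mul_sum, ← Equiv.sum_comp (Equiv.mulLeft (⟨k, hk⟩ : K)) (fun g : K => R g)]
  exact Finset.sum_congr rfl fun g _ => (map_mul R _ _).symm

theorem sm_mul {K : Subgroup H.U} {k : H.U} (hk : k ∈ K) : sm R K * R k = sm R K := by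
  rw [sm, Finset.sum_mul, ← Equiv.sum_comp (Equiv.mulRight (⟨k, hk⟩ : K)) (fun g : K => R g)]
  exact Finset.sum_congr rfl fun g _ => (map_mul R _ _).symm

theorem sm_mul_of {K : Subgroup H.U} {Y : A} (h : ∀ g ∈ K, R g * Y = Y) :
    sm R K * Y = (Fintype.card K : ℂ) • Y := by
  rw [sm, Finset.sum_mul, Finset.sum_congr rfl fun (g : K) _ => h g g.2, Finset.sum_const,
    Finset.card_univ, Nat.cast_smul_eq_nsmul]

theorem mul_sm_of {K : Subgroup H.U} {Y : A} (h : ∀ g ∈ K, Y * R g = Y) :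
    Y * sm R K = (Fintype.card K : ℂ) • Y := by
  rw [sm, Finset.mul_sum, Finset.sum_congr rfl fun (g : K) _ => h g g.2, Finset.sum_const,
    Finset.card_univ, Nat.cast_smul_eq_nsmul]

theorem zz_mul_of {Y : A} {e : V} (h : ∀ s : F, star s = -s → R (H.τ e s) * Y = Y) :
    zz R e * Y = Y := by
  rw [zz, smul_mul_assoc, Finset.sum_mul,
    Finset.sum_congr rfl fun (s : skewAdjoint F) _ => h s s.2,
    Finset.sum_const, Finset.card_univ, card_sk, ← Nat.cast_smul_eq_nsmul ℂ, smul_smul,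
    inv_mul_cancel₀ (qq_ne F), one_smul]

theorem ZP.sm_Q {R : H.U →ₙ* A} (hZ : ZP R) {e : V} (h0 : e ≠ 0) (he : H.b e e = 0) :
    sm R (H.Q e) = (Fintype.card (H.Q e) : ℂ) • zz R e := by
  rw [← sm_mul_of R (hZ e h0 he), mul_zz_of R fun s hs => sm_mul R (tau_mem_Q he hs)]

end Alg

theorem exists_tau_of_fix {e : V} (he : H.b e e = 0) (h0 : e ≠ 0) {g : H.U} (hg : g ∈ H.Q e)
    (h : ∀ y, H.b y e = 0 → g • y = y) : ∃ s, star s = -s ∧ g = H.τ e s := by
  obtain ⟨u, s, hok, rfl⟩ := (mem_Q_iff he h0).1 hg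
  obtain ⟨f, hf⟩ := exists_hyp he h0
  have h1 : u = H.b u f • e := hf.eq_smul fun z hz => by
    have := h z hz
    rw [hok.sg_perp hz, sub_eq_self, smul_eq_zero] at this
    exact H.symm_zero (this.resolve_right h0)
  generalize H.b u f = t at h1
  subst h1
  have h2 := hok.tr
  simp only [smul_left, smul_right, he, mul_zero, add_zero] at h2
  have h3 : star (s + t - star t) = -(s + t - star t) := by
    simp only [star_sub, star_add, star_star]
    linear_combination h2
  refine ⟨_, h3, U_ext fun y => ?_⟩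
  rw [hok.sg_smul, tau_smul he h3, smul_right]
  module

theorem tau_inj {e : V} (he : H.b e e = 0) (h0 : e ≠ 0) {s t : F} (hs : star s = -s)
    (ht : star t = -t) (h : H.τ e s = H.τ e t) : s = t := by
  obtain ⟨f, hf⟩ := exists_hyp he h0
  have := congrArg (· • f) h
  simp only [tau_smul he hs, tau_smul he ht, hf.fe, mul_one, add_right_inj] at this
  exact smul_left_injective F h0 this

theorem Hyp.kk_ext_tau {e f : V} (h : H.Hyp e f) (g : (H.sub _ h.nd).U) {s : F}
    (hs : star s = -s) (h0 : s ≠ 0) :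
    H.kk (h.nd.ext g * H.τ e s) = (H.sub _ h.nd).kk g + 1 := by
  have h1 : H.fx (h.nd.ext g * H.τ e s) =
      ((H.sub _ h.nd).fx g).map (H.hp e f).subtype ⊔ F ∙ e := by
    apply le_antisymm
    · intro y hy
      rw [mem_fx, mul_smul, tau_smul h.ee hs] at hy
      have h2 := congrArg (fun w => H.b w f) hy
      simp only [smul_add, gsmul, h.ext_e, add_left, smul_left, h.ef, mul_one] at h2
      rw [b_gsmul_left, inv_smul_eq_iff.2 (h.ext_f g).symm, add_eq_left, mul_eq_zero] at h2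
      have h3 := h2.resolve_left h0
      rw [h3, mul_zero, zero_smul, add_zero] at hy
      have h4 := h.prp_mem y
      rw [h3, zero_smul, sub_zero] at h4
      rw [← sub_add_cancel y (H.b y f • e)]
      refine Submodule.add_mem_sup ⟨⟨_, h4⟩, (mem_fx _).2 (Subtype.ext ?_), rfl⟩
        (Submodule.smul_mem _ _ (Submodule.mem_span_singleton_self e))
      rw [← h.nd.ext_coe, smul_sub, gsmul, hy, h.ext_e]
    · refine sup_le ?_ ?_
      · rintro _ ⟨x, hx, rfl⟩
        rw [mem_fx, mul_smul, tau_smul h.ee hs, Submodule.subtype_apply, x.2.1, mul_zero,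
          zero_smul, add_zero, h.nd.ext_coe, (mem_fx _).1 hx]
      · rw [Submodule.span_singleton_le_iff_mem, mem_fx, mul_smul, (tau_mem_Q h.ee hs).1,
          h.ext_e]
  rw [kk, h1, Submodule.finrank_sup_span_singleton, Submodule.finrank_map_subtype_eq, kk]
  rintro ⟨x, -, hx⟩
  have := x.2.2
  rw [Submodule.subtype_apply] at hx
  rw [hx, h.ef] at this
  exact one_ne_zero this

theorem kk_tau {e : V} (he : H.b e e = 0) (h0 : e ≠ 0) {s : F} (hs : star s = -s) (hs0 : s ≠ 0) :
    H.kk (H.τ e s) + 1 = finrank F V := by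
  obtain ⟨f, h⟩ := exists_hyp he h0
  have := h.kk_ext_tau 1 hs hs0
  rw [map_one, one_mul, kk_one] at this
  have := h.finrank_hp
  omega

theorem kk_le (g : H.U) : H.kk g ≤ finrank F V := Submodule.finrank_le _

theorem eq_one_of_kk {g : H.U} (h : H.kk g = finrank F V) : g = 1 :=
  U_ext fun y => (mem_fx H).1 (Submodule.eq_top_of_finrank_eq h ▸ Submodule.mem_top)

theorem exists_tau_of_kk {g : H.U} (hg : g ∈ H.S) (h : H.kk g + 1 = finrank F V) :
    ∃ e s, e ≠ 0 ∧ H.b e e = 0 ∧ star s = -s ∧ s ≠ 0 ∧ g = H.τ e s := by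
  have hne : g ≠ 1 := fun h1 => by rw [h1, kk_one] at h; omega
  by_cases hD : H.Nd (H.fx g)
  · obtain ⟨g', hg'⟩ := hD.perp.exists_ext g fun y hy => (mem_fx H).1 (hD.perp_perp hy)
    have h1 := hD.finrank_add
    rw [eq_one_of_finrank_one (g := g') (by rw [kk] at h; omega)
      (hD.perp.ext_mem_S.1 (hg'.symm ▸ hg)), map_one] at hg'
    exact absurd hg'.symm hne
  rw [Nd] at hD
  push Not at hD
  obtain ⟨e, he, he', h0⟩ := hD
  have h1 : H.fx g = LinearMap.ker (H.bl e) := by
    refine Submodule.eq_of_le_of_finrank_le (fun y hy => H.symm_zero (he' y hy)) ?_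
    have h2 : LinearMap.ker (H.bl e) ≠ ⊤ := fun h2 => h0 (H.nondeg' fun y =>
      (Submodule.eq_top_iff'.1 h2) y)
    have := Submodule.finrank_lt h2
    rw [kk] at h
    omega
  have h2 : ∀ y, H.b y e = 0 → g • y = y := fun y hy => (mem_fx H).1 (h1 ▸ hy)
  obtain ⟨s, hs, rfl⟩ := exists_tau_of_fix (he' e he) h0
    ⟨(mem_fx H).1 he, fun y hy => ⟨0, by simpa using h2 y hy⟩⟩ h2
  exact ⟨e, s, h0, he' e he, hs, fun h => hne (by rw [h, tau_zero]), rfl⟩

variable (H) in
/-- The nonzero isotropic vectors. -/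
noncomputable def Iso : Finset V := Finset.univ.filter fun x => x ≠ 0 ∧ H.b x x = 0

theorem Iso_realise_eqns : True := by
  have := @Iso.eq_1.{0, 0}
  trivial

theorem mem_Iso {x : V} : x ∈ H.Iso ↔ x ≠ 0 ∧ H.b x x = 0 := by simp [Iso]

theorem Hyp.card_fiber' {e f : V} (h : H.Hyp e f) {c : F} (hc : star c = c) :
    (Finset.univ.filter fun y => H.b y e ≠ 0 ∧ H.b y y = c).card =
      (qq F ^ 2 - 1) * (Fintype.card (H.hp e f) * qq F) := by
  rw [Finset.card_eq_sum_card_fiberwise (f := fun y => H.b y e)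
    (t := Finset.univ.filter (· ≠ 0)) (fun y hy => by simpa using (Finset.mem_filter.1 hy).2.1),
    Finset.sum_congr rfl (g := fun _ => Fintype.card (H.hp e f) * qq F), Finset.sum_const,
    Finset.filter_ne', Finset.card_erase_of_mem (Finset.mem_univ _), Finset.card_univ, card_F,
    smul_eq_mul]
  intro a ha
  have ha' : a ≠ 0 := (Finset.mem_filter.1 ha).2
  rw [← h.card_fiber ha' hc, Fintype.card_subtype]
  congr 1
  ext y
  simp only [Finset.mem_filter, Finset.mem_univ, true_and]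
  exact ⟨fun h => ⟨h.2, h.1.2⟩, fun h => ⟨⟨h.1 ▸ ha', h.2⟩, h.1⟩⟩

theorem card_Iso_three (h3 : finrank F V = 3) :
    (H.Iso.card : ℂ) = ((qq F : ℂ) ^ 2 - 1) * ((qq F : ℂ) ^ 3 + 1) := by
  obtain ⟨e, h0, he⟩ := H.exists_iso (by omega)
  obtain ⟨f, h⟩ := exists_hyp he h0
  have h1 : finrank F (H.hp e f) = 1 := by have := h.finrank_hp; omega
  have h2 := Finset.card_filter_add_card_filter_not (s := H.Iso) (fun y => H.b y e ≠ 0)
  have h4 : H.Iso.filter (fun y => H.b y e ≠ 0) =
      Finset.univ.filter fun y => H.b y e ≠ 0 ∧ H.b y y = 0 := by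
    ext y
    simp only [Finset.mem_filter, mem_Iso, Finset.mem_univ, true_and]
    exact ⟨fun h => ⟨h.2, h.1.2⟩, fun h => ⟨⟨ne_zero_of_b_ne h.1, h.2⟩, h.1⟩⟩
  have h5 : H.Iso.filter (fun y => ¬ H.b y e ≠ 0) =
      (Finset.univ.filter (· ≠ (0 : F))).map ⟨(· • e), smul_left_injective F h0⟩ := by
    ext y
    simp only [Finset.mem_filter, mem_Iso, Finset.mem_univ, true_and, Finset.mem_map,
      Function.Embedding.coeFn_mk, not_not]
    constructor
    · rintro ⟨⟨hy0, hy⟩, hye⟩
      have h6 := h.prp_mem y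
      rw [hye, zero_smul, sub_zero] at h6
      have h7 : y - H.b y f • e = 0 := by
        refine h.nd _ h6 fun z hz => ?_
        by_contra h8
        have h9 : (⟨_, h6⟩ : H.hp e f) ≠ 0 := fun h => ne_zero_of_b_ne h8 (congrArg Subtype.val h)
        obtain ⟨c, hc⟩ := (finrank_eq_one_iff_of_nonzero' _ h9).1 h1 ⟨z, hz⟩
        have hc' : c • (y - H.b y f • e) = z := congrArg Subtype.val hc
        apply h8
        rw [← hc']
        simp [hy, hye, H.symm_zero hye, he]
      rw [sub_eq_zero] at h7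
      exact ⟨_, fun h => hy0 (by rw [h7, h, zero_smul]), h7.symm⟩
    · rintro ⟨a, ha, rfl⟩
      exact ⟨⟨smul_ne_zero ha h0, by simp [he]⟩, by simp [he]⟩
  rw [h4, h5, h.card_fiber' (star_zero F), Finset.card_map, Finset.filter_ne',
    Finset.card_erase_of_mem (Finset.mem_univ _), Finset.card_univ, card_F F,
    card_eq_pow (F := F), h1] at h2
  have h6 : 1 ≤ qq F ^ 2 := Nat.one_le_pow _ _ (qq_pos F)
  rw [← h2]
  push_cast [Nat.cast_sub h6]
  ring

theorem count_tau {e : V} (he : H.b e e = 0) (h0 : e ≠ 0) {s : F} (hs : star s = -s)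
    (hs0 : s ≠ 0) : ∑ x ∈ H.Iso, ∑ t : skewAdjoint F,
      (if H.τ e s = H.τ x t then (1 : ℂ) else 0) = (qq F : ℂ) ^ 2 - 1 := by
  obtain ⟨f, h⟩ := exists_hyp he h0
  rw [← Finset.sum_of_injOn (s := Finset.univ.filter (· ≠ (0 : F))) (f := fun _ => (1 : ℂ))
    (· • e) (smul_left_injective F h0).injOn]
  · rw [Finset.sum_const, Finset.filter_ne', Finset.card_erase_of_mem (Finset.mem_univ _),
      Finset.card_univ, nsmul_eq_mul, mul_one, Nat.cast_sub Fintype.card_pos, card_F_cast]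
    simp
  · intro a ha
    have ha' : a ≠ 0 := by simpa using ha
    simp [mem_Iso, ha', h0, he]
  · intro x hx hx'
    refine Finset.sum_eq_zero fun t _ => if_neg fun h1 => hx' ?_
    have h2 := congrArg (· • f) h1
    simp only [tau_smul he hs, tau_smul (mem_Iso.1 hx).2 t.2, h.fe, mul_one, add_right_inj] at h2
    have h3 : (t : F) * H.b f x ≠ 0 := fun h3 => by
      rw [h3, zero_smul, smul_eq_zero] at h2
      exact h2.elim hs0 h0
    refine ⟨s / (t * H.b f x), by simpa using div_ne_zero hs0 h3, ?_⟩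
    simp only
    rw [div_eq_inv_mul, mul_smul, h2, inv_smul_smul₀ h3]
  · intro a ha
    have ha' : a ≠ 0 := by simpa using ha
    have h1 : a * star a ≠ 0 := mul_ne_zero ha' (star_ne_zero.2 ha')
    rw [Finset.sum_eq_single ⟨s / (a * star a), by simp [mem_sk, hs, mul_comm, neg_div]⟩, if_pos]
    · rw [tau_smul_vec he (by simp [hs, mul_comm, neg_div]), div_mul_cancel₀ _ h1]
    · intro t _ ht
      refine if_neg fun h2 => ht (Subtype.ext ?_)
      rw [tau_smul_vec he t.2] at h2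
      exact eq_div_of_mul_eq h1 (tau_inj he h0 hs (by simp [sk_star, mul_comm]) h2).symm
    · simp

theorem identity_three (h3 : finrank F V = 3) {g : H.U} (hg : g ∈ H.S) :
    ((qq F : ℂ) - 1) * H.ω g = (1 - (qq F : ℂ)) + ∑ v : V, (if g • v = v then 1 else 0) - 1 +
      ∑ x ∈ H.Iso, ((if g = 1 then (qq F : ℂ) ^ 2 else 0) - (qq F : ℂ) * (qq F + 1) *
        ∑ t : skewAdjoint F, if g = H.τ x t then (1 : ℂ) else 0) := by
  have h1 : ∑ v : V, (if g • v = v then (1 : ℂ) else 0) = (qq F : ℂ) ^ (2 * H.kk g) := by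
    rw [Finset.sum_boole, ← Fintype.card_subtype, card_fx, Nat.cast_pow]
  rw [h1, ω, h3, Finset.sum_sub_distrib, ← Finset.mul_sum]
  by_cases h2 : g = 1
  · subst h2
    have h4 : ∀ x ∈ H.Iso, ∑ t : skewAdjoint F, (if 1 = H.τ x t then (1 : ℂ) else 0) = 1 := by
      intro x hx
      rw [Finset.sum_eq_single 0, ZeroMemClass.coe_zero, if_pos (tau_zero x).symm]
      · intro t _ ht
        refine if_neg fun h => ht (Subtype.ext ?_)
        rw [← tau_zero x] at h
        exact (tau_inj (mem_Iso.1 hx).2 (mem_Iso.1 hx).1 (by simp) t.2 h).symm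
      · simp
    rw [Finset.sum_congr rfl h4, kk_one, h3]
    simp only [if_true, Finset.sum_const, nsmul_eq_mul, card_Iso_three h3]
    ring
  simp only [h2, if_false, Finset.sum_const_zero]
  by_cases h4 : H.kk g = 2
  · obtain ⟨e, s, h0, he, hs, hs0, rfl⟩ := exists_tau_of_kk hg (by omega)
    rw [count_tau he h0 hs hs0, h4]
    ring
  have h5 : ∑ x ∈ H.Iso, ∑ t : skewAdjoint F, (if g = H.τ x t then (1 : ℂ) else 0) = 0 := by
    refine Finset.sum_eq_zero fun x hx => Finset.sum_eq_zero fun t _ => if_neg fun h => ?_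
    have := kk_tau (mem_Iso.1 hx).2 (mem_Iso.1 hx).1 t.2 fun h0 => h2 (by rw [h, h0, tau_zero])
    rw [← h] at this
    omega
  have h6 : H.kk g ≠ 3 := fun h => h2 (eq_one_of_kk (h.trans h3.symm))
  have h7 := kk_le g
  rw [h5]
  obtain h8 | h8 : H.kk g = 0 ∨ H.kk g = 1 := by omega
  · rw [h8]; ring
  · rw [h8]; ring

variable {W : Type*} [AddCommGroup W] [Module ℂ W] [FiniteDimensional ℂ W]

theorem ZP.base_sum {R : H.U →ₙ* Module.End ℂ W} (hZ : ZP R) (h3 : finrank F V = 3)
    {p : Module.End ℂ W} (hp : p * p = p) (hc : ∀ g ∈ H.S, R g * p = p * R g)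
    (hS : p * sm R H.S = 0) (hNT : ∀ e, e ≠ 0 → H.b e e = 0 → p * cz R e ≠ 0) :
    ∑ g : H.S, LinearMap.trace ℂ W (p * R g) * H.ω g ≠ 0 := by
  set tr := LinearMap.trace ℂ W
  have hq := qq_ne F
  have hodd : Odd (finrank F V) := by rw [h3]; decide
  have h1 : ∀ v : V, ∑ g : H.S, tr (p * R g) * (if (g : H.U) • v = v then 1 else 0) =
      tr (p * sm R (H.S ⊓ MulAction.stabilizer H.U v)) := by
    intro v
    rw [sm, Finset.mul_sum, map_sum, ← Finset.sum_subtype (Finset.univ.filter (· ∈ H.S))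
      (by simp) (fun g => tr (p * R g) * (if g • v = v then 1 else 0)),
      ← Finset.sum_subtype (Finset.univ.filter (· ∈ H.S ⊓ MulAction.stabilizer H.U v))
      (by simp) (fun g => tr (p * R g)), Finset.sum_filter, Finset.sum_filter]
    refine Finset.sum_congr rfl fun g _ => ?_
    by_cases e1 : g ∈ H.S <;> by_cases e2 : g • v = v <;> simp [e1, e2]
  have h2 : ∀ v : V, tr (p * sm R (H.S ⊓ MulAction.stabilizer H.U v)) =
      if v ∈ H.Iso then (qq F : ℂ) ^ 3 * tr (p * zz R v) else 0 := by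
    intro v
    split_ifs with hv
    · obtain ⟨h0, he⟩ := mem_Iso.1 hv
      obtain ⟨f, h⟩ := exists_hyp he h0
      have h4 : finrank F (H.hp v f) = 1 := by have := h.finrank_hp; omega
      have h5 : H.S ⊓ MulAction.stabilizer H.U v = H.Q v := by
        refine le_antisymm (fun g hg => ?_) fun g hg => ⟨Q_le_S he h0 hg, hg.1⟩
        obtain ⟨k, hk, g', hg', rfl⟩ := h.stab_S hg.1 hg.2
        rwa [eq_one_of_finrank_one h4 hg', map_one, mul_one]
      rw [h5, hZ.sm_Q h0 he, h.card_Q, card_eq_pow (F := F), h4, mul_smul_comm, map_smul]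
      push_cast
      ring
    by_cases h0 : v = 0
    · subst h0
      have : H.S ⊓ MulAction.stabilizer H.U (0 : V) = H.S :=
        inf_eq_left.2 fun g _ => smul_zero g
      rw [this, hS, map_zero]
    have hv' : H.b v v ≠ 0 := fun h => hv (mem_Iso.2 ⟨h0, h⟩)
    have hD : H.Nd (F ∙ v) := by
      intro x hx hx'
      obtain ⟨a, rfl⟩ := Submodule.mem_span_singleton.1 hx
      have := hx' v (Submodule.mem_span_singleton_self v)
      rw [smul_left, mul_eq_zero] at this
      rw [this.resolve_right hv', zero_smul]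
    have h4 := hD.finrank_add
    rw [finrank_span_singleton h0] at h4
    obtain ⟨e, he0, he⟩ := (H.sub _ hD.perp).exists_iso (by omega)
    obtain ⟨f, hf⟩ := exists_hyp he he0
    have h : H.Hyp e f := ⟨hf.ee, hf.ff, hf.ef⟩
    set Y := sm R (H.S ⊓ MulAction.stabilizer H.U v)
    have hY : R 1 * Y = Y := mul_sm R (Subgroup.one_mem _)
    have h5 : ∀ x : H.perp (F ∙ v), (x : V) ≠ 0 → H.b x x = 0 → H.Q x ≤ Fixer R Y hY := by
      intro x hx0 hx g hg
      have : zz R x * Y = Y := zz_mul_of R fun s hs => mul_sm R ⟨tau_mem_S hx hs, by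
        have := H.symm_zero (x.2 v (Submodule.mem_span_singleton_self v))
        change H.τ x s • v = v
        rw [tau_smul hx hs, this]; simp⟩
      change R g * Y = Y
      rw [← this, ← mul_assoc, hZ _ hx0 hx g hg]
    have h6 := (allQ_of_pair h (h5 e h.ne_zero h.ee) (h5 f h.symm.ne_zero h.ff)).S_le hodd
    have h7 := sm_mul_of R (K := H.S) (Y := Y) h6
    have h8 : (Fintype.card H.S : ℂ) • (p * Y) = 0 := by
      rw [← mul_smul_comm, ← h7, ← mul_assoc, hS, zero_mul]
    rw [(smul_eq_zero.1 h8).resolve_left (Nat.cast_ne_zero.2 Fintype.card_ne_zero), map_zero]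
  have h4 : ∑ g : H.S, tr (p * R g) = 0 := by
    rw [← map_sum, ← Finset.mul_sum, ← sm, hS, map_zero]
  have h5 : ∀ x ∈ H.Iso, ∑ g : H.S, tr (p * R g) * ((if (g : H.U) = 1 then (qq F : ℂ) ^ 2 else 0) -
      (qq F : ℂ) * (qq F + 1) * ∑ t : skewAdjoint F, if (g : H.U) = H.τ x t then (1 : ℂ) else 0) =
      (qq F : ℂ) ^ 2 * tr (p * R 1) - (qq F : ℂ) ^ 2 * (qq F + 1) * tr (p * zz R x) := by
    intro x hx
    simp only [mul_sub, Finset.sum_sub_distrib]
    congr 1
    · rw [Finset.sum_eq_single 1 (fun g _ hg => by simp [hg]) (by simp)]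
      simp [mul_comm]
    · rw [Finset.sum_congr rfl fun g _ => by rw [mul_left_comm, Finset.mul_sum], ← Finset.mul_sum,
        Finset.sum_comm, zz, mul_smul_comm, map_smul, Finset.mul_sum _ _ p, map_sum, smul_eq_mul,
        Finset.sum_congr rfl (g := fun t : skewAdjoint F => tr (p * R (H.τ x t)))]
      · field_simp
      intro t _
      rw [Finset.sum_eq_single ⟨H.τ x t, tau_mem_S (mem_Iso.1 hx).2 t.2⟩
        (fun g _ hg => by simp [mt Subtype.ext hg]) (by simp)]
      simp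
  have h6 : ((qq F : ℂ) - 1) * ∑ g : H.S, tr (p * R g) * H.ω g =
      (qq F : ℂ) ^ 2 * ∑ x ∈ H.Iso, tr (p * cz R x) := by
    rw [Finset.mul_sum, Finset.sum_congr rfl fun (g : H.S) _ => by
      rw [mul_left_comm, identity_three h3 g.2, mul_add, mul_sub, mul_add, mul_one,
        Finset.mul_sum, Finset.mul_sum H.Iso], Finset.sum_add_distrib, Finset.sum_sub_distrib,
      Finset.sum_add_distrib, ← Finset.sum_mul, h4, Finset.sum_comm,
      Finset.sum_congr rfl fun v _ => (h1 v).trans (h2 v), Finset.sum_comm,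
      Finset.sum_congr rfl h5, ← Finset.sum_filter, Finset.filter_mem_eq_inter, Finset.univ_inter,
      Finset.mul_sum, zero_mul, zero_add, sub_zero, ← Finset.sum_add_distrib]
    refine Finset.sum_congr rfl fun x _ => ?_
    rw [cz, mul_sub p, map_sub]
    ring
  have h7 : ∀ x : H.Iso, ∃ m : ℕ, tr (p * cz R x) = m ∧ 0 < m := by
    intro x
    obtain ⟨h0, he⟩ := mem_Iso.1 x.2
    have h8 : cz R x * p = p * cz R x := by
      rw [cz, mul_sub, sub_mul, hc 1 H.S.one_mem,
        zz_comm_of R fun s hs => hc _ (tau_mem_S he hs)]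
    obtain ⟨m, hm, hm'⟩ := trace_idem (p := p * cz R x) (by
      rw [mul_assoc, ← mul_assoc (cz R x), h8, mul_assoc, cz_cz R he, ← mul_assoc, hp])
    exact ⟨m, hm, hm' (hNT x h0 he)⟩
  choose m hm hm' using h7
  intro h
  rw [h, mul_zero, ← Finset.sum_coe_sort, Finset.sum_congr rfl fun x _ => hm x, ← Nat.cast_sum,
    eq_comm, mul_eq_zero, Nat.cast_eq_zero, Finset.sum_eq_zero_iff] at h6
  obtain ⟨e, h0, he⟩ := H.exists_iso (by omega)
  exact (hm' ⟨e, mem_Iso.2 ⟨h0, he⟩⟩).ne'
    (h6.resolve_left (pow_ne_zero _ hq) _ (Finset.mem_univ _))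

theorem ZP.base {R : H.U →ₙ* Module.End ℂ W} (hZ : ZP R) (h3 : finrank F V = 3)
    {p o : Module.End ℂ W} (hp : p * p = p) (ho : o * o = o) (hc : ∀ g, R g * p = p * R g)
    (hc' : ∀ g, R g * o = o * R g) (hω : ∀ g ∈ H.S, LinearMap.trace ℂ W (o * R g) = H.ω g)
    (hNT : ∀ e, e ≠ 0 → H.b e e = 0 → p * cz R e ≠ 0) :
    ∃ φ : Module.End ℂ W, (∀ g ∈ H.S, R g * φ = φ * R g) ∧ φ * R 1 = φ ∧ R 1 * φ = φ ∧
      o * φ * p ≠ 0 := by
  have hS0 : (Fintype.card H.S : ℂ) ≠ 0 := Nat.cast_ne_zero.2 Fintype.card_ne_zero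
  obtain ⟨a, ha⟩ : ∃ a, a = (Fintype.card H.S : ℂ)⁻¹ • sm R H.S := ⟨_, rfl⟩
  have ha1 : ∀ g ∈ H.S, R g * a = a := fun g hg => by rw [ha, mul_smul_comm, mul_sm R hg]
  have ha2 : ∀ g ∈ H.S, a * R g = a := fun g hg => by rw [ha, smul_mul_assoc, sm_mul R hg]
  have ha3 : a * sm R H.S = sm R H.S := by
    rw [mul_sm_of R ha2, ha, smul_inv_smul₀ hS0]
  have ha4 : a * a = a := by
    nth_rw 2 [ha]
    rw [mul_smul_comm, ha3, ha]
  have ha5 : a * p = p * a := by
    simp only [ha, sm, smul_mul_assoc, mul_smul_comm, Finset.sum_mul, Finset.mul_sum, hc]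
  have ha6 : (R 1 - a) * p = p * (R 1 - a) := by rw [sub_mul, mul_sub, hc, ha5]
  have h1 := hZ.base_sum h3 (p := p * (R 1 - a))
    (by
      rw [mul_assoc, ← mul_assoc (R 1 - a), ha6, mul_assoc, ← mul_assoc, hp, sub_mul,
        mul_sub (R 1), mul_sub a, R_one_mul, ha1 1 H.S.one_mem, ha2 1 H.S.one_mem, ha4, sub_self, sub_zero])
    (fun g hg => by
      rw [← mul_assoc, hc, mul_assoc, mul_assoc, mul_sub, sub_mul, ha1 g hg, ha2 g hg, R_one_mul,
        R_mul_one])
    (by rw [mul_assoc, sub_mul, ha3, mul_sm R H.S.one_mem, sub_self, mul_zero])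
    (fun e h0 he => by
      rw [mul_assoc, sub_mul, one_cz, mul_cz_of R fun s hs => ha2 _ (tau_mem_S he hs), sub_zero]
      exact hNT e h0 he)
  obtain ⟨X, hX⟩ : ∃ X, ∑ g : H.S, o * R (g : H.U)⁻¹ * X * (p * (R 1 - a) * R g) ≠ 0 := by
    by_contra h
    push Not at h
    apply h1
    rw [← sum_trace_mul_trace _ _ _ h]
    exact Finset.sum_congr rfl fun g _ => by rw [hω _ (H.S.inv_mem g.2), omega_inv, mul_comm]
  refine ⟨∑ g : H.S, o * R (g : H.U)⁻¹ * X * (p * (R 1 - a) * R g), fun k hk => ?_, ?_, ?_, ?_⟩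
  · rw [Finset.mul_sum, Finset.sum_mul, ← Equiv.sum_comp (Equiv.mulRight (⟨k, hk⟩ : H.S))]
    refine Finset.sum_congr rfl fun g _ => ?_
    simp only [Equiv.coe_mulRight, Subgroup.coe_mul, mul_inv_rev]
    have : R k * (o * R (k⁻¹ * (g : H.U)⁻¹)) = o * R (g : H.U)⁻¹ := by
      rw [← mul_assoc, hc', mul_assoc, ← map_mul, mul_inv_cancel_left]
    rw [← mul_assoc (R k), ← mul_assoc (R k), this, map_mul]
    simp only [mul_assoc]
  · simp only [Finset.sum_mul, mul_assoc, R_mul_one]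
  · simp only [Finset.mul_sum, ← mul_assoc, hc']
    simp only [mul_assoc o, R_one_mul]
  · convert hX using 1
    rw [Finset.mul_sum, Finset.sum_mul]
    refine Finset.sum_congr rfl fun g _ => ?_
    rw [mul_assoc, mul_assoc, mul_assoc (p * _), hc, ← mul_assoc (p * _), mul_assoc p, ha6,
      ← mul_assoc p, hp, ← mul_assoc, ← mul_assoc o, ← mul_assoc o, ho]

/-- Restriction to the fixed points of `Z` as a representation of the smaller group. -/
noncomputable def Hyp.res {e f : V} (h : H.Hyp e f) {A : Type*} [Ring A] [Algebra ℂ A]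
    (R : H.U →ₙ* A) : (H.sub _ h.nd).U →ₙ* A where
  toFun g := R (h.nd.ext g) * zz R e
  map_mul' g k := by
    have := conj_zz R (h.nd.ext k) e
    rw [h.ext_e] at this
    rw [map_mul, map_mul, mul_assoc, mul_assoc, ← mul_assoc (zz R e), ← this, mul_assoc,
      zz_zz R h.ee]

theorem res_realise_eqns : True := by
  have := @Hyp.res.eq_1.{0, 0, 0}
  trivial

theorem Hyp.res_apply {e f : V} (h : H.Hyp e f) {A : Type*} [Ring A] [Algebra ℂ A]
    (R : H.U →ₙ* A) (g : (H.sub _ h.nd).U) : h.res R g = R (h.nd.ext g) * zz R e := rfl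

theorem Hyp.zz_res {e f : V} (h : H.Hyp e f) {A : Type*} [Ring A] [Algebra ℂ A]
    (R : H.U →ₙ* A) (x : H.hp e f) : zz (h.res R) x = zz R x * zz R e := by
  rw [zz, zz, smul_mul_assoc, Finset.sum_mul]
  simp only [res_apply, h.nd.ext_tau]

theorem class_aux (m : ℕ) : ∀ (V : Type u) [AddCommGroup V] [Module F V] [Fintype V] (H : HS F V)
    (R : H.U →ₙ* Module.End ℂ W), finrank F V = 2 * m + 3 → ZP R →
    ∀ p o : Module.End ℂ W, p * p = p → o * o = o → (∀ g, R g * p = p * R g) →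
    (∀ g, R g * o = o * R g) → (∀ g ∈ H.S, LinearMap.trace ℂ W (o * R g) = H.ω g) →
    (∀ e, e ≠ 0 → H.b e e = 0 → p * cz R e ≠ 0) →
    ∃ φ : Module.End ℂ W, (∀ g ∈ H.S, R g * φ = φ * R g) ∧ φ * R 1 = φ ∧ R 1 * φ = φ ∧
      o * φ * p ≠ 0 := by
  induction m with
  | zero =>
    intro V _ _ _ H R h3 hZ p o hp ho hc hc' hω hNT
    exact hZ.base h3 hp ho hc hc' hω hNT
  | succ m ih =>
    intro V _ _ _ H R hn hZ p o hp ho hc hc' hω hNT
    obtain ⟨e, h0, he⟩ := H.exists_iso (by omega)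
    obtain ⟨f, h⟩ := exists_hyp he h0
    have hd := h.finrank_hp
    have hzp : ∀ x, zz R x * p = p * zz R x := fun x => zz_comm_of R fun s _ => hc _
    have hzo : ∀ x, zz R x * o = o * zz R x := fun x => zz_comm_of R fun s _ => hc' _
    have hez : ∀ g, R (h.nd.ext g) * zz R e = zz R e * R (h.nd.ext g) := fun g => by
      rw [conj_zz, h.ext_e]
    obtain ⟨φ', h1, h2, h3, h4⟩ := ih _ (H.sub _ h.nd) (h.res R) (by omega)
      (fun x hx0 hx g hg => by
        rw [h.res_apply, h.zz_res, mul_assoc, ← mul_assoc (zz R e), zz_comm R he x.2.1,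
          mul_assoc, zz_zz R he, ← mul_assoc,
          hZ x (fun h => hx0 (Subtype.ext h)) hx _ (h.nd.ext_mem_Q hg)])
      p o hp ho (fun g => by rw [h.res_apply, mul_assoc, hzp, ← mul_assoc, hc, mul_assoc])
      (fun g => by rw [h.res_apply, mul_assoc, hzo, ← mul_assoc, hc', mul_assoc])
      (fun g hg => by
        have hq := qq_ne F
        rw [h.res_apply, zz, mul_smul_comm, mul_smul_comm, map_smul, Finset.mul_sum,
          Finset.mul_sum, map_sum, Finset.sum_congr rfl fun (s : skewAdjoint F) _ => by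
            rw [← map_mul, hω _ (H.S.mul_mem (h.nd.ext_mem_S.2 hg) (tau_mem_S he s.2))],
          Fintype.sum_eq_add_sum_compl 0, Finset.sum_congr rfl fun (s : skewAdjoint F) hs => by
            rw [ω, h.kk_ext_tau g s.2 fun h0 =>
              (by simpa using hs : s ≠ 0) (Subtype.ext h0)],
          Finset.sum_const, Finset.card_compl, card_sk, Finset.card_singleton,
          ZeroMemClass.coe_zero, tau_zero, mul_one, ω, ω, h.nd.kk_ext, h.finrank_perp, ← hd,
          nsmul_eq_mul, Nat.cast_sub (qq_pos F), smul_eq_mul]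
        field_simp
        ring)
      (fun x hx0 hx hp0 => by
        have ho := (h.orth hx0 hx).symm
        have e1 : p * (zz R e * cz R x) = 0 := by
          rw [← hp0, cz, cz, h.res_apply, h.zz_res, map_one h.nd.ext, one_zz, mul_sub (zz R e), zz_one,
            zz_comm R he x.2.1]
        refine hNT x ho.e0 ho.ee ?_
        rw [← hZ.K2 ho, Finset.mul_sum]
        refine Finset.sum_eq_zero fun c _ => ?_
        obtain ⟨k, hk, hk'⟩ := ho.exists_move c
        have e2 : zz R (e + c • (x : V)) * cz R x = R k * (zz R e * cz R x) * R k⁻¹ := by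
          rw [← mul_assoc, conj_zz, hk', mul_assoc (zz R _), conj_cz, hk.1, mul_assoc, mul_assoc,
            ← map_mul, mul_inv_cancel, cz_one]
        rw [e2, ← mul_assoc, ← mul_assoc, ← hc, mul_assoc (R k), e1]
        simp)
    rw [h.res_apply, map_one, one_zz] at h2 h3
    obtain ⟨φ, e1, e2, e3, e4⟩ := hZ.step (by rw [hn]; exact ⟨m + 2, by ring⟩) (by omega) h h3 h2
      fun g hg => by
        have := h1 g hg
        rwa [h.res_apply, mul_assoc, h3, hez, ← mul_assoc, h2] at this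
    refine ⟨φ, e1, e3, e4, fun h5 => h4 ?_⟩
    rw [← e2, ← mul_assoc, mul_assoc (o * φ), hzp, ← mul_assoc, h5, zero_mul]

/-- The classification of representations with property (Z). -/
theorem ZP.classify {R : H.U →ₙ* Module.End ℂ W} (hZ : ZP R) (hodd : Odd (finrank F V))
    (h3 : 3 ≤ finrank F V) {p o : Module.End ℂ W} (hp : p * p = p) (ho : o * o = o)
    (hc : ∀ g, R g * p = p * R g) (hc' : ∀ g, R g * o = o * R g)
    (hω : ∀ g ∈ H.S, LinearMap.trace ℂ W (o * R g) = H.ω g)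
    (hNT : ∀ e, e ≠ 0 → H.b e e = 0 → p * cz R e ≠ 0) :
    ∃ φ : Module.End ℂ W, (∀ g ∈ H.S, R g * φ = φ * R g) ∧ o * φ * p ≠ 0 := by
  obtain ⟨k, hk⟩ := hodd
  obtain ⟨φ, h1, -, -, h2⟩ := class_aux (k - 1) V H R (by omega) hZ p o hp ho hc hc' hω hNT
  exact ⟨φ, h1, h2⟩

end HS

end UW
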