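import Cfsg.Agent.Lib.UW.Sub

/-!
# Transitivity and generation in unitary groups
-/

set_option autoImplicit false
set_option linter.unusedSectionVars false

open scoped Classical
open Module

namespace UW

namespace HS

universe u

variable {F V : Type*} [Field F] [Fintype F] [StarRing F] [HF F] [AddCommGroup V] [Module F V]
  [Fintype V] {H : HS F V}

variable (H) in
/-- `K` contains all the groups `Q x`. -/
def AllQ (K : Subgroup H.U) : Prop := ∀ x, x ≠ 0 → H.b x x = 0 → H.Q x ≤ K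

theorem AllQ_realise_eqns : True := by
  have := @AllQ.eq_1.{0, 0}
  trivial

theorem exists_ok {e u : V} (he : H.b e e = 0) (hu : H.b u e = 0) : ∃ s, H.Ok e u s := by
  obtain ⟨θ, hθ⟩ := exists_theta F
  refine ⟨-(θ * H.b u u), he, hu, ?_⟩
  rw [star_neg, star_mul', herm]
  linear_combination -H.b u u * hθ

theorem ne_zero_of_b_ne {x y : V} (h : H.b x y ≠ 0) : x ≠ 0 := fun h0 => h (by simp [h0])

theorem ne_zero_of_b_ne' {x y : V} (h : H.b x y ≠ 0) : y ≠ 0 := fun h0 => h (by simp [h0])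

theorem iso_closure (X : Set V) {e f : V} (h : H.Hyp e f) (he : e ∈ X) (hf : f ∈ X)
    (hX : ∀ x ∈ X, ∀ x' ∈ X, H.b x x = 0 → H.b x' x' = 0 → H.b x' x ≠ 0 →
      ∀ y, H.b y y = 0 → H.b y x ≠ 0 → y ∈ X) {y : V} (h0 : y ≠ 0) (hy : H.b y y = 0) : y ∈ X := by
  have hfe : H.b f e ≠ 0 := by rw [h.fe]; exact one_ne_zero
  have hef : H.b e f ≠ 0 := by rw [h.ef]; exact one_ne_zero
  by_cases h1 : H.b y e = 0
  swap
  · exact hX e he f hf h.ee h.ff hfe y hy h1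
  by_cases h2 : H.b y f = 0
  swap
  · exact hX f hf e he h.ff h.ee hef y hy h2
  obtain ⟨u, hu, hyu⟩ : ∃ u ∈ H.hp e f, H.b y u ≠ 0 := by
    by_contra h3
    push Not at h3
    exact h0 (h.nd y ⟨h1, h2⟩ h3)
  obtain ⟨s, hs⟩ := exists_ok h.ee hu.1
  have h3 : H.b (H.sg e u s • f) (H.sg e u s • f) = 0 := by simp [h.ff]
  have h4 : H.b (H.sg e u s • f) e ≠ 0 := by
    rwa [b_gsmul_left, inv_smul_eq_iff.2 hs.sg_e.symm]
  refine hX _ (hX e he f hf h.ee h.ff hfe _ h3 h4) e he h3 h.ee (H.symm_ne h4) y hy ?_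
  rw [hs.sg_smul]
  simpa [h1, h2, h.fe] using hyu

theorem Q_gsmul_le {K : Subgroup H.U} {x : V} {k : H.U} (hk : k ∈ K) (hx : H.Q x ≤ K) :
    H.Q (k • x) ≤ K := by
  intro g hg
  have := K.mul_mem (K.mul_mem hk (hx (conj_mem_Q' hg))) (K.inv_mem hk)
  simpa [mul_assoc] using this

theorem allQ_of_pair {K : Subgroup H.U} {e f : V} (h : H.Hyp e f) (he : H.Q e ≤ K)
    (hf : H.Q f ≤ K) : H.AllQ K := by
  intro y h0 hy
  refine iso_closure {x | H.Q x ≤ K} h he hf ?_ h0 hy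
  intro x hx x' hx' h1 h2 h3 y h4 h5
  have h6 : H.b y x / H.b x' x ≠ 0 := div_ne_zero h5 h3
  obtain ⟨u, s, hok, hs⟩ := exists_sg (y := (H.b y x / H.b x' x) • x') (y' := y) h1
    (by simpa [h3] using h5) (by simp [h3]) (by simp [h2, h4])
  rw [← hs]
  refine Q_gsmul_le (hx hok.mem_Q) ?_
  rw [Q_smul _ h6]
  exact hx'

theorem AllQ.inf_S {K : Subgroup H.U} (hK : H.AllQ K) : H.AllQ (K ⊓ H.S) :=
  fun x h0 hx => le_inf (hK x h0 hx) (Q_le_S hx h0)

variable (H) in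
theorem allQ_S : H.AllQ H.S := fun _ h0 hx => Q_le_S hx h0

theorem AllQ.comap {K : Subgroup H.U} (hK : H.AllQ K) {D : Submodule F V} (hD : H.Nd D) :
    (H.sub D hD).AllQ (K.comap hD.ext) :=
  fun x h0 hx _ hg => hK x (fun h => h0 (Subtype.ext h)) hx (hD.ext_mem_Q hg)

theorem Hyp.nontrivial_hp {e f : V} (h : H.Hyp e f) (h3 : 3 ≤ finrank F V) :
    Nontrivial (H.hp e f) :=
  Module.nontrivial_of_finrank_pos (R := F) (by have := h.finrank_hp; omega)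

theorem AllQ.hyp_scale {K : Subgroup H.U} (hK : H.AllQ K) (h3 : 3 ≤ finrank F V) {e f : V}
    (h : H.Hyp e f) {s : F} (hs : s ≠ 0) : ∃ k ∈ K, k • f = s • e := by
  have := h.nontrivial_hp h3
  obtain ⟨u, hu⟩ := (H.sub _ h.nd).exists_norm_vec (c := -(s + star s)) (by simp [add_comm])
  have hok : H.Ok e u s := ⟨h.ee, u.2.1, by rw [sub_b] at hu; rw [hu]; ring⟩
  have h1 : H.b (H.sg e u s • f) f = s := by
    rw [hok.sg_smul]
    simp [h.ff, h.fe, h.ef, u.2.2, H.symm_zero u.2.2]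
  obtain ⟨u', s', hok', hs'⟩ := exists_sg (y := H.sg e u s • f) (y' := s • e) h.ff
    (by rwa [h1]) (by simp [h1, h.ef]) (by simp [h.ee, h.ff])
  exact ⟨H.sg f u' s' * H.sg e u s, K.mul_mem (hK f h.symm.ne_zero h.ff hok'.mem_Q)
    (hK e h.ne_zero h.ee hok.mem_Q), by rw [mul_smul, hs']⟩

theorem AllQ.scale {K : Subgroup H.U} (hK : H.AllQ K) (h3 : 3 ≤ finrank F V) {e : V}
    (h0 : e ≠ 0) (he : H.b e e = 0) {s : F} (hs : s ≠ 0) : ∃ k ∈ K, k • e = s • e := by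
  obtain ⟨f, h⟩ := exists_hyp he h0
  obtain ⟨k, hk, hk'⟩ := hK.hyp_scale h3 h hs
  obtain ⟨l, hl, hl'⟩ := hK.hyp_scale h3 h one_ne_zero
  refine ⟨k * l⁻¹, K.mul_mem hk (K.inv_mem hl), ?_⟩
  rw [one_smul] at hl'
  rw [mul_smul, inv_smul_eq_iff.2 hl'.symm, hk']

/-- Transitivity on nonzero isotropic vectors. -/
theorem AllQ.trans {K : Subgroup H.U} (hK : H.AllQ K) (h3 : 3 ≤ finrank F V) {e y : V}
    (h0 : e ≠ 0) (he : H.b e e = 0) (hy0 : y ≠ 0) (hy : H.b y y = 0) : ∃ k ∈ K, k • e = y := by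
  obtain ⟨f, h⟩ := exists_hyp he h0
  refine iso_closure {x | ∃ k ∈ K, k • e = x} h ⟨1, K.one_mem, one_smul _ _⟩ ?_ ?_ hy0 hy
  · obtain ⟨l, hl, hl'⟩ := hK.hyp_scale h3 h.symm one_ne_zero
    exact ⟨l, hl, by simpa using hl'⟩
  rintro x - x' ⟨k, hk, hk'⟩ h1 h2 h4 y h5 h6
  have h7 : H.b y x / H.b x' x ≠ 0 := div_ne_zero h6 h4
  obtain ⟨u, s, hok, hs⟩ := exists_sg (y := (H.b y x / H.b x' x) • x') (y' := y) h1
    (by simpa [h4] using h6) (by simp [h4]) (by simp [h2, h5])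
  obtain ⟨l, hl, hl'⟩ := hK.scale h3 (ne_zero_of_b_ne h4) h2 h7
  exact ⟨H.sg x u s * l * k, K.mul_mem (K.mul_mem (hK x (ne_zero_of_b_ne' h4) h1 hok.mem_Q) hl) hk,
    by rw [mul_smul, mul_smul, hk', hl', hs]⟩

theorem exists_iso_ne (h2 : 2 ≤ finrank F V) {v : V} (hv : v ≠ 0) :
    ∃ x, H.b x x = 0 ∧ H.b v x ≠ 0 := by
  obtain ⟨e, h0, he⟩ := H.exists_iso h2
  obtain ⟨f, h⟩ := exists_hyp he h0
  by_cases h1 : H.b v e = 0
  swap
  · exact ⟨e, he, h1⟩
  by_cases h2 : H.b v f = 0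
  swap
  · exact ⟨f, h.ff, h2⟩
  obtain ⟨u, hu, hyu⟩ : ∃ u ∈ H.hp e f, H.b v u ≠ 0 := by
    by_contra h3
    push Not at h3
    exact hv (h.nd v ⟨h1, h2⟩ h3)
  obtain ⟨s, hs⟩ := exists_ok h.ee hu.1
  refine ⟨H.sg e u s • f, by simp [h.ff], ?_⟩
  rw [hs.sg_smul]
  simpa [h1, h2, h.fe] using hyu

theorem AllQ.trans_norm' {K : Subgroup H.U} (hK : H.AllQ K) (h3 : 3 ≤ finrank F V) {e v y : V}
    (he : H.b e e = 0) (hv : v ≠ 0) (hy : H.b y e ≠ 0) (hn : H.b y y = H.b v v) :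
    ∃ k ∈ K, k • v = y := by
  obtain ⟨x, hx, hvx⟩ := exists_iso_ne (H := H) (by omega) hv
  have h1 : star (H.b y e / H.b v x) ≠ 0 := star_ne_zero.2 (div_ne_zero hy hvx)
  obtain ⟨k, hk, hk'⟩ := hK.trans h3 (e := star (H.b y e / H.b v x) • x) (y := e)
    (smul_ne_zero h1 (ne_zero_of_b_ne' hvx)) (by simp [hx]) (ne_zero_of_b_ne' hy) he
  have h2 : H.b (k • v) e = H.b y e := by
    conv_lhs => rw [← hk']
    rw [b_smul_smul, smul_right, star_star]
    field_simp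
  obtain ⟨u, s, hok, hs⟩ := exists_sg (y := k • v) (y' := y) he (by rwa [h2]) h2.symm
    (by simp [hn])
  exact ⟨H.sg e u s * k, K.mul_mem (hK e (ne_zero_of_b_ne' hy) he hok.mem_Q) hk,
    by rw [mul_smul, hs]⟩

/-- Transitivity on nonzero vectors of the same norm. -/
theorem AllQ.trans_norm {K : Subgroup H.U} (hK : H.AllQ K) (h3 : 3 ≤ finrank F V) {v y : V}
    (hv : v ≠ 0) (hy : y ≠ 0) (hn : H.b y y = H.b v v) : ∃ k ∈ K, k • v = y := by
  obtain ⟨x, hx, hyx⟩ := exists_iso_ne (H := H) (by omega) hy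
  exact hK.trans_norm' h3 hx hv hyx hn

theorem eq_one_of_finrank_one (h1 : finrank F V = 1) {g : H.U} (hg : g ∈ H.S) : g = 1 := by
  obtain ⟨v, hv, hv'⟩ := finrank_eq_one_iff'.1 h1
  obtain ⟨c, hc⟩ := hv' (g • v)
  have h2 : H.lin g = c • LinearMap.id := by
    ext y
    obtain ⟨d, rfl⟩ := hv' y
    simp [← hc, smul_comm c d]
  rw [mem_S, h2, LinearMap.det_smul, LinearMap.det_id, h1, pow_one, mul_one] at hg
  refine U_ext fun y => ?_
  rw [← lin_apply, h2, hg]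
  simp

theorem Hyp.stab_S {e f : V} (h : H.Hyp e f) {g : H.U} (hS : g ∈ H.S) (hg : g • e = e) :
    ∃ k ∈ H.Q e, ∃ g' ∈ (H.sub _ h.nd).S, g = k * h.nd.ext g' := by
  obtain ⟨k, hk, g', rfl⟩ := h.stab hg
  refine ⟨k, hk, g', h.nd.ext_mem_S.1 ?_, rfl⟩
  exact (H.S.mul_mem_cancel_left (Q_le_S h.ee h.ne_zero hk)).1 hS

theorem gen_aux (m : ℕ) : ∀ (V : Type u) [AddCommGroup V] [Module F V] [Fintype V] (H : HS F V)
    (K : Subgroup H.U), finrank F V = 2 * m + 1 → H.AllQ K → H.S ≤ K := by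
  induction m with
  | zero =>
    intro V _ _ _ H K h1 _ g hg
    rw [eq_one_of_finrank_one h1 hg]
    exact K.one_mem
  | succ m ih =>
    intro V _ _ _ H K h1 hK g hg
    obtain ⟨e, h0, he⟩ := H.exists_iso (by omega)
    obtain ⟨f, h⟩ := exists_hyp he h0
    obtain ⟨k, hk, hk'⟩ := hK.inf_S.trans (by omega) (gsmul_ne_zero g h0) (by simp [he]) h0 he
    obtain ⟨l, hl, g', hg', e'⟩ := h.stab_S (H.S.mul_mem hk.2 hg) (by rw [mul_smul, hk'])
    have h2 := ih _ (H.sub _ h.nd) _ (by have := h.finrank_hp; omega) (hK.comap h.nd) hg'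
    have h3 : k * g ∈ K := e' ▸ K.mul_mem (hK e h0 he hl) h2
    exact (K.mul_mem_cancel_left hk.1).1 h3

/-- In odd dimension the groups `Q x` generate the special unitary group. -/
theorem AllQ.S_le {K : Subgroup H.U} (hK : H.AllQ K) (hodd : Odd (finrank F V)) : H.S ≤ K := by
  obtain ⟨m, hm⟩ := hodd
  exact gen_aux m V H K hm hK

/-- A torus element. -/
theorem Hyp.exists_torus {e f : V} (h : H.Hyp e f) {a : F} (ha : a ≠ 0) :
    ∃ t : H.U, t • e = a • e ∧ ∀ y ∈ H.hp e f, t • y = y := by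
  have ha' : star a ≠ 0 := star_ne_zero.2 ha
  refine ⟨H.mkU (LinearMap.id + (a - 1) • (H.bl f).smulRight e +
    ((star a)⁻¹ - 1) • (H.bl e).smulRight f) fun x y => ?_, ?_, fun y hy => ?_⟩
  · simp only [LinearMap.add_apply, LinearMap.id_apply, LinearMap.smul_apply,
      LinearMap.smulRight_apply, bl_apply, add_left, add_right, smul_left, smul_right, h.ee, h.ff,
      h.ef, h.fe, herm, star_sub, star_one, star_inv₀, star_star]
    field_simp
    ring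
  · simp only [mkU_smul, LinearMap.add_apply, LinearMap.id_apply, LinearMap.smul_apply,
      LinearMap.smulRight_apply, bl_apply, h.ee, h.ef]
    module
  · simp [hy.1, hy.2]

end HS

end UW
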