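import Cfsg.Agent.Lib.UW.Gen

/-!
# Representations in which `Z`-fixed vectors are `Q`-fixed: the basic lemmas
-/

set_option autoImplicit false
set_option linter.unusedSectionVars false

open scoped Classical
open Module

namespace UW

namespace HS

variable {F V : Type*} [Field F] [Fintype F] [StarRing F] [HF F] [AddCommGroup V] [Module F V]
  [Fintype V] {H : HS F V} {A : Type*} [Ring A] [Algebra ℂ A] (R : H.U →ₙ* A)

/-- The projection onto the fixed vectors of the transvection group of `e`. -/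
noncomputable def zz (e : V) : A := (qq F : ℂ)⁻¹ • ∑ s : skewAdjoint F, R (H.τ e s)

/-- The complementary projection. -/
noncomputable def cz (e : V) : A := R 1 - zz R e

/-- Property (Z). -/
def ZP : Prop := ∀ e, e ≠ 0 → H.b e e = 0 → ∀ g ∈ H.Q e, R g * zz R e = zz R e

/-- The elements commuting with `Φ`. -/
def Comm (Φ : A) (h : R 1 * Φ = Φ * R 1) : Subgroup H.U where
  carrier := {g | R g * Φ = Φ * R g}
  mul_mem' {g k} hg hk := by
    change R (g * k) * Φ = Φ * R (g * k)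
    rw [map_mul, mul_assoc, hk, ← mul_assoc, hg, mul_assoc]
  one_mem' := h
  inv_mem' {g} hg := by
    change R g⁻¹ * Φ = Φ * R g⁻¹
    have hg' : R g * Φ = Φ * R g := hg
    calc R g⁻¹ * Φ = R g⁻¹ * (R 1 * Φ) := by rw [← mul_assoc, ← map_mul, mul_one]
      _ = R g⁻¹ * (Φ * R g) * R g⁻¹ := by
        rw [h, mul_assoc, mul_assoc, ← map_mul, mul_inv_cancel]
      _ = Φ * R g⁻¹ := by
        rw [← hg', ← mul_assoc, ← map_mul, inv_mul_cancel, h, mul_assoc, ← map_mul, one_mul]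

/-- The average over the subgroup `sg e (c • x) 0`. -/
noncomputable def bb (e x : V) : A := ((qq F : ℂ) ^ 2)⁻¹ • ∑ c : F, R (H.sg e (c • x) 0)

theorem KLem_realise_eqns : True := by
  have := @zz.eq_1.{0, 0, 0}
  have := @cz.eq_1.{0, 0, 0}
  have := @ZP.eq_1.{0, 0, 0}
  have := @Comm.eq_1.{0, 0, 0}
  have := @bb.eq_1.{0, 0, 0}
  trivial

theorem mem_Comm {Φ : A} {h : R 1 * Φ = Φ * R 1} {g : H.U} :
    g ∈ Comm R Φ h ↔ R g * Φ = Φ * R g := Iff.rfl

theorem R_one_mul (g : H.U) : R 1 * R g = R g := by rw [← map_mul, one_mul]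

theorem R_mul_one (g : H.U) : R g * R 1 = R g := by rw [← map_mul, mul_one]

theorem one_zz (e : V) : R 1 * zz R e = zz R e := by
  simp only [zz, mul_smul_comm, Finset.mul_sum, R_one_mul]

theorem zz_one (e : V) : zz R e * R 1 = zz R e := by
  simp only [zz, smul_mul_assoc, Finset.sum_mul, R_mul_one]

theorem one_cz (e : V) : R 1 * cz R e = cz R e := by rw [cz, mul_sub, one_zz, R_one_mul]

theorem cz_one (e : V) : cz R e * R 1 = cz R e := by rw [cz, sub_mul, zz_one, R_one_mul]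

theorem mul_zz_of {Y : A} {e : V} (h : ∀ s : F, star s = -s → Y * R (H.τ e s) = Y) :
    Y * zz R e = Y := by
  rw [zz, mul_smul_comm, Finset.mul_sum, Finset.sum_congr rfl fun (s : skewAdjoint F) _ => h s s.2,
    Finset.sum_const, Finset.card_univ, card_sk, ← Nat.cast_smul_eq_nsmul ℂ, smul_smul,
    inv_mul_cancel₀ (qq_ne F), one_smul]

theorem zz_comm_of {Y : A} {e : V}
    (h : ∀ s : F, star s = -s → R (H.τ e s) * Y = Y * R (H.τ e s)) :
    zz R e * Y = Y * zz R e := by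
  rw [zz, mul_smul_comm, smul_mul_assoc, Finset.mul_sum, Finset.sum_mul,
    Finset.sum_congr rfl fun (s : skewAdjoint F) _ => h s s.2]

theorem zz_tau {e : V} (he : H.b e e = 0) {s : F} (hs : star s = -s) :
    zz R e * R (H.τ e s) = zz R e := by
  rw [zz, smul_mul_assoc, Finset.sum_mul, ← Equiv.sum_comp (Equiv.addRight ⟨s, hs⟩)
    (fun t : skewAdjoint F => R (H.τ e t))]
  congr 1
  exact Finset.sum_congr rfl fun t _ => by rw [← map_mul, tau_mul he t.2 hs]; rfl

theorem zz_zz {e : V} (he : H.b e e = 0) : zz R e * zz R e = zz R e :=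
  mul_zz_of R fun _ hs => zz_tau R he hs

theorem zz_cz {e : V} (he : H.b e e = 0) : zz R e * cz R e = 0 := by
  rw [cz, mul_sub, zz_one, zz_zz R he, sub_self]

theorem cz_zz {e : V} (he : H.b e e = 0) : cz R e * zz R e = 0 := by
  rw [cz, sub_mul, one_zz, zz_zz R he, sub_self]

theorem cz_cz {e : V} (he : H.b e e = 0) : cz R e * cz R e = cz R e := by
  nth_rw 1 [cz]
  rw [sub_mul, one_cz, zz_cz R he, sub_zero]

theorem mul_cz_of {Y : A} {e : V} (h : ∀ s : F, star s = -s → Y * R (H.τ e s) = Y) :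
    Y * cz R e = 0 := by
  have := h 0 (by simp)
  rw [tau_zero] at this
  rw [cz, mul_sub, mul_zz_of R h, this, sub_self]

theorem conj_zz (g : H.U) (e : V) : R g * zz R e = zz R (g • e) * R g := by
  simp only [zz, mul_smul_comm, smul_mul_assoc, Finset.mul_sum, Finset.sum_mul, ← map_mul,
    ← conj_tau, inv_mul_cancel_right]

theorem conj_cz (g : H.U) (e : V) : R g * cz R e = cz R (g • e) * R g := by
  rw [cz, cz, mul_sub, sub_mul, conj_zz, R_one_mul, R_mul_one]

theorem zz_smul {e : V} (he : H.b e e = 0) {a : F} (ha : a ≠ 0) : zz R (a • e) = zz R e := by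
  have h0 : a * star a ≠ 0 := mul_ne_zero ha (star_ne_zero.2 ha)
  let ε : skewAdjoint F ≃ skewAdjoint F :=
    { toFun := fun s => ⟨s * (a * star a), by simp [mem_sk, sk_star, mul_comm]⟩
      invFun := fun s => ⟨s / (a * star a), by simp [mem_sk, sk_star, mul_comm, neg_div]⟩
      left_inv := fun s => Subtype.ext (mul_div_cancel_right₀ _ h0)
      right_inv := fun s => Subtype.ext (div_mul_cancel₀ _ h0) }
  rw [zz, zz, ← ε.sum_comp (fun t : skewAdjoint F => R (H.τ e t))]
  congr 1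
  exact Finset.sum_congr rfl fun t _ => by rw [tau_smul_vec he t.2]; rfl

theorem zz_comm {e x : V} (he : H.b e e = 0) (hx : H.b x e = 0) :
    zz R e * zz R x = zz R x * zz R e :=
  zz_comm_of R fun s hs => by rw [conj_zz, tau_smul he hs, hx]; simp

variable {R}

theorem ZP.right (hZ : ZP R) {e : V} (h0 : e ≠ 0) (he : H.b e e = 0) {g : H.U}
    (hg : g ∈ H.Q e) : zz R e * R g = zz R e := by
  have := conj_zz R g e
  rw [hg.1] at this
  rw [← this, hZ e h0 he g hg]

variable (H) in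
/-- Two orthogonal independent isotropic vectors. -/
structure Orth (e x : V) : Prop where
  ee : H.b e e = 0
  xx : H.b x x = 0
  xe : H.b x e = 0
  e0 : e ≠ 0
  ind : ∀ a : F, x ≠ a • e

theorem Orth.ex {e x : V} (h : H.Orth e x) : H.b e x = 0 := H.symm_zero h.xe

theorem Orth.x0 {e x : V} (h : H.Orth e x) : x ≠ 0 := by simpa using h.ind 0

theorem Orth.symm {e x : V} (h : H.Orth e x) : H.Orth x e := by
  refine ⟨h.xx, h.ee, h.ex, h.x0, fun a ha => ?_⟩
  have ha0 : a ≠ 0 := fun h0 => h.e0 (by rw [ha, h0, zero_smul])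
  exact h.ind a⁻¹ (by rw [ha, inv_smul_smul₀ ha0])

theorem Orth.add {e x : V} (h : H.Orth e x) (c : F) : H.Orth e (x + c • e) :=
  ⟨h.ee, by simp [h.xx, h.ee, h.xe, h.ex], by simp [h.xe, h.ee], h.e0,
    fun a ha => h.ind (a - c) (by rw [sub_smul, ← ha]; simp)⟩

theorem Orth.exists_move {e x : V} (h : H.Orth e x) (a : F) :
    ∃ g ∈ H.Q e, g • x = x + a • e := by
  obtain ⟨f, hf⟩ := exists_hyp h.ee h.e0
  obtain ⟨u, hu, hu'⟩ : ∃ u, H.b u e = 0 ∧ H.b x u ≠ 0 := by
    by_contra h1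
    push Not at h1
    exact h.ind _ (hf.eq_smul h1)
  obtain ⟨s, hs⟩ := exists_ok (u := star (-a / H.b x u) • u) h.ee (by simp [hu])
  refine ⟨_, hs.mem_Q, ?_⟩
  rw [hs.sg_perp h.xe, smul_right, star_star, div_mul_cancel₀ _ hu', neg_smul, sub_neg_eq_add]

theorem ZP.K0 (hZ : ZP R) {e x : V} (h : H.Orth e x) (a : F) {c : F} (hc : c ≠ 0) :
    zz R e * zz R (a • e + c • x) = zz R e * zz R x := by
  obtain ⟨g, hg, hg'⟩ := h.exists_move (a / c)
  have h1 : a • e + c • x = c • g • x := by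
    rw [hg', smul_add, smul_smul, mul_div_cancel₀ _ hc, add_comm]
  rw [h1, zz_smul R (by simp [h.xx]) hc, ← zz_one R (g • x), ← mul_inv_cancel g, map_mul,
    ← mul_assoc (zz R (g • x)), ← conj_zz, ← mul_assoc, ← mul_assoc, hZ.right h.e0 h.ee hg,
    zz_comm R h.ee h.xe, mul_assoc, hZ.right h.e0 h.ee ((H.Q e).inv_mem hg)]

theorem Orth.ok {e x : V} (h : H.Orth e x) (c : F) : H.Ok e (c • x) 0 :=
  ⟨h.ee, by simp [h.xe], by simp [h.xx]⟩

theorem Orth.sg_mem_Q {e x : V} (h : H.Orth e x) (c : F) : H.sg e (c • x) 0 ∈ H.Q x := by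
  refine ⟨by rw [(h.ok c).sg_perp h.xe]; simp [h.xx], fun y hy => ⟨H.b y e * c, ?_⟩⟩
  rw [(h.ok c).sg_smul]
  simp [hy, mul_smul]

theorem Orth.sg_bb {e x : V} (h : H.Orth e x) (c : F) :
    R (H.sg e (c • x) 0) * bb R e x = bb R e x := by
  rw [bb, mul_smul_comm, Finset.mul_sum, ← Equiv.sum_comp (Equiv.addLeft c)
    (fun d : F => R (H.sg e (d • x) 0))]
  congr 1
  refine Finset.sum_congr rfl fun d _ => ?_
  rw [← map_mul, (h.ok c).sg_mul (h.ok d)]
  simp [h.xx, add_smul]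

theorem bb_comm {e x : V} (h : H.Orth e x) {Y : A} (hY : ∀ g ∈ H.Q e, R g * Y = Y * R g) :
    bb R e x * Y = Y * bb R e x := by
  rw [bb, mul_smul_comm, smul_mul_assoc, Finset.mul_sum, Finset.sum_mul,
    Finset.sum_congr rfl fun c _ => hY _ (h.ok c).mem_Q]

theorem bb_zz {e x : V} (h : H.Orth e x) : bb R e x * zz R e = zz R e * bb R e x :=
  bb_comm h fun g hg => by rw [conj_zz, hg.1]

theorem card_F_cast : (Fintype.card F : ℂ) = (qq F : ℂ) ^ 2 := by rw [card_F, Nat.cast_pow]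

theorem ZP.K1 (hZ : ZP R) {e x : V} (h : H.Orth e x) :
    bb R e x * cz R e = zz R x * cz R e := by
  have hq := qq_ne F
  obtain ⟨θ, hθ⟩ := exists_theta F
  have ha : zz R x * bb R e x = zz R x := by
    rw [bb, mul_smul_comm, Finset.mul_sum,
      Finset.sum_congr rfl fun c _ => hZ.right h.x0 h.xx (h.sg_mem_Q c), Finset.sum_const,
      Finset.card_univ, ← Nat.cast_smul_eq_nsmul ℂ, card_F_cast, smul_smul,
      inv_mul_cancel₀ (pow_ne_zero _ hq), one_smul]
  have hzb : zz R e * (bb R e x * cz R e) = 0 := by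
    rw [← mul_assoc, ← bb_zz h, mul_assoc, zz_cz R h.ee, mul_zero]
  have hb : ∀ c : F, c ≠ 0 → zz R (x + c • e) * (bb R e x * cz R e) = 0 := by
    intro c hc
    have hc' : star c ≠ 0 := star_ne_zero.2 hc
    have hy := h.add c
    have h1 : ∀ s : F, star s = -s → zz R (x + c • e) * (R (H.τ e s) * bb R e x) =
        zz R (x + c • e) * bb R e x := by
      intro s hs
      have h2 : H.τ e s * H.sg e ((-star (θ * s / star c)) • x) 0 =
          H.sg (x + c • e) ((θ * s / star c) • e) 0 := by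
        refine U_ext fun w => ?_
        rw [mul_smul, tau_smul h.ee hs, (h.ok _).sg_smul, (hy.symm.ok _).sg_smul]
        simp only [add_left, sub_left, smul_left, add_right, smul_right, h.ee, h.xe, star_neg,
          star_star, star_div₀, star_mul', hs]
        match_scalars
        · ring
        · ring
        · field_simp
          linear_combination (-(s * star c * H.b w e * c)) * hθ
      rw [← h.sg_bb (R := R) (-star (θ * s / star c)), ← mul_assoc (R _), ← map_mul, h2,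
        ← mul_assoc, hZ.right hy.x0 hy.xx (hy.symm.ok _).mem_Q, h.sg_bb]
    have h3 : zz R (x + c • e) * (zz R e * bb R e x) = zz R (x + c • e) * bb R e x := by
      nth_rw 2 [zz]
      rw [smul_mul_assoc, mul_smul_comm, Finset.sum_mul, Finset.mul_sum,
        Finset.sum_congr rfl fun (s : skewAdjoint F) _ => h1 s s.2, Finset.sum_const, Finset.card_univ, card_sk,
        ← Nat.cast_smul_eq_nsmul ℂ, smul_smul, inv_mul_cancel₀ hq, one_smul]
    rw [← mul_assoc, ← h3, mul_assoc, mul_assoc, hzb, mul_zero]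
  have hc : ∀ t : selfAdjoint F, t ≠ 0 → ∑ s : skewAdjoint F,
      R (H.τ x s) * R (H.τ e (s * t)) * (bb R e x * cz R e) = 0 := by
    intro t ht
    obtain ⟨c, hc⟩ := exists_norm (sa_star t)
    have hc0 : c ≠ 0 := fun h0 => ht (Subtype.ext (by rw [← hc, h0, zero_mul]; rfl))
    have h1 := hb c hc0
    rw [zz, smul_mul_assoc, smul_eq_zero, Finset.sum_mul] at h1
    rw [← h1.resolve_left (inv_ne_zero hq)]
    refine Finset.sum_congr rfl fun s _ => ?_
    have h2 : H.τ (x + c • e) s =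
        H.τ x s * H.τ e (s * t) * H.sg e (((s : F) * star c) • x) 0 := by
      refine U_ext fun w => ?_
      rw [mul_smul, mul_smul, tau_smul (h.add c).xx s.2, tau_smul h.xx s.2,
        tau_smul h.ee (by simp [sk_star, sa_star]), (h.ok _).sg_smul, ← hc]
      simp only [add_left, sub_left, smul_left, add_right, smul_right, h.ee, h.xe, h.xx, h.ex,
        star_star, star_mul', sk_star]
      module
    rw [h2, map_mul, map_mul, mul_assoc _ (R (H.sg _ _ _)), ← mul_assoc (R (H.sg _ _ _)), h.sg_bb]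
  have hd : ∑ t : selfAdjoint F, ∑ s : skewAdjoint F,
      R (H.τ x s) * R (H.τ e (s * t)) * (bb R e x * cz R e) =
      (qq F : ℂ) • (zz R x * (bb R e x * cz R e)) := by
    rw [Finset.sum_eq_single 0 (fun t _ ht => hc t ht) (by simp), zz, smul_mul_assoc, smul_smul,
      mul_inv_cancel₀ hq, one_smul, Finset.sum_mul]
    simp [tau_zero, R_mul_one]
  have he : ∑ t : selfAdjoint F, ∑ s : skewAdjoint F,
      R (H.τ x s) * R (H.τ e (s * t)) * (bb R e x * cz R e) =
      (qq F : ℂ) • (bb R e x * cz R e) := by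
    rw [Finset.sum_comm, Finset.sum_eq_single 0 (fun s _ hs => ?_) (by simp)]
    · have : R 1 * (bb R e x * cz R e) = bb R e x * cz R e := by
        have := h.sg_bb (R := R) 0
        rw [zero_smul, sg_zero] at this
        rw [← mul_assoc, this]
      simp [tau_zero, R_mul_one, this, card_sa, Nat.cast_smul_eq_nsmul]
    · have h1 : ∑ t : selfAdjoint F, R (H.τ e (s * t)) = (qq F : ℂ) • zz R e := by
        rw [zz, smul_smul, mul_inv_cancel₀ hq, one_smul,
          ← (skEquiv (fun h0 => hs (Subtype.ext h0)) s.2).sum_comp]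
        rfl
      rw [← Finset.sum_mul, ← Finset.mul_sum, h1, mul_assoc, smul_mul_assoc, hzb]
      simp
  rw [hd] at he
  rw [← smul_right_injective A hq he, ← mul_assoc, ha]

theorem ZP.K2 (hZ : ZP R) {e x : V} (h : H.Orth e x) :
    ∑ c : F, zz R (x + c • e) * cz R e = cz R e := by
  have hq := qq_ne F
  obtain ⟨θ, hθ⟩ := exists_theta F
  have h1 : ∀ t c : F, H.sg e (t • (x + c • e)) 0 =
      H.sg e (t • x) 0 * H.τ e (t * c - star (t * c)) := by
    intro t c
    refine U_ext fun w => ?_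
    rw [mul_smul, ((h.add c).ok t).sg_smul, (h.ok t).sg_smul, tau_smul h.ee (by simp)]
    simp only [add_left, smul_left, add_right, smul_right, h.ee, h.ex, star_mul']
    module
  rw [Finset.sum_congr rfl fun c _ => (hZ.K1 (h.add c)).symm]
  simp only [bb, smul_mul_assoc, ← Finset.smul_sum, Finset.sum_mul, h1, map_mul]
  rw [Finset.sum_comm, Finset.sum_eq_single 0 (fun t _ ht => ?_) (by simp)]
  · simp only [zero_smul, sg_zero, zero_mul, star_zero, sub_zero, tau_zero, R_mul_one, one_cz,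
      Finset.sum_const, Finset.card_univ]
    rw [← Nat.cast_smul_eq_nsmul ℂ, card_F_cast, smul_smul, inv_mul_cancel₀ (pow_ne_zero _ hq),
      one_smul]
  · simp only [mul_assoc (R _), ← Finset.mul_sum, ← Finset.sum_mul]
    refine mul_eq_zero_of_right _ (mul_cz_of R fun s hs => ?_)
    rw [Finset.sum_mul, ← Equiv.sum_comp (Equiv.addRight (θ * s / t))
      (fun c : F => R (H.τ e (t * c - star (t * c))))]
    refine Finset.sum_congr rfl fun c _ => ?_
    rw [← map_mul, tau_mul h.ee (by simp) hs]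
    congr 2
    rw [Equiv.coe_addRight, mul_add, mul_div_cancel₀ _ ht, star_add, star_mul' θ, hs]
    linear_combination -s * hθ

theorem ZP.lemK (hZ : ZP R) {e x : V} (h : H.Orth e x) {Φ : A} (h1 : Φ * cz R e = Φ)
    (h2 : cz R e * Φ = Φ) (h3 : ∀ g ∈ H.Q e, R g * Φ = Φ * R g) {g : H.U} (hg : g ∈ H.Q x)
    (hge : g • e = e) : R g * Φ = Φ * R g := by
  choose k hk hk' using h.exists_move
  have h4 : ∀ c, g * k c * g⁻¹ * (k c)⁻¹ ∈ H.Q e := fun c =>
    (H.Q e).mul_mem (by simpa [hge] using conj_mem_Q (hk c) g) ((H.Q e).inv_mem (hk c))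
  set Y := ∑ c : F, R (g * k c * g⁻¹ * (k c)⁻¹) * bb R e (x + c • e) with hY
  have h5 : R g * cz R e = Y * cz R e := by
    rw [hY, Finset.sum_mul]
    nth_rw 1 [← hZ.K2 h]
    rw [Finset.mul_sum]
    refine Finset.sum_congr rfl fun c _ => ?_
    have h6 := hZ _ (h.add c).x0 (h.add c).xx _ (hk' c ▸ conj_mem_Q hg (k c))
    rw [mul_assoc, hZ.K1 (h.add c), ← mul_assoc, ← mul_assoc]
    nth_rw 2 [← h6]
    rw [← mul_assoc, ← map_mul]
    congr 3
    group
  have h6 : Y * Φ = Φ * Y := by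
    rw [hY, Finset.sum_mul, Finset.mul_sum]
    refine Finset.sum_congr rfl fun c _ => ?_
    rw [mul_assoc, bb_comm (h.add c) h3, ← mul_assoc, h3 _ (h4 c), mul_assoc]
  have h7 := conj_cz R g e
  rw [hge] at h7
  calc R g * Φ = R g * cz R e * Φ := by rw [mul_assoc, h2]
    _ = Y * Φ * cz R e := by rw [h5, mul_assoc, mul_assoc, h1, h2]
    _ = Φ * R g := by rw [h6, mul_assoc, ← h5, h7, ← mul_assoc, h1]

theorem Hyp.orth {e f : V} (h : H.Hyp e f) {x : H.hp e f} (h0 : x ≠ 0) (hx : H.b x x = 0) :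
    H.Orth e x := by
  refine ⟨h.ee, hx, x.2.1, h.ne_zero, fun a ha => h0 (Subtype.ext ?_)⟩
  have := x.2.2
  rw [ha, smul_left, h.ef, mul_one] at this
  rw [ha, this, zero_smul]; rfl

theorem ZP.allQ_comm (hZ : ZP R) {e f : V} (h : H.Hyp e f) {Φ : A} (h0 : R 1 * Φ = Φ * R 1)
    (h1 : Φ * cz R e = Φ) (h2 : cz R e * Φ = Φ) (h3 : ∀ g ∈ H.Q e, R g * Φ = Φ * R g) :
    (H.sub _ h.nd).AllQ ((Comm R Φ h0).comap h.nd.ext) :=
  fun _ hx0 hx g hg => hZ.lemK (h.orth hx0 hx) h1 h2 h3 (h.nd.ext_mem_Q hg) (h.ext_e g)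

/-- The extension lemma. -/
theorem extend (K : Subgroup H.U) {p ψ : A} (h1 : p * ψ = ψ) (h2 : ψ * p = ψ)
    (h3 : R 1 * ψ = ψ) (h4 : ψ * R 1 = ψ)
    (h5 : ∀ g ∈ K, R g * ψ = ψ * R g ∨ p * R g * p = 0) :
    ∃ Ψ : A, (∀ g ∈ K, R g * Ψ = Ψ * R g) ∧ p * Ψ = ψ ∧ Ψ * p = ψ ∧
      ∀ (w : A) (l : ℂ), (∀ g ∈ K, R g * w = w * R g) →
        (w * ψ = l • ψ → w * Ψ = l • Ψ) ∧ (ψ * w = l • ψ → Ψ * w = l • Ψ) := by
  have h0 : R 1 * ψ = ψ * R 1 := h3.trans h4.symm
  set c : ℂ := ∑ g : K, if (g : H.U) ∈ Comm R ψ h0 then 1 else 0 with hc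
  have hc0 : c ≠ 0 := by
    rw [hc, Finset.sum_boole, Nat.cast_ne_zero, ← Nat.pos_iff_ne_zero, Finset.card_pos]
    exact ⟨1, by simp⟩
  have hgood : ∀ g ∈ Comm R ψ h0, R g * ψ * R g⁻¹ = ψ := fun g hg => by
    rw [(mem_Comm R).1 hg, mul_assoc, ← map_mul, mul_inv_cancel, h4]
  refine ⟨c⁻¹ • ∑ g : K, R g * ψ * R g⁻¹, fun k hk => ?_, ?_, ?_, fun w l hw => ⟨fun h => ?_,
    fun h => ?_⟩⟩
  · rw [mul_smul_comm, smul_mul_assoc, Finset.mul_sum, Finset.sum_mul,
      ← Equiv.sum_comp (Equiv.mulLeft (⟨k, hk⟩ : K)) (fun g : K => R g * ψ * R g⁻¹ * R k)]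
    congr 1
    refine Finset.sum_congr rfl fun g _ => ?_
    simp only [Equiv.coe_mulLeft, Subgroup.coe_mul, mul_assoc, ← map_mul, mul_inv_rev,
      inv_mul_cancel, mul_one]
    rw [map_mul, mul_assoc]
  · rw [mul_smul_comm, Finset.mul_sum, Finset.sum_congr rfl
      (g := fun g : K => (if (g : H.U) ∈ Comm R ψ h0 then (1 : ℂ) else 0) • ψ), ← Finset.sum_smul,
      ← hc, inv_smul_smul₀ hc0]
    intro g _
    split_ifs with hg
    · rw [hgood _ hg, h1, one_smul]
    · rw [← h1, ← mul_assoc, ← mul_assoc, ← mul_assoc, (h5 g g.2).resolve_left hg]; simp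
  · rw [smul_mul_assoc, Finset.sum_mul, Finset.sum_congr rfl
      (g := fun g : K => (if (g : H.U) ∈ Comm R ψ h0 then (1 : ℂ) else 0) • ψ), ← Finset.sum_smul,
      ← hc, inv_smul_smul₀ hc0]
    intro g _
    split_ifs with hg
    · rw [hgood _ hg, h2, one_smul]
    · have := (h5 g⁻¹ (K.inv_mem g.2)).resolve_left fun h => hg (by
        simpa using (Comm R ψ h0).inv_mem h)
      rw [← h2, mul_assoc, mul_assoc, mul_assoc, ← mul_assoc p, this]; simp
  · rw [mul_smul_comm, smul_comm l c⁻¹, Finset.mul_sum, Finset.smul_sum (r := l)]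
    congr 1
    refine Finset.sum_congr rfl fun g _ => ?_
    rw [← mul_assoc, ← mul_assoc, ← hw g g.2, mul_assoc (R g), h]
    simp
  · rw [smul_mul_assoc, smul_comm l c⁻¹, Finset.sum_mul, Finset.smul_sum (r := l)]
    congr 1
    refine Finset.sum_congr rfl fun g _ => ?_
    rw [mul_assoc, hw _ (K.inv_mem g.2), ← mul_assoc, mul_assoc (R g), h]
    simp

end HS

end UW
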