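import Cfsg.Agent.Lib.UW.Theta

/-!
# Constituents of the conjugation character of odd-dimensional special unitary groups
-/

set_option autoImplicit false
set_option linter.unusedSectionVars false

open scoped Classical ComplexConjugate
open Module Polynomial Cfsg CT

namespace UW

theorem conj_char_iff {G : Type*} [Group G] [Fintype G] {χ : G → ℂ} (hχ : IsCharacter G χ) :
    classInner χ (fun g : G => (Nat.card (Subgroup.centralizer ({g} : Set G)) : ℂ)) ≠ 0 ↔
      ∃ h : G, ∑ c : Subgroup.centralizer ({h} : Set G), χ c ≠ 0 := by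
  have h1 : ∀ h : G, ∃ m : ℕ, ∑ c : Subgroup.centralizer ({h} : Set G), χ c = m := by
    intro h
    obtain ⟨m, hm⟩ := (hχ.res (Subgroup.centralizer ({h} : Set G))).exists_nat_ip isCharacter_one
    rw [ip_def] at hm
    refine ⟨Nat.card (Subgroup.centralizer ({h} : Set G)) * m, ?_⟩
    rw [Nat.cast_mul, ← hm, mul_inv_cancel_left₀ card_cast_ne_zero]
    simp [res]
  choose m hm using h1
  have h2 : ∑ g : G, χ g * conj (Nat.card (Subgroup.centralizer ({g} : Set G)) : ℂ) =
      ∑ h : G, ∑ c : Subgroup.centralizer ({h} : Set G), χ c := by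
    have h3 : ∀ h : G, ∑ c : Subgroup.centralizer ({h} : Set G), χ c =
        ∑ g : G, if g * h = h * g then χ g else 0 := by
      intro h
      rw [← Finset.sum_filter, Finset.sum_subtype (p := (· ∈ Subgroup.centralizer ({h} : Set G)))]
      simp [Subgroup.mem_centralizer_singleton_iff]
    simp only [h3]
    rw [Finset.sum_comm]
    refine Finset.sum_congr rfl fun g _ => ?_
    rw [← Finset.sum_filter, Finset.sum_const, map_natCast, Nat.card_eq_fintype_card,
      Fintype.card_subtype, nsmul_eq_mul, mul_comm]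
    congr 3
    ext h
    simp only [Finset.mem_filter, Finset.mem_univ, true_and,
      Subgroup.mem_centralizer_singleton_iff]
    exact eq_comm
  rw [classInner, h2, mul_ne_zero_iff, and_iff_right (inv_ne_zero card_cast_ne_zero)]
  simp only [hm, ← Nat.cast_sum, Nat.cast_ne_zero]
  simp [Finset.sum_eq_zero_iff]

theorem ip_ne_zero_of_intertwiner {G : Type*} [Group G] [Fintype G] {W W' : Type*}
    [AddCommGroup W] [Module ℂ W] [FiniteDimensional ℂ W] [AddCommGroup W'] [Module ℂ W']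
    [FiniteDimensional ℂ W'] (ρ : Representation ℂ G W) (σ : Representation ℂ G W')
    (L : W →ₗ[ℂ] W') (h0 : L ≠ 0) (h : ∀ g v, L (ρ g v) = σ g (L v)) :
    ip σ.character ρ.character ≠ 0 := by
  have : Invertible (Nat.card G : ℂ) := invertibleOfNonzero card_cast_ne_zero
  rw [ip_eq_sum_inv _ (isCharacter_of_rep ρ),
    Representation.card_inv_mul_sum_char_mul_char_eq_finrank, Nat.cast_ne_zero]
  have : Nontrivial (Representation.IntertwiningMap ρ σ) :=
    ⟨⟨L.intertwiningMap_of_isIntertwiningMap ρ σ h, 0, fun e =>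
      h0 (congrArg Representation.IntertwiningMap.toLinearMap e)⟩⟩
  exact Module.finrank_pos.ne'

theorem diag_eq_one {ι : Type*} [Fintype ι] (a : ι → ι → ℕ) (h1 : ∀ i, 0 < a i i)
    (h2 : ∑ i, ∑ j, a i j ≤ Fintype.card ι) (i : ι) : a i i = 1 := by
  have h3 : ∀ i ∈ Finset.univ, 1 ≤ ∑ j, a i j := fun i _ =>
    (h1 i).trans_le (Finset.single_le_sum (f := a i) (fun _ _ => Nat.zero_le _) (Finset.mem_univ i))
  have h4 := (Finset.sum_eq_sum_iff_of_le h3).1 (le_antisymm (Finset.sum_le_sum h3)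
    (by simpa using h2)) i (Finset.mem_univ i)
  have h5 := Finset.single_le_sum (f := a i) (fun _ _ => Nat.zero_le _) (Finset.mem_univ i)
  have := h1 i
  omega

namespace HS

variable {F V : Type*} [Field F] [Fintype F] [StarRing F] [HF F] [AddCommGroup V] [Module F V]
  [Fintype V] {H : HS F V}

theorem sc_eq_one (hcop : Nat.Coprime (finrank F V) (qq F + 1)) {z : unitary F}
    (hz : H.sc z ∈ H.S) : z = 1 := by
  have h1 : z ^ finrank F V = 1 := Subtype.ext (by
    have : H.dt (H.sc z) = 1 := hz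
    rwa [dt_sc] at this)
  have h2 : (Nat.card (unitary F)).Coprime (finrank F V) := by
    rw [Nat.card_eq_fintype_card, card_unitary]; exact hcop.symm
  exact h2.pow_left_bijective.1 (by simpa using h1)

theorem exists_reg_unip {m : ℕ} (hn : finrank F V = 2 * m + 3)
    (hcop : Nat.Coprime (finrank F V) (qq F + 1)) :
    ∃ u ∈ H.S, ∃ N v, H.RegNil (2 * m + 2) N v ∧
      ∀ c ∈ H.S ⊓ Subgroup.centralizer {u}, ∃ P : F[X], H.lin c = 1 + N * aeval N P := by
  obtain ⟨N, v, hN⟩ := H.exists_regNil (m := m + 1) hn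
  obtain ⟨u, hu, hu'⟩ := hN.exists_unip
  refine ⟨u, hu, N, v, hN, fun c hc => ?_⟩
  obtain ⟨z, c₁, P, rfl, hP⟩ := hN.cent (hu' c (Subgroup.mem_centralizer_singleton_iff.1 hc.2))
  have := sc_eq_one hcop ((H.S.mul_mem_cancel_right (hN.unip_mem_S hP)).1 hc.1)
  exact ⟨P, by rw [this, map_one, one_mul, hP]⟩

theorem center_S {m : ℕ} (hn : finrank F V = 2 * m + 3)
    (hcop : Nat.Coprime (finrank F V) (qq F + 1)) : Subgroup.center H.S = ⊥ := by
  rw [Subgroup.eq_bot_iff_forall]
  intro z hz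
  have hz' : ∀ g ∈ H.S, g * z = z * g := fun g hg =>
    congrArg Subtype.val (Subgroup.mem_center_iff.1 hz ⟨g, hg⟩)
  obtain ⟨u, hu, N, v, hN, hc⟩ := exists_reg_unip (H := H) hn hcop
  obtain ⟨P, hP⟩ := hc z ⟨z.2, Subgroup.mem_centralizer_singleton_iff.2 (hz' u hu).symm⟩
  have h1 : ∀ x, H.b x x = 0 → (z : H.U) • x = x := by
    intro x hx
    by_cases h0 : x = 0
    · simp [h0]
    obtain ⟨k, hk, rfl⟩ := H.allQ_S.trans (by omega) hN.e_ne (hN.e_iso (by omega)) h0 hx
    rw [← mul_smul, ← hz' k hk, mul_smul, hN.unip_e hP]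
  refine Subtype.ext (U_ext fun y => ?_)
  by_contra h
  obtain ⟨x, hx, hx'⟩ := exists_iso_ne (H := H) (by omega) (sub_ne_zero.2 h)
  apply hx'
  rw [sub_left, b_gsmul_left, inv_smul_eq_iff.2 (h1 x hx).symm]
  simp

theorem exists_proj (hcop : Nat.Coprime (finrank F V) (qq F + 1))
    (hdet : ∀ g : H.U, H.dt g * star (H.dt g) = 1) :
    ∃ π : H.U →* H.S, (∀ s : H.S, π s = s) ∧ ∀ g, ∃ z, g = H.sc z * π g := by
  have h2 : (Nat.card (unitary F)).Coprime (finrank F V) := by
    rw [Nat.card_eq_fintype_card, card_unitary]; exact hcop.symm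
  let ζ : unitary F ≃* unitary F :=
    MulEquiv.ofBijective (powMonoidHom (finrank F V)) h2.pow_left_bijective
  let δ : H.U →* unitary F := H.dt.codRestrict _ fun g => mem_unitary.2 (hdet g)
  let z : H.U →* unitary F := ζ.symm.toMonoidHom.comp δ
  have hz : ∀ g, H.dt (H.sc (z g)) = H.dt g := fun g => by
    rw [dt_sc]
    exact congrArg Subtype.val (ζ.apply_symm_apply (δ g))
  refine ⟨{ toFun := fun g => ⟨(H.sc (z g))⁻¹ * g, ?_⟩
            map_one' := Subtype.ext (by simp)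
            map_mul' := fun g k => Subtype.ext ?_ }, fun s => Subtype.ext ?_,
    fun g => ⟨z g, by simp⟩⟩
  · have h0 : H.dt g ≠ 0 := left_ne_zero_of_mul_eq_one (hdet g)
    change H.dt _ = 1
    apply mul_left_cancel₀ h0
    nth_rw 1 [← hz g]
    rw [← map_mul, mul_inv_cancel_left, mul_one]
  · change (H.sc (z (g * k)))⁻¹ * (g * k) = (H.sc (z g))⁻¹ * g * ((H.sc (z k))⁻¹ * k)
    rw [← map_inv H.sc, ← map_inv H.sc, ← map_inv H.sc, map_mul, mul_inv, map_mul,
      mul_assoc, mul_assoc, ← mul_assoc g, ← sc_comm, mul_assoc]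
  · have : δ s = 1 := Subtype.ext s.2
    simp [z, this]

theorem sum_cent {G : Type*} [Group G] [Fintype G] (ι : G ≃* H.S) (φ : H.U → ℂ) (h : G) :
    ∑ c : Subgroup.centralizer ({h} : Set G), φ (ι c) =
      ∑ c : (H.S ⊓ Subgroup.centralizer {(ι h : H.U)} : Subgroup H.U), φ c := by
  refine Fintype.sum_equiv (ι := Subgroup.centralizer ({h} : Set G))
    (κ := (H.S ⊓ Subgroup.centralizer {(ι h : H.U)} : Subgroup H.U))
    { toFun := fun c => ⟨ι c, (ι c).2, ?_⟩
      invFun := fun c => ⟨ι.symm ⟨c, c.2.1⟩, ?_⟩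
      left_inv := fun c => Subtype.ext (by simp)
      right_inv := fun c => Subtype.ext (by simp) } _ _ fun c => rfl
  · have := Subgroup.mem_centralizer_singleton_iff.1 c.2
    exact Subgroup.mem_centralizer_singleton_iff.2 (by
      rw [← Subgroup.coe_mul, ← Subgroup.coe_mul, ← map_mul, ← map_mul, this])
  · refine Subgroup.mem_centralizer_singleton_iff.2 (ι.injective (Subtype.ext ?_))
    simpa using Subgroup.mem_centralizer_singleton_iff.1 c.2.2

theorem classify_rep {W W' : Type*} [AddCommGroup W] [Module ℂ W] [FiniteDimensional ℂ W]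
    [AddCommGroup W'] [Module ℂ W'] [FiniteDimensional ℂ W'] (hodd : Odd (finrank F V))
    (h3 : 3 ≤ finrank F V) (ρ : H.U →* Module.End ℂ W) (Ω : H.U →* Module.End ℂ W')
    (hΩ : ∀ g, LinearMap.trace ℂ W' (Ω g) = H.ω g) (hρ : ZP (ρ : H.U →ₙ* Module.End ℂ W))
    (hΩ' : ZP (Ω : H.U →ₙ* Module.End ℂ W')) :
    (∀ g ∈ H.S, ρ g = 1) ∨
      ∃ L : W →ₗ[ℂ] W', L ≠ 0 ∧ ∀ g ∈ H.S, ∀ v, L (ρ g v) = Ω g (L v) := by
  by_cases hNT : ∀ e, e ≠ 0 → H.b e e = 0 → cz (ρ : H.U →ₙ* Module.End ℂ W) e ≠ 0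
  swap
  · left
    push Not at hNT
    obtain ⟨e, h0, he, h⟩ := hNT
    have h1 : (ρ : H.U →ₙ* Module.End ℂ W) 1 * 1 = 1 := by simp
    have h2 : H.AllQ (Fixer (ρ : H.U →ₙ* Module.End ℂ W) 1 h1) := by
      intro x hx0 hx g hg
      obtain ⟨k, -, rfl⟩ := H.allQ_S.trans h3 h0 he hx0 hx
      have h4 := conj_cz (ρ : H.U →ₙ* Module.End ℂ W) k e
      rw [h, mul_zero] at h4
      have h5 : cz (ρ : H.U →ₙ* Module.End ℂ W) (k • e) = 0 := by
        rw [← cz_one, ← mul_inv_cancel k, map_mul, ← mul_assoc, ← h4, zero_mul]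
      have h6 := hρ _ hx0 hx g hg
      rw [cz, sub_eq_zero] at h5
      rw [← h5] at h6
      change (ρ : H.U →ₙ* Module.End ℂ W) g * 1 = 1
      simpa using h6
    intro g hg
    simpa using (show (ρ : H.U →ₙ* Module.End ℂ W) g * 1 = 1 from h2.S_le hodd hg)
  right
  let R : H.U →ₙ* Module.End ℂ (W × W') :=
    { toFun := fun g => (ρ g).prodMap (Ω g)
      map_mul' := fun g k => by rw [map_mul, map_mul, LinearMap.prodMap_mul] }
  have hR : ∀ g, R g = (ρ g).prodMap (Ω g) := fun g => rfl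
  have hz : ∀ e, zz R e = (zz (ρ : H.U →ₙ* Module.End ℂ W) e).prodMap
      (zz (Ω : H.U →ₙ* Module.End ℂ W') e) := by
    intro e
    ext v <;> simp [zz, hR, Prod.fst_sum, Prod.snd_sum]
  obtain ⟨φ, h1, h2⟩ := ZP.classify (R := R) (p := LinearMap.prodMap 1 0)
    (o := LinearMap.prodMap 0 1)
    (fun e h0 he g hg => by
      rw [hz, hR, LinearMap.prodMap_mul]
      exact congrArg₂ _ (hρ e h0 he g hg) (hΩ' e h0 he g hg))
    hodd h3 (by simp [LinearMap.prodMap_mul]) (by simp [LinearMap.prodMap_mul])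
    (fun g => by simp [hR, LinearMap.prodMap_mul]) (fun g => by simp [hR, LinearMap.prodMap_mul])
    (fun g _ => by simp [hR, LinearMap.prodMap_mul, LinearMap.trace_prodMap', hΩ])
    (fun e h0 he h => hNT e h0 he (by
      ext v
      have := congrArg Prod.fst (LinearMap.congr_fun h (v, 0))
      simpa [cz, hz, hR] using this))
  refine ⟨LinearMap.snd ℂ W W' ∘ₗ φ ∘ₗ LinearMap.inl ℂ W W', fun h => h2 ?_, fun g hg v => ?_⟩
  · refine LinearMap.ext fun v => ?_
    have := LinearMap.congr_fun h v.1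
    simpa [Prod.ext_iff] using this
  · have := congrArg Prod.snd (LinearMap.congr_fun (h1 g hg) (v, 0))
    simpa [hR] using this.symm

theorem main {G : Type*} [Group G] [Fintype G] (ι : G ≃* H.S) {m : ℕ}
    (hn : finrank F V = 2 * m + 3) (hcop : Nat.Coprime (finrank F V) (qq F + 1))
    (hdet : ∀ g : H.U, H.dt g * star (H.dt g) = 1) :
    Nat.card {χ : IrrCharacter G // charDegree (χ : G → ℂ) =
      (qq F ^ finrank F V - qq F) / (qq F + 1)} = 1 ∧
    ∀ χ : IrrCharacter G, classInner (χ : G → ℂ)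
      (fun g : G => (Nat.card (Subgroup.centralizer ({g} : Set G)) : ℂ)) ≠ 0 ↔
      charDegree (χ : G → ℂ) ≠ (qq F ^ finrank F V - qq F) / (qq F + 1) := by
  have hodd : Odd (finrank F V) := ⟨m + 1, by omega⟩
  have hq := two_le_qq F
  have h2 : m = 0 → qq F ≠ 2 := fun h0 h => by
    rw [hn, h0, h] at hcop
    norm_num at hcop
  obtain ⟨D, hD⟩ := hodd.nat_add_dvd_pow_add_pow (qq F) 1
  rw [one_pow] at hD
  have hD3 : 3 ≤ D := by
    have h1 : qq F ^ 3 ≤ qq F ^ finrank F V := Nat.pow_le_pow_right (by omega) (by omega)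
    by_contra h
    have : (qq F + 1) * D ≤ (qq F + 1) * 2 := Nat.mul_le_mul_left _ (by omega)
    have h3 : 4 * qq F ≤ qq F ^ 3 := by
      have : 2 * 2 ≤ qq F * qq F := Nat.mul_le_mul hq hq
      nlinarith
    omega
  have hd0 : (qq F ^ finrank F V - qq F) / (qq F + 1) = D - 1 := by
    refine Nat.div_eq_of_eq_mul_right (by omega) ?_
    rw [Nat.mul_sub_one, ← hD]
    omega
  rw [hd0]
  obtain ⟨Ω, hΩ⟩ := H.exists_weil
  obtain ⟨π, hπ, hπ'⟩ := exists_proj hcop hdet
  have hdec : ∀ g : H.U, ∃ z, ∃ s ∈ H.S, g = H.sc z * s := fun g => by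
    obtain ⟨z, hz⟩ := hπ' g
    exact ⟨z, _, (π g).2, hz⟩
  obtain ⟨u, hu, N, v, hN, hc⟩ := exists_reg_unip (H := H) hn hcop
  let j : G →* H.U := H.S.subtype.comp ι.toMonoidHom
  have hj : ∀ g, j g = ι g := fun g => rfl
  let σ : Representation ℂ G (Fin (qq F ^ finrank F V) → ℂ) := MonoidHom.comp Ω j
  let w : AddChar (Additive (unitary F)) ℂ → G → ℂ := fun θ g =>
    LinearMap.trace ℂ _ (σ g * et Ω θ)
  have hw : ∀ θ g, w θ g = LinearMap.trace ℂ _ (Rt Ω θ (ι g)) := fun θ g => rfl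
  have hwc : ∀ θ, IsCharacter G (w θ) := fun θ =>
    isCharacter_trace_mul_idem σ _ (et_idem Ω θ) fun g => et_comm Ω θ _
  have hsum : σ.character = ∑ θ, w θ := by
    ext g
    simp only [w, Finset.sum_apply, ← map_sum, ← Finset.mul_sum, sum_et, mul_one]
    rfl
  clear_value w
  have hdeg : ∀ θ, charDegree (w θ) = if θ = 0 then D - 1 else D := by
    intro θ
    refine charDegree_eq_of_apply_one ?_
    rw [hw, map_one, Rt_apply, OneMemClass.coe_one, trace_et_one hΩ hodd hD]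
    split_ifs
    · rw [Nat.cast_sub (by omega), Nat.cast_one]
    · simp
  have hirr : ∀ θ, IsIrrCharacter G (w θ) := by
    intro θ
    obtain ⟨r, hr, hr'⟩ := sum_omega_sq (H := H) (by omega)
    have h1 : ip σ.character σ.character = r := by
      rw [ip_eq_sum_inv _ (isCharacter_of_rep σ), Nat.card_congr ι.toEquiv,
        Nat.card_eq_fintype_card, inv_mul_eq_iff_eq_mul₀
          (Nat.cast_ne_zero.2 Fintype.card_ne_zero), mul_comm, ← hr']
      refine Fintype.sum_equiv ι.toEquiv _ _ fun g => ?_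
      change Ω.character (j g) * Ω.character (j g⁻¹) = _
      rw [hΩ, hΩ, map_inv, omega_inv]
      rfl
    choose a ha using fun θ θ' => (hwc θ).exists_nat_ip (hwc θ')
    rw [hsum, ip_sum_left] at h1
    simp only [ip_sum_right, ha, ← Nat.cast_sum, Nat.cast_inj] at h1
    rw [(hwc θ).isIrr_iff_ip_self, ha, diag_eq_one a (fun θ => ?_)
      (by rw [h1, AddChar.card_eq, card_add_unitary]; exact hr), Nat.cast_one]
    rw [Nat.pos_iff_ne_zero]
    intro h0
    have h3 := ha θ θ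
    rw [h0, Nat.cast_zero, ip_self_eq_zero] at h3
    have h4 := hdeg θ
    rw [h3] at h4
    simp only [charDegree, Pi.zero_apply, Complex.zero_re, Nat.floor_zero] at h4
    split_ifs at h4 <;> omega
  have hT0 : ∀ h : G, ∑ c : Subgroup.centralizer ({h} : Set G), w 0 c = 0 := by
    intro h
    simp only [hw]
    rw [sum_cent ι fun g => LinearMap.trace ℂ _ (Rt Ω 0 g), ← map_sum, ← sm,
      sm_cent_et_zero hΩ hodd hdec, map_zero]
  have hT1 : ∀ θ, θ ≠ 0 →
      ∑ c : Subgroup.centralizer ({ι.symm ⟨u, hu⟩} : Set G), w θ c ≠ 0 := by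
    intro θ hθ
    have h1 : ∀ c : Subgroup.centralizer ({ι.symm ⟨u, hu⟩} : Set G), w θ c = w 0 c + 1 := by
      intro c
      obtain ⟨P, hP⟩ := hc (ι c) ⟨(ι c).2, Subgroup.mem_centralizer_singleton_iff.2 (by
        have := congrArg (fun x => (ι x : H.U)) (Subgroup.mem_centralizer_singleton_iff.1 c.2)
        simpa using this)⟩
      rw [hw, hw, Rt_apply, Rt_apply, trace_et hΩ hodd θ fun z hz => hN.unip_kk hP hz,
        trace_et hΩ hodd 0 fun z hz => hN.unip_kk hP hz, if_neg hθ, if_pos rfl]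
      ring
    rw [Finset.sum_congr rfl fun c _ => h1 c, Finset.sum_add_distrib, hT0]
    simp
  have key : ∀ χ : IrrCharacter G, χ.1 = w 0 ∨ (charDegree χ.1 ≠ D - 1 ∧
      ∃ h : G, ∑ c : Subgroup.centralizer ({h} : Set G), χ.1 c ≠ 0) := by
    intro χ
    obtain ⟨k, ρ, -, hρ⟩ := χ.2
    let ρ' : H.U →* Module.End ℂ (Fin k → ℂ) := MonoidHom.comp ρ (ι.symm.toMonoidHom.comp π)
    have hρ' : ∀ g, ρ' (ι g) = ρ g := fun g => by simp [ρ', hπ]
    have hχ : ∀ g, χ.1 g = LinearMap.trace ℂ _ (ρ' (ι g)) := fun g => by rw [hρ', ← hρ]; rfl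
    by_cases hZ : ZP (ρ' : H.U →ₙ* Module.End ℂ (Fin k → ℂ))
    · rcases classify_rep hodd (by omega) ρ' Ω hΩ hZ (zp_weil hΩ hn h2) with h | ⟨L, hL, hL'⟩
      · right
        have h1 : ∀ g, χ.1 g = χ.1 1 := fun g => by rw [hχ, hχ, h _ (ι g).2, h _ (ι 1).2]
        have h3 : ∑ c : Subgroup.centralizer ({1} : Set G), χ.1 c ≠ 0 := by
          rw [Finset.sum_congr rfl fun (c : Subgroup.centralizer ({1} : Set G)) _ => h1 c]
          simp [irr_apply_one_ne_zero]
        refine ⟨?_, 1, h3⟩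
        have h4 : χ = irrOne G := by
          by_contra h4
          have h5 := ip_irr_ne h4
          rw [ip_def, Finset.sum_congr rfl fun c _ => by rw [h1 c, irrOne_apply]] at h5
          simp [irr_apply_one_ne_zero] at h5
        rw [h4, charDegree_eq_of_apply_one (n := 1) (by simp)]
        omega
      · have h1 := ip_ne_zero_of_intertwiner ρ σ L hL fun g x => by
          rw [← hρ']; exact hL' _ (ι g).2 x
        rw [hsum, hρ, ip_sum_left] at h1
        obtain ⟨θ, -, hθ⟩ := Finset.exists_ne_zero_of_sum_ne_zero h1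
        have h3 : (⟨w θ, hirr θ⟩ : IrrCharacter G) = χ := by
          by_contra h3
          exact hθ (ip_irr_ne h3)
        have h4 : χ.1 = w θ := (congrArg Subtype.val h3).symm
        rw [h4]
        by_cases h0 : θ = 0
        · exact Or.inl (by rw [h0])
        · refine Or.inr ⟨?_, _, hT1 θ h0⟩
          rw [hdeg, if_neg h0]
          omega
    · right
      obtain ⟨d, hd, hd'⟩ := dim_of_not_zp _ hn hZ
      have h1 := arith_bound hq h2 (hn ▸ hD) hd'
      refine ⟨?_, ι.symm ⟨u, hu⟩, ?_⟩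
      · rw [charDegree_eq_of_apply_one (n := d) (by rw [hχ, map_one, ← hd]; rfl)]
        omega
      · obtain ⟨t, ht, ht'⟩ := trace_sm (ρ' : H.U →ₙ* Module.End ℂ (Fin k → ℂ))
          (H.S ⊓ Subgroup.centralizer {u})
        simp only [hχ]
        rw [sum_cent ι fun g => LinearMap.trace ℂ _ (ρ' g), MulEquiv.apply_symm_apply]
        refine ht ▸ mul_ne_zero (Nat.cast_ne_zero.2 Fintype.card_ne_zero)
          (Nat.cast_ne_zero.2 (ht' (sm_ne_zero_of_not_zp _ hN hn hZ hc)).ne')
  have hdeg0 : charDegree (w 0) = D - 1 := by rw [hdeg, if_pos rfl]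
  refine ⟨Nat.card_eq_one_iff_exists.2 ⟨⟨⟨w 0, hirr 0⟩, hdeg0⟩, fun χ => ?_⟩, fun χ => ?_⟩
  · exact Subtype.ext (Subtype.ext ((key χ.1).resolve_right fun h => h.1 χ.2))
  · rw [conj_char_iff (irr_isCharacter χ)]
    rcases key χ with h | h
    · simp [h, hT0, hdeg0]
    · simp only [h.1, h.2, ne_eq, not_false_eq_true]

end HS

end UW
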