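import Cfsg.Agent.Lib.UW.Gen

/-!
# A regular self-adjoint nilpotent endomorphism and a regular unipotent element
-/

set_option autoImplicit false
set_option linter.unusedSectionVars false

open scoped Classical
open Module Polynomial

namespace UW

namespace HS

universe u

variable {F V : Type*} [Field F] [Fintype F] [StarRing F] [HF F] [AddCommGroup V] [Module F V]
  [Fintype V] {H : HS F V}

variable (H) in
/-- A regular self-adjoint nilpotent endomorphism of a space of dimension `m + 1`. -/
structure RegNil (m : ℕ) (N : Module.End F V) (v : V) : Prop where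
  sa : ∀ x y, H.b (N x) y = H.b x (N y)
  nil : N ^ (m + 1) = 0
  cyc : ∀ M : Submodule F V, v ∈ M → (∀ y ∈ M, N y ∈ M) → M = ⊤
  top : H.b v ((N ^ m) v) = 1

theorem regNil_aux (m : ℕ) : ∀ (V : Type u) [AddCommGroup V] [Module F V] [Fintype V]
    (H : HS F V), finrank F V = 2 * m + 1 → ∃ N v, H.RegNil (2 * m) N v := by
  induction m with
  | zero =>
    intro V _ _ _ H h1
    have : Nontrivial V := Module.nontrivial_of_finrank_pos (R := F) (by omega)
    obtain ⟨v, hv⟩ := H.exists_norm_vec (star_one F)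
    refine ⟨0, v, by simp, by simp, fun M hM _ => ?_, by simpa using hv⟩
    have hv0 : v ≠ 0 := ne_zero_of_b_ne (H := H) (y := v) (by rw [hv]; exact one_ne_zero)
    refine Submodule.eq_top_of_finrank_eq (le_antisymm (Submodule.finrank_le _) ?_)
    have : (F ∙ v) ≤ M := (Submodule.span_singleton_le_iff_mem _ _).2 hM
    have h2 := Submodule.finrank_mono this
    rw [finrank_span_singleton hv0] at h2
    omega
  | succ m ih =>
    intro V _ _ _ H h1
    obtain ⟨e, h0, he⟩ := H.exists_iso (by omega)
    obtain ⟨f, h⟩ := exists_hyp he h0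
    obtain ⟨N', v, hN⟩ := ih _ (H.sub _ h.nd) (by have := h.finrank_hp; omega)
    let P : V →ₗ[F] H.hp e f := LinearMap.fst F _ _ ∘ₗ h.equiv.toLinearMap
    have hP : ∀ y, (P y : V) = y - H.b y f • e - H.b y e • f := fun y => rfl
    have hPd : ∀ d : H.hp e f, P d = d := fun d => Subtype.ext (by simp [hP, d.2.1, d.2.2])
    have hPe : P e = 0 := Subtype.ext (by simp [hP, h.ee, h.ef])
    have hPf : P f = 0 := Subtype.ext (by simp [hP, h.ff, h.fe])
    have hb : ∀ (d : H.hp e f) y, H.b d y = H.b d (P y) := fun d y => by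
      simp [hP, d.2.1, d.2.2]
    let N : Module.End F V := (H.hp e f).subtype ∘ₗ N' ∘ₗ P + (H.bl e).smulRight (v : V) +
      (H.bl v).smulRight e
    have hNy : ∀ y, N y = (N' (P y) : V) + H.b y e • (v : V) + H.b y v • e := fun y => rfl
    have hNd : ∀ d : H.hp e f, N d = (N' d : V) + H.b d v • e := fun d => by
      simp [hNy, hPd, d.2.1]
    have hNe : N e = 0 := by simp [hNy, hPe, h.ee, H.symm_zero v.2.1]
    have hNf : N f = v := by simp [hNy, hPf, h.fe, H.symm_zero v.2.2]
    have hpow : ∀ j, (N ^ (j + 2)) f = ((N' ^ (j + 1)) v : V) + H.b ((N' ^ j) v) v • e := by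
      intro j
      induction j with
      | zero => simp [pow_succ, hNf, hNd]
      | succ j ihj =>
        rw [pow_succ', Module.End.mul_apply, ihj, map_add, map_smul, hNe, hNd, smul_zero,
          add_zero, pow_succ' N' (j + 1), Module.End.mul_apply]
    have htop : (N ^ (2 * (m + 1))) f = e := by
      have h2 := hN.top
      rw [sub_b] at h2
      rw [show 2 * (m + 1) = 2 * m + 2 by ring, hpow, hN.nil, H.symm_one h2]
      simp
    have hcyc : ∀ M : Submodule F V, f ∈ M → (∀ y ∈ M, N y ∈ M) → M = ⊤ := by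
      intro M hf hM
      have hpM : ∀ j, (N ^ j) f ∈ M := by
        intro j
        induction j with
        | zero => simpa using hf
        | succ j ihj => rw [pow_succ', Module.End.mul_apply]; exact hM _ ihj
      have heM : e ∈ M := htop ▸ hpM _
      have h2 := hN.cyc (M.comap (H.hp e f).subtype) (by simpa [← hNf] using hM f hf)
        fun d hd => by
          have h3 := M.sub_mem (hM d hd) (M.smul_mem (H.b d v) heM)
          rw [hNd, add_sub_cancel_right] at h3
          exact h3
      rw [Submodule.eq_top_iff']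
      intro y
      have h3 : (P y : V) ∈ M := (Submodule.eq_top_iff'.1 h2) (P y)
      have h4 := M.add_mem (M.add_mem h3 (M.smul_mem (H.b y f) heM)) (M.smul_mem (H.b y e) hf)
      rw [hP] at h4
      convert h4 using 1
      module
    refine ⟨N, f, fun x y => ?_, ?_, hcyc, by rw [htop, h.fe]⟩
    · have h2 := hN.sa (P x) (P y)
      simp only [sub_b] at h2
      have h3 : H.b x (N' (P y) : V) = H.b (P x) (N' (P y) : V) := by
        rw [← H.herm, hb, herm]
      simp only [hNy, add_left, add_right, smul_left, smul_right, herm]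
      rw [hb (N' (P x)) y, h2, h3]
      ring
    · have := hcyc (LinearMap.ker (N ^ (2 * (m + 1) + 1)))
        (by rw [LinearMap.mem_ker, pow_succ', Module.End.mul_apply, htop, hNe])
        fun y hy => by
          rw [LinearMap.mem_ker] at hy ⊢
          rw [← Module.End.mul_apply, ← pow_succ, pow_succ', Module.End.mul_apply, hy, map_zero]
      exact LinearMap.ker_eq_top.1 this

variable (H) in
theorem exists_regNil {m : ℕ} (h : finrank F V = 2 * m + 1) : ∃ N v, H.RegNil (2 * m) N v :=
  regNil_aux m V H h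

namespace RegNil

variable {m : ℕ} {N : Module.End F V} {v : V}

theorem sa_pow (h : H.RegNil m N v) (j : ℕ) (x y : V) :
    H.b ((N ^ j) x) y = H.b x ((N ^ j) y) := by
  induction j generalizing x y with
  | zero => simp
  | succ j ih => rw [pow_succ', Module.End.mul_apply, h.sa, ih, ← Module.End.mul_apply, ← pow_succ,
      pow_succ']

theorem N_e (h : H.RegNil m N v) : N ((N ^ m) v) = 0 := by
  rw [← Module.End.mul_apply, ← pow_succ', h.nil]; rfl

theorem b_N_e (h : H.RegNil m N v) (y : V) : H.b (N y) ((N ^ m) v) = 0 := by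
  rw [h.sa, h.N_e, zero_right]

theorem e_ne (h : H.RegNil m N v) : (N ^ m) v ≠ 0 :=
  ne_zero_of_b_ne' (H := H) (x := v) (by rw [h.top]; exact one_ne_zero)

theorem e_iso (h : H.RegNil m N v) (hm : m ≠ 0) : H.b ((N ^ m) v) ((N ^ m) v) = 0 := by
  obtain ⟨k, rfl⟩ := Nat.exists_eq_succ_of_ne_zero hm
  nth_rw 1 [pow_succ']
  rw [Module.End.mul_apply, h.b_N_e]

theorem exists_poly (h : H.RegNil m N v) (y : V) : ∃ P : F[X], y = aeval N P v := by
  have := h.cyc (LinearMap.range ((LinearMap.applyₗ v) ∘ₗ (aeval N : F[X] →ₐ[F] _).toLinearMap))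
    ⟨1, by simp⟩ (by
      rintro _ ⟨P, rfl⟩
      exact ⟨X * P, by simp⟩)
  obtain ⟨P, hP⟩ := (Submodule.eq_top_iff'.1 this) y
  exact ⟨P, hP.symm⟩

theorem eq_zero_of_commute (h : H.RegNil m N v) {T : Module.End F V} (hT : Commute T N)
    (h0 : T v = 0) : T = 0 :=
  LinearMap.ker_eq_top.1 (h.cyc _ h0 fun y hy => by
    rw [LinearMap.mem_ker] at hy ⊢
    rw [← Module.End.mul_apply, hT.eq, Module.End.mul_apply, hy, map_zero])

theorem commute_aeval (N : Module.End F V) (P : F[X]) : Commute (aeval N P) N := by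
  have : Commute (aeval N P) (aeval N (X : F[X])) := (Commute.all P X).map _
  simpa using this

theorem decomp (h : H.RegNil m N v) (y : V) :
    ∃ P : F[X], y = H.b y ((N ^ m) v) • v + N (aeval N P v) := by
  obtain ⟨P, hP⟩ := h.exists_poly y
  have h1 : y = P.coeff 0 • v + N (aeval N P.divX v) := by
    have := congrArg (fun Q => aeval N Q v) (X_mul_divX_add P)
    simp only [map_add, map_mul, aeval_X, aeval_C, LinearMap.add_apply, Module.End.mul_apply,
      Module.algebraMap_end_apply] at this
    rw [hP, ← this, add_comm]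
  refine ⟨P.divX, ?_⟩
  have h2 : H.b y ((N ^ m) v) = P.coeff 0 := by
    rw [h1, add_left, smul_left, h.top, h.b_N_e]; simp
  rw [h2]; exact h1

theorem comm_decomp (h : H.RegNil m N v) {T : Module.End F V} (hT : Commute T N) :
    ∃ (c : F) (P : F[X]), T = c • 1 + N * aeval N P := by
  obtain ⟨P, hP⟩ := h.decomp (T v)
  refine ⟨_, P, sub_eq_zero.1 (h.eq_zero_of_commute ?_ (by simpa [sub_eq_zero] using hP))⟩
  exact hT.sub_left (((Commute.one_left N).smul_left _).add_left
    ((Commute.refl N).mul_left (commute_aeval N P)))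

theorem ker (h : H.RegNil m N v) (hm : m ≠ 0) {y : V} (hy : N y = 0) :
    ∃ c : F, y = c • (N ^ m) v := by
  obtain ⟨f, hf⟩ := exists_hyp (h.e_iso hm) h.e_ne
  refine ⟨_, hf.eq_smul fun z hz => ?_⟩
  obtain ⟨P, hP⟩ := h.decomp z
  rw [hP, hz, zero_smul, zero_add, ← h.sa, hy, zero_left]

theorem isNilpotent (h : H.RegNil m N v) {T : Module.End F V} (hT : Commute T N) :
    IsNilpotent (N * T) :=
  hT.symm.isNilpotent_mul_right ⟨_, h.nil⟩

/-- A regular unipotent element. -/
theorem exists_unip (h : H.RegNil m N v) :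
    ∃ u ∈ H.S, ∀ c : H.U, Commute c u → Commute (H.lin c) N := by
  obtain ⟨a, ha⟩ := HF.ex (F := F)
  have ha0 : star a ≠ 0 := fun h0 => ha (by rw [h0, star_eq_zero.1 h0])
  have hd : a - star a ≠ 0 := sub_ne_zero.2 ha.symm
  obtain ⟨B, hB⟩ := (IsNilpotent.smul ⟨_, h.nil⟩ (star a)).isUnit_one_add
  have hB1 : (B⁻¹ : (Module.End F V)ˣ) * (1 + star a • N) = 1 := by rw [← hB]; simp
  have hB2 : (1 + star a • N) * (B⁻¹ : (Module.End F V)ˣ) = 1 := by rw [← hB]; simp
  set B' : Module.End F V := ((B⁻¹ : (Module.End F V)ˣ) : Module.End F V)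
  have hiso : ∀ x y, H.b (((1 + a • N) * B') x) (((1 + a • N) * B') y) = H.b x y := by
    intro x y
    have hx : x = (1 + star a • N) (B' x) := by rw [← Module.End.mul_apply, hB2]; rfl
    have hy : y = (1 + star a • N) (B' y) := by rw [← Module.End.mul_apply, hB2]; rfl
    conv_rhs => rw [hx, hy]
    simp only [Module.End.mul_apply, LinearMap.add_apply, Module.End.one_apply,
      LinearMap.smul_apply, add_left, add_right, smul_left, smul_right, star_star, h.sa (B' x)]
    ring
  have hNB : Commute B' N := by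
    have h1 : Commute (B : Module.End F V) N := by
      rw [hB]; exact (Commute.one_left N).add_left ((Commute.refl N).smul_left _)
    exact h1.units_inv_left
  refine ⟨H.mkU _ hiso, det_eq_one_of_nilpotent ?_, fun c hc => ?_⟩
  · have : (1 + a • N) * B' - 1 = (a - star a) • (N * B') := by
      nth_rw 2 [← hB2]
      rw [← sub_mul, ← smul_mul_assoc]
      congr 1
      module
    rw [lin_mkU, this]
    exact (h.isNilpotent hNB).smul _
  · have h1 : Commute (H.lin c) ((1 + a • N) * B') := hc.map H.lin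
    have h2 : (a - star a) • B' = a • 1 - star a • ((1 + a • N) * B') := by
      nth_rw 1 [← hB2]
      rw [← smul_mul_assoc, ← smul_mul_assoc, ← sub_mul]
      nth_rw 1 [← one_mul B']
      rw [← smul_mul_assoc]
      congr 1
      module
    have h3 : Commute (H.lin c) ((a - star a) • B') := by
      rw [h2]
      exact ((Commute.one_right _).smul_right _).sub_right (h1.smul_right _)
    have h4 : Commute (H.lin c) B' := by
      have := h3.smul_right (a - star a)⁻¹
      rwa [inv_smul_smul₀ hd] at this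
    have h5 : Commute (H.lin c) (1 + star a • N) := by
      rw [← hB]
      simpa using h4.units_inv_right
    have h6 := (h5.sub_right (Commute.one_right _)).smul_right (star a)⁻¹
    rwa [add_sub_cancel_left, inv_smul_smul₀ ha0] at h6

/-- The structure of the centralizer. -/
theorem cent (h : H.RegNil m N v) {c : H.U} (hc : Commute (H.lin c) N) :
    ∃ (z : unitary F) (c₁ : H.U) (P : F[X]), c = H.sc z * c₁ ∧
      H.lin c₁ = 1 + N * aeval N P := by
  obtain ⟨a, P, hP⟩ := h.comm_decomp hc
  have h1 : c • (N ^ m) v = a • (N ^ m) v := by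
    rw [← lin_apply, hP, ← (commute_aeval N P).eq]
    simp [h.N_e]
  have h2 := b_smul_smul c v ((N ^ m) v)
  rw [h1, ← lin_apply, hP] at h2
  simp only [LinearMap.add_apply, LinearMap.smul_apply, Module.End.one_apply,
    Module.End.mul_apply, smul_right, add_left, smul_left, h.top, h.b_N_e] at h2
  have h3 : a * star a = 1 := by linear_combination h2
  refine ⟨⟨a, mem_unitary.2 h3⟩, (H.sc ⟨a, mem_unitary.2 h3⟩)⁻¹ * c, C (star a) * P,
    by simp, ?_⟩
  have h4 : H.lin (H.sc ⟨a, mem_unitary.2 h3⟩)⁻¹ = star a • 1 := by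
    rw [← map_inv]
    rfl
  rw [map_mul, h4, hP, smul_mul_assoc, one_mul, smul_add, smul_smul, mul_comm (star a), h3,
    one_smul, map_mul, aeval_C, Algebra.algebraMap_eq_smul_one, smul_mul_assoc, one_mul,
    mul_smul_comm]

theorem unip_mem_S (h : H.RegNil m N v) {c : H.U} {P : F[X]}
    (hc : H.lin c = 1 + N * aeval N P) : c ∈ H.S := by
  refine det_eq_one_of_nilpotent ?_
  rw [hc, add_sub_cancel_left]
  exact h.isNilpotent (commute_aeval N P)

theorem unip_e (h : H.RegNil m N v) {c : H.U} {P : F[X]}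
    (hc : H.lin c = 1 + N * aeval N P) : c • (N ^ m) v = (N ^ m) v := by
  rw [← lin_apply, hc, ← (commute_aeval N P).eq]
  simp [h.N_e]

theorem unip_kk (h : H.RegNil m N v) {c : H.U} {P : F[X]}
    (hc : H.lin c = 1 + N * aeval N P) {z : unitary F} (hz : z ≠ 1) :
    H.kk (H.sc z * c) = 0 := by
  rw [kk, Submodule.finrank_eq_zero, Submodule.eq_bot_iff]
  intro y hy
  rw [mem_fx, mul_smul, sc_smul, ← lin_apply, hc] at hy
  have hz' : (z : F) - 1 ≠ 0 := fun h0 => hz (Subtype.ext (sub_eq_zero.1 h0))
  have h1 := ((h.isNilpotent (commute_aeval N P)).smul ((z : F) / ((z : F) - 1))).isUnit_one_add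
  have h2 : (1 + ((z : F) / ((z : F) - 1)) • (N * aeval N P)) y = 0 := by
    apply smul_right_injective V hz'
    simp only [LinearMap.add_apply, Module.End.one_apply, LinearMap.smul_apply, smul_add,
      smul_smul, smul_zero] at hy ⊢
    rw [mul_div_cancel₀ _ hz', sub_smul, one_smul, sub_add_eq_add_sub, hy, sub_self]
  exact (Module.End.isUnit_iff _).1 h1 |>.1 (h2.trans (map_zero _).symm)

theorem key (h : H.RegNil (m + 1) N v) {c : H.U} {P : F[X]}
    (hc : H.lin c = 1 + N * aeval N P) {w : V} (hw : H.b w ((N ^ (m + 1)) v) = 0)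
    (hw' : H.b w ((N ^ m) v) = 1) {κ : F} (hκ : c • w = w + κ • (N ^ (m + 1)) v) :
    c ∈ H.Q ((N ^ (m + 1)) v) ∧ star κ = -κ := by
  obtain ⟨M, hM⟩ : ∃ M, M = N * aeval N P := ⟨_, rfl⟩
  have hcM : ∀ y, c • y = y + M y := fun y => by rw [← lin_apply, hc, hM]; rfl
  have hMN : Commute M N := hM ▸ (Commute.refl N).mul_left (commute_aeval N P)
  obtain ⟨P₁, h1⟩ := h.decomp w
  rw [hw, zero_smul, zero_add] at h1
  obtain ⟨P₂, h2⟩ := h.decomp (aeval N P₁ v)
  have h3 : H.b (aeval N P₁ v) ((N ^ (m + 1)) v) = 1 := by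
    rw [pow_succ', Module.End.mul_apply, ← h.sa, ← h1, hw']
  rw [h3, one_smul] at h2
  have h4 : M w = κ • (N ^ (m + 1)) v := by
    rw [hcM] at hκ
    exact add_left_cancel hκ
  have hT : N * M * N = 0 := by
    have hc1 : Commute (N * M * N) N := ((Commute.refl N).mul_left hMN).mul_left (Commute.refl N)
    refine h.eq_zero_of_commute hc1 ?_
    have hu := (h.isNilpotent (commute_aeval N P₂)).isUnit_one_add
    have hc2 : Commute (N * M * N) (aeval N P₂) := by
      have e1 := commute_aeval N P₂
      have e2 : Commute (aeval N P) (aeval N P₂) := (Commute.all P P₂).map _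
      rw [hM]
      exact (e1.symm.mul_left (e1.symm.mul_left e2)).mul_left e1.symm
    have hc3 : Commute (N * M * N) (1 + N * aeval N P₂) :=
      (Commute.one_right _).add_right (hc1.mul_right hc2)
    apply ((Module.End.isUnit_iff _).1 hu).1
    rw [map_zero, ← Module.End.mul_apply, ← hc3.eq, Module.End.mul_apply]
    have : (1 + N * aeval N P₂) v = aeval N P₁ v := by rw [h2]; rfl
    rw [this, Module.End.mul_apply, Module.End.mul_apply, ← h1, h4, map_smul, h.N_e, smul_zero]
  have hT' : ∀ y, N (M (N y)) = 0 := fun y => LinearMap.congr_fun hT y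
  refine ⟨⟨h.unip_e hc, fun y hy => ?_⟩, ?_⟩
  · obtain ⟨P₃, h5⟩ := h.decomp y
    rw [hy, zero_smul, zero_add] at h5
    obtain ⟨d, hd⟩ := h.ker m.succ_ne_zero (y := M y) (by rw [h5, hT'])
    exact ⟨d, by rw [hcM, hd]⟩
  · have h5 : M w = M (N v) := by
      rw [h1, h2, map_add, map_add, ← Module.End.mul_apply M N (N _), hMN.eq,
        Module.End.mul_apply, hT', add_zero]
    have h6 : κ = H.b (M (N v)) v := by
      rw [← h5, h4, smul_left, H.symm_one h.top, mul_one]
    have h7 := b_smul_smul c (N v) v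
    rw [hcM, hcM, add_left, add_right, add_right] at h7
    have h8 : H.b (M (N v)) (M v) = 0 := by
      have : M v = N (aeval N P v) := by rw [hM]; rfl
      rw [this, ← h.sa, hT', zero_left]
    have h9 : H.b (N v) (M v) = star κ := by
      rw [h6, herm, h.sa, ← Module.End.mul_apply, ← hMN.eq, Module.End.mul_apply]
    rw [h8, h9, ← h6] at h7
    linear_combination h7

end RegNil

end HS

end UW
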