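import Cfsg.Agent.Lib.UW.Class
import Cfsg.Agent.Lib.UW.Nil

/-!
# Representations without property (Z)
-/

set_option autoImplicit false
set_option linter.unusedSectionVars false

open scoped Classical
open Module Polynomial

namespace UW

theorem sum_eq_zero_of_mul {G : Type*} [Group G] [Fintype G] (f : G → ℂ) {a : G} {c : ℂ}
    (hc : c ≠ 1) (h : ∀ x, f (a * x) = c * f x) : ∑ x, f x = 0 := by
  have h1 : ∑ x, f x = c * ∑ x, f x := by
    rw [Finset.mul_sum, ← Equiv.sum_comp (Equiv.mulLeft a) f]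
    exact Finset.sum_congr rfl fun x _ => h x
  have h2 : (1 - c) * ∑ x, f x = 0 := by linear_combination h1
  exact (mul_eq_zero.1 h2).resolve_left (sub_ne_zero.2 hc.symm)

namespace HS

variable {F V : Type*} [Field F] [Fintype F] [StarRing F] [HF F] [AddCommGroup V] [Module F V]
  [Fintype V] {H : HS F V}

variable (H) in
/-- The cocycle describing the action of `Q e` on `e^⊥`. -/
def κ (f : V) (g : H.U) (w : V) : F := H.b (g • w - w) f

theorem κ_add (f : V) (g : H.U) (w w' : V) : H.κ f g (w + w') = H.κ f g w + H.κ f g w' := by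
  simp only [κ, smul_add, sub_left, add_left]; ring

theorem κ_sub (f : V) (g : H.U) (w w' : V) : H.κ f g (w - w') = H.κ f g w - H.κ f g w' := by
  simp only [κ, smul_sub, sub_left]; ring

theorem κ_smul (f : V) (g : H.U) (a : F) (w : V) : H.κ f g (a • w) = a * H.κ f g w := by
  simp only [κ, gsmul, sub_left, smul_left]; ring

theorem Hyp.κ_eq {e f : V} (h : H.Hyp e f) {g : H.U} {w : V} {c : F} (hc : g • w = w + c • e) :
    H.κ f g w = c := by
  simp [κ, hc, h.ef]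

theorem Hyp.smul_κ {e f : V} (h : H.Hyp e f) {g : H.U} (hg : g ∈ H.Q e) {w : V}
    (hw : H.b w e = 0) : g • w = w + H.κ f g w • e := by
  obtain ⟨c, hc⟩ := hg.2 w hw
  rw [h.κ_eq hc, hc]

theorem Hyp.κ_mul {e f : V} (h : H.Hyp e f) {g k : H.U} (hg : g ∈ H.Q e) (hk : k ∈ H.Q e) {w : V}
    (hw : H.b w e = 0) : H.κ f (g * k) w = H.κ f g w + H.κ f k w := by
  refine h.κ_eq ?_
  rw [mul_smul, h.smul_κ hk hw, smul_add, gsmul, hg.1, h.smul_κ hg hw, add_smul, add_assoc]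

section Alg

variable {A : Type*} [Ring A] [Algebra ℂ A] (R : H.U →ₙ* A) (ψ : AddChar F ℂ)

/-- The projection onto an eigenspace of `Q e`. -/
noncomputable def pp (e f w : V) : A :=
  (Fintype.card (H.Q e) : ℂ)⁻¹ • ∑ g : H.Q e, ψ (-H.κ f g w) • R g

theorem NonZ_realise_eqns : True := by
  have := @κ.eq_1.{0, 0}
  have := @pp.eq_1.{0, 0, 0}
  trivial

theorem one_pp (e f w : V) : R 1 * pp R ψ e f w = pp R ψ e f w := by
  simp only [pp, mul_smul_comm, Finset.mul_sum, R_one_mul]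

theorem pp_one (e f w : V) : pp R ψ e f w * R 1 = pp R ψ e f w := by
  simp only [pp, smul_mul_assoc, Finset.sum_mul, R_mul_one]

theorem Hyp.mul_pp {e f : V} (h : H.Hyp e f) {k : H.U} (hk : k ∈ H.Q e) {w : V}
    (hw : H.b w e = 0) : R k * pp R ψ e f w = ψ (H.κ f k w) • pp R ψ e f w := by
  rw [pp, mul_smul_comm, smul_comm (ψ _), Finset.mul_sum, Finset.smul_sum (r := ψ _),
    ← Equiv.sum_comp (Equiv.mulLeft (⟨k, hk⟩ : H.Q e))
      (fun g : H.Q e => ψ (H.κ f k w) • ψ (-H.κ f g w) • R g)]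
  congr 1
  refine Finset.sum_congr rfl fun g _ => ?_
  simp only [Equiv.coe_mulLeft, Subgroup.coe_mul, h.κ_mul hk g.2 hw, smul_smul, map_mul,
    mul_smul_comm, ← AddChar.map_add_eq_mul]
  congr 2
  ring

theorem Hyp.pp_mul_pp {e f : V} (h : H.Hyp e f) (w : V) {w' : V} (hw' : H.b w' e = 0) :
    pp R ψ e f w * pp R ψ e f w' =
      ((Fintype.card (H.Q e) : ℂ)⁻¹ * ∑ g : H.Q e, ψ (H.κ f g (w' - w))) • pp R ψ e f w' := by
  nth_rw 1 [pp]
  rw [smul_mul_assoc, Finset.sum_mul, mul_smul, Finset.sum_smul]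
  congr 1
  refine Finset.sum_congr rfl fun g _ => ?_
  rw [smul_mul_assoc, h.mul_pp R ψ g.2 hw', smul_smul, ← AddChar.map_add_eq_mul, κ_sub]
  congr 2
  ring

theorem Hyp.pp_idem {e f : V} (h : H.Hyp e f) {w : V} (hw : H.b w e = 0) :
    pp R ψ e f w * pp R ψ e f w = pp R ψ e f w := by
  have : (Fintype.card (H.Q e) : ℂ) ≠ 0 := Nat.cast_ne_zero.2 Fintype.card_ne_zero
  rw [h.pp_mul_pp R ψ w hw]
  simp [κ, this]

theorem Hyp.pp_orth {e f : V} (h : H.Hyp e f) {a₀ : F} (ha : ψ a₀ ≠ 1) {w w' : V}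
    (hw : H.b w e = 0) (hw' : H.b w' e = 0) (hne : ∀ c : F, w' ≠ w + c • e) :
    pp R ψ e f w * pp R ψ e f w' = 0 := by
  have hd : H.b (w' - w) e = 0 := by simp [hw, hw']
  obtain ⟨u, hu, hu'⟩ : ∃ u, H.b u e = 0 ∧ H.b (w' - w) u ≠ 0 := by
    by_contra h1
    push Not at h1
    exact hne _ (by rw [← h.eq_smul h1]; simp)
  obtain ⟨s, hs⟩ := exists_ok (u := star (-a₀ / H.b (w' - w) u) • u) h.ee (by simp [hu])
  have h1 : H.κ f (H.sg e _ s) (w' - w) = a₀ := h.κ_eq (by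
    rw [hs.sg_perp hd, smul_right, star_star, div_mul_cancel₀ _ hu', neg_smul, sub_neg_eq_add])
  rw [h.pp_mul_pp R ψ w hw', sum_eq_zero_of_mul _ (a := ⟨_, hs.mem_Q⟩) ha fun x => by
    rw [Subgroup.coe_mul, h.κ_mul hs.mem_Q x.2 hd, h1, AddChar.map_add_eq_mul]]
  simp

theorem Hyp.conj_pp {e f : V} (h : H.Hyp e f) {t : H.U} {a : F} (ha : a ≠ 0) (ht : t • e = a • e)
    {w : V} (hw : H.b w e = 0) : R t * pp R ψ e f w = pp R ψ e f (a⁻¹ • t • w) * R t := by
  have h1 : H.Q (t • e) = H.Q e := by rw [ht, Q_smul _ ha]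
  let ε : H.Q e ≃ H.Q e :=
    { toFun := fun g => ⟨t * g * t⁻¹, h1.le (conj_mem_Q g.2 t)⟩
      invFun := fun g => ⟨t⁻¹ * g * t, conj_mem_Q' (h1.ge g.2)⟩
      left_inv := fun g => Subtype.ext (by simp [mul_assoc])
      right_inv := fun g => Subtype.ext (by simp [mul_assoc]) }
  rw [pp, pp, mul_smul_comm, smul_mul_assoc, Finset.mul_sum, Finset.sum_mul,
    ← ε.sum_comp (fun g : H.Q e => ψ (-H.κ f g (a⁻¹ • t • w)) • R g * R t)]
  congr 1
  refine Finset.sum_congr rfl fun g _ => ?_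
  have h2 : H.κ f (t * g * t⁻¹) (a⁻¹ • t • w) = H.κ f g w := h.κ_eq (by
    rw [gsmul, mul_smul, mul_smul, inv_smul_smul, h.smul_κ g.2 hw, smul_add, gsmul, ht,
      smul_add, smul_comm (H.κ f g w), inv_smul_smul₀ ha])
  change _ = ψ (-H.κ f (t * g * t⁻¹) (a⁻¹ • t • w)) • R (t * g * t⁻¹) * R t
  rw [h2, mul_smul_comm, smul_mul_assoc, ← map_mul, ← map_mul, inv_mul_cancel_right]

theorem Hyp.pp_ne_zero {e f : V} (h : H.Hyp e f) {t : H.U} {a : F} (ha : a ≠ 0)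
    (ht : t • e = a • e) {w : V} (hw : H.b w e = 0) (h0 : pp R ψ e f w ≠ 0) :
    pp R ψ e f (a⁻¹ • t • w) ≠ 0 := by
  intro h1
  apply h0
  have := h.conj_pp R ψ ha ht hw
  rw [h1, zero_mul] at this
  rw [← one_pp, ← inv_mul_cancel t, map_mul, mul_assoc, this, mul_zero]

theorem Hyp.pp_smul_ne_zero {e f : V} (h : H.Hyp e f) {a : F} (ha : a ≠ 0) {w : V}
    (hw : w ∈ H.hp e f) (h0 : pp R ψ e f w ≠ 0) : pp R ψ e f (a • w) ≠ 0 := by
  obtain ⟨t, ht, ht'⟩ := h.exists_torus (inv_ne_zero ha)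
  have := h.pp_ne_zero R ψ (inv_ne_zero ha) ht hw.1 h0
  rwa [inv_inv, ht' w hw] at this

theorem Hyp.pp_ext_ne_zero {e f : V} (h : H.Hyp e f) (g : (H.sub _ h.nd).U) {w : H.hp e f}
    (h0 : pp R ψ e f w ≠ 0) : pp R ψ e f ((g • w : H.hp e f) : V) ≠ 0 := by
  have := h.pp_ne_zero R ψ one_ne_zero (t := h.nd.ext g) (by rw [h.ext_e, one_smul]) w.2.1 h0
  rwa [inv_one, one_smul, h.nd.ext_coe] at this

theorem zp_of_at (h3 : 3 ≤ finrank F V) {e : V} (h0 : e ≠ 0) (he : H.b e e = 0)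
    (h : ∀ g ∈ H.Q e, R g * zz R e = zz R e) : ZP R := by
  intro x hx0 hx g hg
  obtain ⟨k, -, rfl⟩ := H.allQ_S.trans h3 h0 he hx0 hx
  have h1 : zz R (k • e) = R k * zz R e * R k⁻¹ := by
    rw [conj_zz, mul_assoc, ← map_mul, mul_inv_cancel, zz_one]
  have h2 := h _ (conj_mem_Q' hg)
  rw [h1, ← mul_assoc, ← mul_assoc, ← map_mul]
  nth_rw 2 [← h2]
  rw [← mul_assoc, ← map_mul, ← mul_assoc, mul_inv_cancel_left]

theorem Hyp.exists_pp {e f : V} (h : H.Hyp e f) (h3 : 3 ≤ finrank F V) {a₀ : F} (ha : ψ a₀ ≠ 1)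
    (hZ : ¬ ZP R) : ∃ v : H.hp e f, v ≠ 0 ∧ pp R ψ e f v ≠ 0 := by
  by_contra h1
  push Not at h1
  refine hZ (zp_of_at R h3 h.ne_zero h.ee fun k hk => ?_)
  have h2 : ∑ v : H.hp e f, pp R ψ e f v = pp R ψ e f 0 :=
    Finset.sum_eq_single 0 (fun v _ hv => h1 v hv) (by simp)
  have h4 : ∀ g : H.Q e, zz R e * ∑ v : H.hp e f, ψ (-H.κ f g v) • R g =
      (if ∀ v : H.hp e f, H.κ f g v = 0 then (Fintype.card (H.hp e f) : ℂ) else 0) • zz R e := by
    intro g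
    rw [← Finset.sum_smul]
    split_ifs with hg
    · obtain ⟨s, hs, hs'⟩ := exists_tau_of_fix h.ee h.ne_zero g.2 fun y hy => by
        have h5 := h.prp_mem y
        rw [hy, zero_smul, sub_zero] at h5
        have h6 := h.smul_κ g.2 h5.1
        rw [hg ⟨_, h5⟩, zero_smul, add_zero, smul_sub, gsmul, g.2.1] at h6
        exact sub_left_injective h6
      simp only [hg, neg_zero, AddChar.map_zero_eq_one, Finset.sum_const, Finset.card_univ,
        nsmul_eq_mul, mul_one, mul_smul_comm]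
      rw [hs', zz_tau R h.ee hs]
    · push Not at hg
      obtain ⟨v, hv⟩ := hg
      rw [sum_eq_zero_of_add _ (a := (-a₀ / H.κ f g v) • v) ha fun x => by
        rw [Submodule.coe_add, κ_add, Submodule.coe_smul, κ_smul, div_mul_cancel₀ _ hv, neg_add,
          neg_neg, AddChar.map_add_eq_mul]]
      simp
  set c : ℂ := (Fintype.card (H.Q e) : ℂ)⁻¹ * ∑ g : H.Q e,
    (if ∀ v : H.hp e f, H.κ f g v = 0 then (Fintype.card (H.hp e f) : ℂ) else 0) with hc
  have h5 : zz R e * pp R ψ e f 0 = c • zz R e := by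
    rw [← h2]
    simp only [pp, ← Finset.smul_sum]
    rw [Finset.sum_comm, mul_smul_comm, Finset.mul_sum, Finset.sum_congr rfl fun g _ => h4 g,
      ← Finset.sum_smul, smul_smul]
  have h6 : c ≠ 0 := by
    refine mul_ne_zero (inv_ne_zero (Nat.cast_ne_zero.2 Fintype.card_ne_zero)) ?_
    rw [← Finset.sum_filter, Finset.sum_const, nsmul_eq_mul]
    refine mul_ne_zero ?_ (Nat.cast_ne_zero.2 Fintype.card_ne_zero)
    rw [Nat.cast_ne_zero, ← Nat.pos_iff_ne_zero, Finset.card_pos]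
    exact ⟨1, by simp [κ]⟩
  apply smul_right_injective A h6
  have h7 := conj_zz R k e
  rw [hk.1] at h7
  simp only
  rw [← mul_smul_comm, ← h5, ← mul_assoc, h7, mul_assoc, h.mul_pp R ψ hk (H.zero_left e)]
  simp [κ]

theorem sm_ne_zero_of_not_zp {m : ℕ} {N : Module.End F V} {v₀ : V}
    (hN : H.RegNil (2 * m + 2) N v₀) (hn : finrank F V = 2 * m + 3) (hZ : ¬ ZP R)
    {C : Subgroup H.U} (hC : ∀ c ∈ C, ∃ P : F[X], H.lin c = 1 + N * aeval N P) :
    sm R C ≠ 0 := by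
  obtain ⟨ψ, a₀, ha, hψ⟩ := exists_psi' F
  obtain ⟨f, h⟩ := exists_hyp (hN.e_iso (by omega)) hN.e_ne
  obtain ⟨v, hv0, hv⟩ := h.exists_pp R ψ (by omega) ha hZ
  have hd := h.finrank_hp
  have h1 : H.b ((N ^ (2 * m + 1)) v₀) ((N ^ (2 * m + 2)) v₀) = 0 := by
    rw [pow_succ' N (2 * m), Module.End.mul_apply, hN.b_N_e]
  have h2 := h.prp_mem ((N ^ (2 * m + 1)) v₀)
  rw [h1, zero_smul, sub_zero] at h2
  have h3 : (⟨_, h2⟩ : H.hp _ f) ≠ 0 := fun h0 => by
    have := congrArg N (sub_eq_zero.1 (congrArg Subtype.val h0))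
    rw [map_smul, hN.N_e, smul_zero, ← Module.End.mul_apply, ← pow_succ'] at this
    exact hN.e_ne this
  obtain ⟨w, hw, hw'⟩ : ∃ w : H.hp _ f, pp R ψ ((N ^ (2 * m + 2)) v₀) f w ≠ 0 ∧
      (H.sub _ h.nd).b w ⟨_, h2⟩ ≠ 0 := by
    by_cases hm : m = 0
    · refine ⟨v, hv, fun h4 => h3 ((H.sub _ h.nd).nondeg' fun y => ?_)⟩
      obtain ⟨c, rfl⟩ := (finrank_eq_one_iff_of_nonzero' (K := F) v hv0).1 (by omega) y
      rw [smul_left, h4, mul_zero]
    · obtain ⟨x, hx, hvx⟩ := exists_iso_ne (H := H.sub _ h.nd) (by omega) hv0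
      obtain ⟨k, -, hk⟩ := (H.sub _ h.nd).allQ_S.trans (by omega) (ne_zero_of_b_ne' hvx) hx h3
        (by
          have h4 : H.b ((N ^ (2 * m + 1)) v₀) ((N ^ (2 * m + 1)) v₀) = 0 := by
            rw [hN.sa_pow, ← Module.End.mul_apply, ← pow_add,
              pow_eq_zero_of_le (by omega) hN.nil]
            simp
          simp [h4, h1, H.symm_zero h1, h.ee])
      exact ⟨k • v, h.pp_ext_ne_zero R ψ k hv, by rwa [← hk, b_smul_smul]⟩
  have h4 : H.b w ((N ^ (2 * m + 1)) v₀) ≠ 0 := by simpa [w.2.1] using hw'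
  have h5 := h.pp_smul_ne_zero R ψ (inv_ne_zero h4) w.2 hw
  have h6 : H.b ((H.b w ((N ^ (2 * m + 1)) v₀))⁻¹ • (w : V)) ((N ^ (2 * m + 1)) v₀) = 1 := by
    rw [smul_left, inv_mul_cancel₀ h4]
  have h7 : H.b ((H.b w ((N ^ (2 * m + 1)) v₀))⁻¹ • (w : V)) ((N ^ (2 * m + 2)) v₀) = 0 := by
    rw [smul_left, w.2.1, mul_zero]
  generalize (H.b w ((N ^ (2 * m + 1)) v₀))⁻¹ • (w : V) = y at h5 h6 h7
  set p := pp R ψ ((N ^ (2 * m + 2)) v₀) f y with hp
  have h8 : ∀ c : C, p * R c * p =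
      (if ∃ κ : F, (c : H.U) • y = y + κ • (N ^ (2 * m + 2)) v₀ then (1 : ℂ) else 0) • p := by
    intro c
    obtain ⟨P, hP⟩ := hC c c.2
    split_ifs with hc
    · obtain ⟨κ, hκ⟩ := hc
      obtain ⟨e1, e2⟩ := hN.key hP h7 h6 hκ
      rw [mul_assoc, h.mul_pp R ψ e1 h7, h.κ_eq hκ, hψ κ e2, one_smul,
        h.pp_idem R ψ h7]
    · push Not at hc
      have e1 := hN.unip_e hP
      rw [mul_assoc, h.conj_pp R ψ one_ne_zero (by rw [e1, one_smul]) h7, inv_one, one_smul,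
        ← mul_assoc, h.pp_orth R ψ ha h7 (by rw [← e1, b_smul_smul, h7]) hc]
      simp
  intro h9
  have h10 : p * sm R C * p = 0 := by rw [h9]; simp
  rw [sm, Finset.mul_sum, Finset.sum_mul, Finset.sum_congr rfl fun c _ => h8 c,
    ← Finset.sum_smul, smul_eq_zero, Finset.sum_boole, Nat.cast_eq_zero, Finset.card_eq_zero,
    Finset.filter_eq_empty_iff] at h10
  exact h10.elim (fun h => h (Finset.mem_univ 1) ⟨0, by simp⟩) h5

end Alg

variable {W : Type*} [AddCommGroup W] [Module ℂ W] [FiniteDimensional ℂ W]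

theorem trace_sm (R : H.U →ₙ* Module.End ℂ W) (C : Subgroup H.U) :
    ∃ m : ℕ, ∑ c : C, LinearMap.trace ℂ W (R c) = Fintype.card C * m ∧ (sm R C ≠ 0 → 0 < m) := by
  have h0 : (Fintype.card C : ℂ) ≠ 0 := Nat.cast_ne_zero.2 Fintype.card_ne_zero
  obtain ⟨m, hm, hm'⟩ := trace_idem (p := (Fintype.card C : ℂ)⁻¹ • sm R C) (by
    rw [smul_mul_smul_comm, sm_mul_of R fun g hg => mul_sm R hg, smul_smul, mul_assoc,
      inv_mul_cancel₀ h0, mul_one])
  refine ⟨m, ?_, fun h => hm' (smul_ne_zero (inv_ne_zero h0) h)⟩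
  rw [← hm, map_smul, smul_eq_mul, mul_inv_cancel_left₀ h0, sm, map_sum]

theorem dim_of_not_zp (R : H.U →ₙ* Module.End ℂ W) {m : ℕ} (hn : finrank F V = 2 * m + 3)
    (hZ : ¬ ZP R) : ∃ d : ℕ, LinearMap.trace ℂ W (R 1) = d ∧
      (qq F ^ 2 - 1) * qq F ^ (2 * m) ≤ d := by
  obtain ⟨ψ, a₀, ha, -⟩ := exists_psi' F
  obtain ⟨e, h0, he⟩ := H.exists_iso (by omega)
  obtain ⟨f, h⟩ := exists_hyp he h0
  obtain ⟨v, hv0, hv⟩ := h.exists_pp R ψ (by omega) ha hZ
  have hd := h.finrank_hp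
  set Y : Finset (H.hp e f) := Finset.univ.filter fun w => pp R ψ e f w ≠ 0 with hY
  have h1 : (qq F ^ 2 - 1) * qq F ^ (2 * m) ≤ Y.card := by
    by_cases hm : m = 0
    · have h2 : Finset.univ.erase 0 ⊆ Y := by
        intro w hw
        obtain ⟨c, rfl⟩ := (finrank_eq_one_iff_of_nonzero' (K := F) v hv0).1 (by omega) w
        have hc : c ≠ 0 := fun hc => by simp [hc] at hw
        simpa [hY] using h.pp_smul_ne_zero R ψ hc v.2 hv
      have h3 := Finset.card_le_card h2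
      rw [Finset.card_erase_of_mem (Finset.mem_univ _), Finset.card_univ, card_eq_pow (F := F),
        show finrank F (H.hp e f) = 1 by omega] at h3
      simpa [hm] using h3
    · obtain ⟨e', he0, he'⟩ := (H.sub _ h.nd).exists_iso (by omega)
      obtain ⟨f', h'⟩ := exists_hyp he' he0
      have h2 : (Finset.univ.filter fun y => (H.sub _ h.nd).b y e' ≠ 0 ∧
          (H.sub _ h.nd).b y y = (H.sub _ h.nd).b v v) ⊆ Y := by
        intro w hw
        obtain ⟨e1, e2⟩ := (Finset.mem_filter.1 hw).2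
        obtain ⟨k, -, rfl⟩ := (H.sub _ h.nd).allQ_S.trans_norm' (by omega) he' hv0 e1 e2
        simpa [hY] using h.pp_ext_ne_zero R ψ k hv
      have h3 := Finset.card_le_card h2
      have h4 := h'.finrank_hp
      rw [h'.card_fiber' (herm _ _ _), card_eq_pow (F := F), ← pow_succ] at h3
      refine le_trans (Nat.mul_le_mul_left _ (Nat.pow_le_pow_right (qq_pos F) ?_)) h3
      omega
  have h2 : ∀ w w' : H.hp e f, w ≠ w' → pp R ψ e f w * pp R ψ e f w' = 0 := by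
    intro w w' hne
    refine h.pp_orth R ψ ha w.2.1 w'.2.1 fun c hc => hne (Subtype.ext ?_)
    have := w'.2.2
    rw [hc, add_left, smul_left, w.2.2, h.ef, zero_add, mul_one] at this
    rw [hc, this, zero_smul, add_zero]
  have h3 : (∑ w ∈ Y, pp R ψ e f w) * ∑ w ∈ Y, pp R ψ e f w = ∑ w ∈ Y, pp R ψ e f w := by
    rw [Finset.sum_mul]
    refine Finset.sum_congr rfl fun w hw => ?_
    rw [Finset.mul_sum, Finset.sum_eq_single w (fun w' _ hne => h2 _ _ hne.symm)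
      (fun h => absurd hw h), h.pp_idem R ψ w.2.1]
  obtain ⟨d, hd, -⟩ := trace_idem (p := R 1 - ∑ w ∈ Y, pp R ψ e f w) (by
    rw [sub_mul, mul_sub, mul_sub, h3, R_one_mul]
    simp only [Finset.mul_sum, Finset.sum_mul, one_pp, pp_one, sub_self, sub_zero])
  choose t ht ht' using fun w : H.hp e f => trace_idem (h.pp_idem R ψ w.2.1)
  refine ⟨d + ∑ w ∈ Y, t w, ?_, h1.trans ?_⟩
  · rw [map_sub, map_sum, Finset.sum_congr rfl fun w _ => ht w] at hd
    push_cast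
    linear_combination hd
  · rw [Finset.card_eq_sum_ones]
    exact le_add_left (Finset.sum_le_sum fun w hw => ht' w (Finset.mem_filter.1 hw).2)

end HS

end UW
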