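import Cfsg.Agent.Lib.UW.KLem

/-!
# The induction step: extending intertwiners
-/

set_option autoImplicit false
set_option linter.unusedSectionVars false

open scoped Classical
open Module

namespace UW

namespace HS

variable {F V : Type*} [Field F] [Fintype F] [StarRing F] [HF F] [AddCommGroup V] [Module F V]
  [Fintype V] {H : HS F V} {A : Type*} [Ring A] [Algebra ℂ A] {R : H.U →ₙ* A}

theorem ZP.bad (hZ : ZP R) {e x : V} (h : H.Orth e x) {g : H.U}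
    (hg : R g * (zz R e * zz R x) = zz R e * zz R x * R g) {a c : F} (hc : c ≠ 0)
    (hge : g • e = a • e + c • x) :
    (zz R e - zz R e * zz R x) * R g * (zz R e - zz R e * zz R x) = 0 := by
  have h1 := hZ.K0 h a hc
  have h2 := zz_comm R h.ee h.xe
  have h3 := zz_zz R h.ee
  have h4 := zz_zz R h.xx
  rw [mul_assoc, mul_sub, hg, conj_zz, hge, ← sub_mul, ← mul_assoc]
  refine mul_eq_zero_of_left ?_ _
  have h5 : zz R e * zz R x * zz R (a • e + c • x) = zz R e * zz R x := by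
    rw [h2, mul_assoc, h1, h2, ← mul_assoc, h4]
  have h6 : zz R e * zz R x * (zz R e * zz R x) = zz R e * zz R x := by
    rw [mul_assoc, ← mul_assoc (zz R x), ← h2, mul_assoc, h4, ← mul_assoc, h3]
  rw [sub_mul, mul_sub, mul_sub, h1, ← mul_assoc, h3, h5, h6]
  simp

variable (R) in
/-- The auxiliary subgroup stabilizing a totally isotropic plane. -/
def Pl (e x : V) : Subgroup H.U where
  carrier := {g | (∀ y ∈ Submodule.span F {e, x}, g • y ∈ Submodule.span F {e, x} ∧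
      g⁻¹ • y ∈ Submodule.span F {e, x}) ∧ R g * (zz R e * zz R x) = zz R e * zz R x ∧
      zz R e * zz R x * R g = zz R e * zz R x}
  mul_mem' := by
    rintro g k ⟨h1, h2, h3⟩ ⟨k1, k2, k3⟩
    refine ⟨fun y hy => ⟨?_, ?_⟩, ?_, ?_⟩
    · rw [mul_smul]; exact (h1 _ (k1 y hy).1).1
    · rw [mul_inv_rev, mul_smul]; exact (k1 _ (h1 y hy).2).2
    · rw [map_mul, mul_assoc, k2, h2]
    · rw [map_mul, ← mul_assoc, h3, k3]
  one_mem' := ⟨fun y hy => by simpa using hy, by rw [← mul_assoc, one_zz],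
    by rw [mul_assoc, zz_one]⟩
  inv_mem' := by
    rintro g ⟨h1, h2, h3⟩
    refine ⟨fun y hy => ⟨(h1 y hy).2, by simpa using (h1 y hy).1⟩, ?_, ?_⟩
    · nth_rw 1 [← h2]
      rw [← mul_assoc, ← map_mul, inv_mul_cancel, ← mul_assoc, one_zz]
    · nth_rw 1 [← h3]
      rw [mul_assoc, ← map_mul, mul_inv_cancel, mul_assoc, zz_one]

theorem Step_realise_eqns : True := by
  have := @Pl.eq_1.{0, 0, 0}
  trivial

theorem ZP.Q_le_Pl (hZ : ZP R) {e x : V} (h : H.Orth e x) : H.Q e ≤ Pl R e x := by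
  have h1 : ∀ g ∈ H.Q e, ∀ y ∈ Submodule.span F {e, x}, g • y ∈ Submodule.span F {e, x} := by
    intro g hg y hy
    obtain ⟨a, c, rfl⟩ := Submodule.mem_span_pair.1 hy
    obtain ⟨d, hd⟩ := hg.2 (a • e + c • x) (by simp [h.ee, h.xe])
    rw [hd]
    exact Submodule.add_mem _ hy (Submodule.smul_mem _ _ (Submodule.subset_span (by simp)))
  intro g hg
  refine ⟨fun y hy => ⟨h1 g hg y hy, h1 _ ((H.Q e).inv_mem hg) y hy⟩, ?_, ?_⟩
  · rw [← mul_assoc, hZ e h.e0 h.ee g hg]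
  · rw [zz_comm R h.ee h.xe, mul_assoc, hZ.right h.e0 h.ee hg]

theorem Pl_comm {e x : V} (h : H.Orth e x) : Pl R e x = Pl R x e := by
  ext g
  change _ ∧ _ ∧ _ ↔ _ ∧ _ ∧ _
  rw [Set.pair_comm e x, zz_comm R h.ee h.xe]

theorem ZP.step (hZ : ZP R) (hodd : Odd (finrank F V)) (h5 : 5 ≤ finrank F V) {e f : V}
    (h : H.Hyp e f) {φ' : A} (h1 : zz R e * φ' = φ') (h2 : φ' * zz R e = φ')
    (h3 : ∀ g ∈ (H.sub _ h.nd).S, R (h.nd.ext g) * φ' = φ' * R (h.nd.ext g)) :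
    ∃ φ : A, (∀ g ∈ H.S, R g * φ = φ * R g) ∧ φ * zz R e = φ' ∧ φ * R 1 = φ ∧ R 1 * φ = φ := by
  have hd := h.finrank_hp
  obtain ⟨e', he0, he'⟩ := (H.sub _ h.nd).exists_iso (by omega)
  obtain ⟨f', hf'⟩ := exists_hyp he' he0
  have h' : H.Hyp e' f' := ⟨hf'.ee, hf'.ff, hf'.ef⟩
  have ho : H.Orth e e' := h.orth he0 he'
  have hcomm := zz_comm R h.ee ho.xe
  have hφ1 : R 1 * φ' = φ' := by rw [← h1, ← mul_assoc, one_zz]
  have hφ2 : φ' * R 1 = φ' := by rw [← h2, mul_assoc, zz_one]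
  have hS1 : ∀ g ∈ H.S, g • e = e → R g * φ' = φ' * R g := by
    intro g hg hge
    obtain ⟨k, hk, g', hg', rfl⟩ := h.stab_S hg hge
    have e1 : R k * φ' = φ' := by rw [← h1, ← mul_assoc, hZ e h.ne_zero h.ee k hk]
    have e2 : φ' * R k = φ' := by rw [← h2, mul_assoc, hZ.right h.ne_zero h.ee hk]
    rw [map_mul, mul_assoc, h3 g' hg', ← mul_assoc, ← mul_assoc, e1, e2]
  have hze' : zz R e' * φ' = φ' * zz R e' := zz_comm_of R fun s hs =>
    hS1 _ (tau_mem_S h'.ee hs) (by rw [tau_smul h'.ee hs, ho.ex]; simp)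
  obtain ⟨zU, hzU⟩ : ∃ zU, zU = zz R e * zz R e' := ⟨_, rfl⟩
  have hUU : zU * zU = zU := by
    rw [hzU, mul_assoc, ← mul_assoc (zz R (e' : V)), ← hcomm, mul_assoc, zz_zz R h'.ee,
      ← mul_assoc, zz_zz R h.ee]
  have heU : zz R e * zU = zU := by rw [hzU, ← mul_assoc, zz_zz R h.ee]
  have hUe : zU * zz R e = zU := by rw [hzU, hcomm, mul_assoc, zz_zz R h.ee]
  have he'U : zz R e' * zU = zU := by rw [hzU, hcomm, ← mul_assoc, zz_zz R h'.ee]
  have hUe' : zU * zz R e' = zU := by rw [hzU, mul_assoc, zz_zz R h'.ee]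
  have h1U : R 1 * zU = zU := by rw [hzU, ← mul_assoc, one_zz]
  have hU1 : zU * R 1 = zU := by rw [hzU, mul_assoc, zz_one]
  have hφU : φ' * zU = φ' * zz R e' := by rw [hzU, ← mul_assoc, h2]
  have hUφ : zU * φ' = φ' * zU := by rw [hφU, hzU, hcomm, mul_assoc, h1, hze']
  obtain ⟨ψ, hψ⟩ : ∃ ψ, ψ = φ' - φ' * zU := ⟨_, rfl⟩
  have hpψ : (zz R e - zU) * ψ = ψ := by
    rw [hψ, sub_mul, mul_sub, mul_sub, ← mul_assoc, h1, ← mul_assoc, hUφ, mul_assoc, hUU]; simp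
  have hψp : ψ * (zz R e - zU) = ψ := by
    rw [hψ, mul_sub, sub_mul, sub_mul, h2, mul_assoc, hUe, mul_assoc, hUU]; simp
  have h1ψ : R 1 * ψ = ψ := by rw [hψ, mul_sub, ← mul_assoc, hφ1]
  have hψ1 : ψ * R 1 = ψ := by rw [hψ, sub_mul, mul_assoc, hφ2, hU1]
  have hψU : ψ * zU = 0 := by rw [hψ, sub_mul, mul_assoc, hUU, sub_self]
  have hUψ : zU * ψ = 0 := by rw [hψ, mul_sub, ← mul_assoc, hUφ, mul_assoc, hUU, sub_self]
  have hgood : ∀ g ∈ H.S, g • e = e → R g * zU = zU * R g → R g * ψ = ψ * R g := by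
    intro g hg hge hgU
    rw [hψ, mul_sub, sub_mul, ← mul_assoc, hS1 g hg hge, mul_assoc, hgU, mul_assoc]
  have hPl : ∀ g ∈ Pl R e e', R g * zU = zU ∧ zU * R g = zU := fun g hg => hzU ▸ hg.2
  have hQ' : H.Q e' ≤ Pl R e e' := Pl_comm (R := R) ho ▸ hZ.Q_le_Pl ho.symm
  -- first extension
  obtain ⟨Φ, hΦ1, hΦ2, -, hΦ4⟩ := extend (R := R) (H.Q e') hpψ hψp h1ψ hψ1 fun g hg => by
    obtain ⟨c, hc⟩ := hg.2 e ho.ex
    have hgU := hPl g (hQ' hg)
    by_cases hc0 : c = 0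
    · exact Or.inl (hgood g (Q_le_S h'.ee h'.ne_zero hg) (by simpa [hc0] using hc)
        (hgU.1.trans hgU.2.symm))
    · rw [hzU] at hgU ⊢
      exact Or.inr (hZ.bad ho (hgU.1.trans hgU.2.symm) (a := 1) hc0 (by simpa using hc))
  have hcz := hΦ4 (cz R e') 1 fun g hg => by rw [conj_cz, hg.1]
  have hΦ1' := hΦ4 (R 1) 1 fun g _ => by rw [R_one_mul, R_mul_one]
  simp only [one_smul] at hcz hΦ1'
  have hΦ0 : R 1 * Φ = Φ * R 1 := (hΦ1'.1 h1ψ).trans (hΦ1'.2 hψ1).symm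
  have hAll := hZ.allQ_comm h' hΦ0
    (hcz.2 (by rw [cz, mul_sub, hψ1, hψ, sub_mul, mul_assoc, hUe', hφU]; simp))
    (hcz.1 (by
      rw [cz, sub_mul, h1ψ, hψ, mul_sub, ← mul_assoc, hze', mul_assoc, he'U, hφU]; simp)) hΦ1
  have htorus : ∀ a : F, a ≠ 0 → ∃ t ∈ H.S, t • e = a • e ∧ R t * zU = zU * R t ∧
      R t * ψ = ψ * R t := by
    intro a ha
    have hmem : e ∈ H.hp e' f' := ⟨ho.ex, H.symm_zero f'.2.1⟩
    obtain ⟨t, ht, ht'⟩ := hAll.inf_S.scale (by have := h'.finrank_hp; omega) (e := ⟨e, hmem⟩)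
      (fun h0 => h.ne_zero (congrArg Subtype.val h0)) h.ee ha
    have e1 : h'.nd.ext t • e = a • e := by
      have := h'.nd.ext_coe t ⟨e, hmem⟩
      rw [ht'] at this
      exact this
    have e2 : R (h'.nd.ext t) * zz R e = zz R e * R (h'.nd.ext t) := by
      rw [conj_zz, e1, zz_smul R h.ee ha]
    have e3 : R (h'.nd.ext t) * zU = zU * R (h'.nd.ext t) := by
      rw [hzU, ← mul_assoc, e2, mul_assoc, conj_zz, h'.ext_e, mul_assoc]
    refine ⟨_, h'.nd.ext_mem_S.2 ht.2, e1, e3, ?_⟩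
    have e4 : R (h'.nd.ext t) * Φ = Φ * R (h'.nd.ext t) := ht.1
    rw [← hΦ2, ← mul_assoc, mul_sub, e2, e3, ← sub_mul, mul_assoc, e4, mul_assoc]
  -- second extension
  obtain ⟨Ψ, hΨ1, hΨ2, hΨ3, hΨ4⟩ := extend (R := R) (Pl R e e' ⊓ H.S) hpψ hψp h1ψ hψ1
    fun g hg => by
      obtain ⟨a, c, hc⟩ := Submodule.mem_span_pair.1
        (hg.1.1 e (Submodule.subset_span (by simp))).1
      have hgU := hPl g hg.1
      by_cases hc0 : c = 0
      · have ha : a ≠ 0 := fun ha => gsmul_ne_zero g h.ne_zero (by rw [← hc, ha, hc0]; simp)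
        obtain ⟨t, ht, e1, e2, e3⟩ := htorus a ha
        have hU0 : R 1 * zU = zU * R 1 := h1U.trans hU1.symm
        have e4 := hgood (t⁻¹ * g) (H.S.mul_mem (H.S.inv_mem ht) hg.2)
          (by rw [mul_smul, inv_smul_eq_iff, e1, ← hc, hc0]; simp)
          ((Comm R zU hU0).mul_mem ((Comm R zU hU0).inv_mem e2) (hgU.1.trans hgU.2.symm))
        have := (Comm R ψ (h1ψ.trans hψ1.symm)).mul_mem e3 e4
        rw [mul_inv_cancel_left] at this
        exact Or.inl this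
      · rw [hzU] at hgU ⊢
        exact Or.inr (hZ.bad ho (hgU.1.trans hgU.2.symm) hc0 hc.symm)
  have hΨU := hΨ4 zU 0 fun g hg => (hPl g hg.1).1.trans (hPl g hg.1).2.symm
  have hΨ1' := hΨ4 (R 1) 1 fun g _ => by rw [R_one_mul, R_mul_one]
  simp only [one_smul, zero_smul] at hΨU hΨ1'
  obtain ⟨φ, hφ⟩ : ∃ φ, φ = Ψ + φ' * zU := ⟨_, rfl⟩
  have e1 : φ * R 1 = φ := by rw [hφ, add_mul, hΨ1'.2 hψ1, mul_assoc, hU1]
  have e2 : R 1 * φ = φ := by rw [hφ, mul_add, hΨ1'.1 h1ψ, ← mul_assoc, hφ1]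
  have e3 : ∀ g ∈ Pl R e e' ⊓ H.S, R g * φ = φ * R g := by
    intro g hg
    rw [hφ, mul_add, add_mul, hΨ1 g hg, mul_assoc, (hPl g hg.1).2, ← hUφ, ← mul_assoc,
      (hPl g hg.1).1]
  have e4 : φ * zz R e = φ' := by
    have : Ψ * zz R e = ψ := by rw [← hΨ3, mul_sub, hΨU.2 hψU, sub_zero]
    rw [hφ, add_mul, this, mul_assoc, hUe, hψ]; simp
  have e5 : zz R e * φ = φ' := by
    have : zz R e * Ψ = ψ := by rw [← hΨ2, sub_mul, hΨU.1 hUψ, sub_zero]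
    rw [hφ, mul_add, this, ← mul_assoc, h1, hψ]; simp
  have hQe : H.Q e ≤ Pl R e e' ⊓ H.S := le_inf (hZ.Q_le_Pl ho) (Q_le_S h.ee h.ne_zero)
  have hQe' : H.Q e' ≤ Pl R e e' ⊓ H.S := le_inf hQ' (Q_le_S h'.ee h'.ne_zero)
  have e6 : φ * cz R e = φ - φ' := by rw [cz, mul_sub, e1, e4]
  have e7 : cz R e * φ = φ - φ' := by rw [cz, sub_mul, e2, e5]
  have hAll' := hZ.allQ_comm h (Φ := φ - φ') (by rw [mul_sub, sub_mul, e1, e2, hφ1, hφ2])
    (by rw [← e6, mul_assoc, cz_cz R h.ee]) (by rw [← e7, ← mul_assoc, cz_cz R h.ee])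
    (fun g hg => by
      rw [mul_sub, sub_mul, e3 g (hQe hg), hS1 g (Q_le_S h.ee h.ne_zero hg) hg.1])
  have hφ0 : R 1 * φ = φ * R 1 := e2.trans e1.symm
  have hAll'' : (H.sub _ h.nd).AllQ ((Comm R φ hφ0).comap h.nd.ext) := by
    intro x hx0 hx g hg
    have e8 : R (h.nd.ext g) * (φ - φ') = (φ - φ') * R (h.nd.ext g) := hAll' x hx0 hx hg
    rw [mul_sub, sub_mul, h3 g (Q_le_S hx hx0 hg), sub_left_inj] at e8
    exact e8
  obtain ⟨k, hk, hk'⟩ := hAll''.trans (by omega) he0 he' hf'.symm.ne_zero hf'.ff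
  have hQ1 : H.Q e' ≤ Comm R φ hφ0 := fun g hg => e3 g (hQe' hg)
  have hQ2 : H.Q f' ≤ Comm R φ hφ0 := by
    have := Q_gsmul_le (k := h.nd.ext k) hk hQ1
    rwa [h.nd.ext_coe, hk'] at this
  exact ⟨φ, fun g hg => (allQ_of_pair h' hQ1 hQ2).S_le hodd hg, e4, e1, e2⟩

end HS

end UW
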