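import Cfsg.Agent.Lib.UW.NonZ
import Cfsg.Agent.Lib.UW.Cent
import Cfsg.Agent.Lib.Char.SymSq

/-!
# The components of the Weil representation
-/

set_option autoImplicit false
set_option linter.unusedSectionVars false

open scoped Classical
open Module Polynomial Cfsg CT

namespace UW

namespace HS

variable {F V : Type*} [Field F] [Fintype F] [StarRing F] [HF F] [AddCommGroup V] [Module F V]
  [Fintype V] {H : HS F V}

theorem zz_map {A A' : Type*} [Ring A] [Algebra ℂ A] [Ring A'] [Algebra ℂ A'] (R : H.U →ₙ* A)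
    (R' : H.U →ₙ* A') (L : A →ₗ[ℂ] A') (h : ∀ g, R' g = L (R g)) (e : V) :
    zz R' e = L (zz R e) := by
  simp only [zz, map_smul, map_sum, h]

theorem arith_bound {q m D d : ℕ} (hq : 2 ≤ q) (h2 : m = 0 → q ≠ 2)
    (hD : q ^ (2 * m + 3) + 1 = (q + 1) * D) (hd : (q ^ 2 - 1) * q ^ (2 * m) ≤ d) : D < d := by
  refine lt_of_lt_of_le (Nat.lt_of_mul_lt_mul_left (a := q + 1) ?_) hd
  obtain ⟨r, rfl⟩ := Nat.exists_eq_add_of_le hq
  have h3 : (2 + r) ^ 2 - 1 = 3 + 4 * r + r ^ 2 := by
    rw [Nat.sub_eq_iff_eq_add (Nat.one_le_pow _ _ (by omega))]; ring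
  rw [← hD, h3, pow_add]
  have h4 : 1 < (2 + r) ^ (2 * m) * (1 + 3 * r + r ^ 2) := by
    by_cases hm : m = 0
    · have := h2 hm
      subst hm
      simp only [mul_zero, pow_zero, one_mul]
      have : 0 < r := by omega
      nlinarith
    · have : 1 < (2 + r) ^ (2 * m) := Nat.one_lt_pow (by omega) (by omega)
      nlinarith
  nlinarith

variable {W : Type*} [AddCommGroup W] [Module ℂ W] [FiniteDimensional ℂ W]
  (Ω : H.U →* Module.End ℂ W)

/-- The projection onto the `θ`-component. -/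
noncomputable def et (θ : AddChar (Additive (unitary F)) ℂ) : Module.End ℂ W :=
  ((qq F : ℂ) + 1)⁻¹ • ∑ z : Additive (unitary F), θ (-z) • Ω (H.sc z.toMul)

theorem qq1_ne : (qq F : ℂ) + 1 ≠ 0 := by exact_mod_cast Nat.succ_ne_zero (qq F)

theorem card_add_unitary : Fintype.card (Additive (unitary F)) = qq F + 1 :=
  (Fintype.card_congr Additive.toMul).trans (card_unitary F)

theorem et_comm (θ : AddChar (Additive (unitary F)) ℂ) (g : H.U) :
    Ω g * et Ω θ = et Ω θ * Ω g := by
  simp only [et, mul_smul_comm, smul_mul_assoc, Finset.mul_sum, Finset.sum_mul, ← map_mul,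
    sc_comm]

theorem sc_et (θ : AddChar (Additive (unitary F)) ℂ) (z : unitary F) :
    Ω (H.sc z) * et Ω θ = θ (Additive.ofMul z) • et Ω θ := by
  rw [et, mul_smul_comm, smul_comm (θ _), Finset.mul_sum, Finset.smul_sum (r := θ _),
    ← Equiv.sum_comp (Equiv.addLeft (Additive.ofMul z))
      (fun w : Additive (unitary F) => θ (Additive.ofMul z) • θ (-w) • Ω (H.sc w.toMul))]
  congr 1
  refine Finset.sum_congr rfl fun w _ => ?_
  simp only [Equiv.coe_addLeft, smul_smul, mul_smul_comm, ← AddChar.map_add_eq_mul, ← map_mul,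
    toMul_add, toMul_ofMul]
  congr 2
  abel

theorem et_idem (θ : AddChar (Additive (unitary F)) ℂ) : et Ω θ * et Ω θ = et Ω θ := by
  nth_rw 1 [et]
  rw [smul_mul_assoc, Finset.sum_mul, Finset.sum_congr rfl (g := fun _ => et Ω θ),
    Finset.sum_const, Finset.card_univ, card_add_unitary, ← Nat.cast_smul_eq_nsmul ℂ,
    Nat.cast_succ, inv_smul_smul₀ qq1_ne]
  intro z _
  rw [smul_mul_assoc, sc_et, smul_smul, ← AddChar.map_add_eq_mul]
  simp

theorem sum_et : ∑ θ, et Ω θ = 1 := by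
  simp only [et, ← Finset.smul_sum]
  rw [Finset.sum_comm]
  simp only [← Finset.sum_smul, AddChar.sum_apply_eq_ite, neg_eq_zero]
  rw [Finset.sum_eq_single 0 (fun z _ hz => by simp [hz]) (by simp), if_pos rfl,
    card_add_unitary, Nat.cast_succ, inv_smul_smul₀ qq1_ne]
  simp

/-- The `θ`-component as a non-unital representation. -/
noncomputable def Rt (θ : AddChar (Additive (unitary F)) ℂ) : H.U →ₙ* Module.End ℂ W where
  toFun g := Ω g * et Ω θ
  map_mul' g k := by
    rw [mul_assoc, ← mul_assoc (et Ω θ), ← et_comm, mul_assoc, et_idem, map_mul, mul_assoc]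

theorem Theta_realise_eqns : True := by
  have := @et.eq_1.{0, 0, 0}
  have := @Rt.eq_1.{0, 0, 0}
  trivial

theorem Rt_apply (θ : AddChar (Additive (unitary F)) ℂ) (g : H.U) :
    Rt Ω θ g = Ω g * et Ω θ := rfl

variable {Ω} (hΩ : ∀ g, LinearMap.trace ℂ W (Ω g) = H.ω g)

include hΩ

theorem trace_et (hodd : Odd (finrank F V)) (θ : AddChar (Additive (unitary F)) ℂ) {c : H.U}
    (hc : ∀ z, z ≠ 1 → H.kk (H.sc z * c) = 0) :
    LinearMap.trace ℂ W (Ω c * et Ω θ) =
      ((qq F : ℂ) + 1)⁻¹ * (H.ω c + 1) - if θ = 0 then 1 else 0 := by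
  rw [et_comm, et, smul_mul_assoc, Finset.sum_mul, map_smul, map_sum]
  simp only [smul_mul_assoc, ← map_mul, map_smul, hΩ, smul_eq_mul]
  have h1 : ∀ z : Additive (unitary F), θ (-z) * H.ω (H.sc z.toMul * c) =
      (if z = 0 then H.ω c + 1 else 0) - θ (-z) := by
    intro z
    split_ifs with hz
    · simp [hz]
    · rw [ω, hc z.toMul hz, hodd.neg_one_pow]; ring
  have h2 : ∑ z : Additive (unitary F), θ (-z) = if θ = 0 then (qq F : ℂ) + 1 else 0 := by
    refine (Equiv.sum_comp (Equiv.neg _) θ).trans ?_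
    rw [AddChar.sum_eq_ite, card_add_unitary, Nat.cast_succ]
  rw [Finset.sum_congr rfl fun z _ => h1 z, Finset.sum_sub_distrib, h2, Finset.sum_ite_eq',
    if_pos (Finset.mem_univ _)]
  split_ifs
  · rw [mul_sub, inv_mul_cancel₀ qq1_ne]
  · simp

omit hΩ in
theorem kk_sc {z : unitary F} (hz : z ≠ 1) : H.kk (H.sc z * 1) = 0 := by
  rw [kk, Submodule.finrank_eq_zero, Submodule.eq_bot_iff]
  intro y hy
  rw [mem_fx, mul_one, sc_smul, ← sub_eq_zero] at hy
  nth_rw 2 [← one_smul F y] at hy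
  rw [← sub_smul, smul_eq_zero] at hy
  exact hy.resolve_left fun h => hz (Subtype.ext (sub_eq_zero.1 h))

theorem trace_et_one (hodd : Odd (finrank F V)) {D : ℕ}
    (hD : qq F ^ finrank F V + 1 = (qq F + 1) * D) (θ : AddChar (Additive (unitary F)) ℂ) :
    LinearMap.trace ℂ W (Ω 1 * et Ω θ) = D - if θ = 0 then 1 else 0 := by
  rw [trace_et hΩ hodd θ fun z hz => kk_sc hz, ω, kk_one, hodd.neg_one_pow, hodd.neg_pow]
  have : ((qq F : ℂ) ^ finrank F V + 1) = (qq F + 1) * D := by exact_mod_cast hD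
  rw [neg_one_mul, neg_neg, this, inv_mul_cancel_left₀ qq1_ne]

theorem zp_weil {m : ℕ} (hn : finrank F V = 2 * m + 3) (h2 : m = 0 → qq F ≠ 2) :
    ZP (Ω : H.U →ₙ* Module.End ℂ W) := by
  have hodd : Odd (finrank F V) := ⟨m + 1, by omega⟩
  obtain ⟨D, hD⟩ := hodd.nat_add_dvd_pow_add_pow (qq F) 1
  rw [one_pow] at hD
  have h1 : ∀ θ, ZP (Rt Ω θ) := by
    intro θ
    by_contra h
    obtain ⟨d, hd, hd'⟩ := dim_of_not_zp _ hn h
    have h3 := arith_bound (two_le_qq F) h2 (hn ▸ hD) hd'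
    rw [Rt_apply, trace_et_one hΩ hodd hD] at hd
    split_ifs at hd
    · have : (D : ℂ) = (d + 1 : ℕ) := by push_cast; linear_combination hd
      have := Nat.cast_injective this
      omega
    · have : (D : ℂ) = d := by linear_combination hd
      have := Nat.cast_injective this
      omega
  intro e h0 he g hg
  have h3 : ∀ θ, Ω g * zz (Ω : H.U →ₙ* Module.End ℂ W) e * et Ω θ =
      zz (Ω : H.U →ₙ* Module.End ℂ W) e * et Ω θ := by
    intro θ
    have h4 := h1 θ e h0 he g hg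
    have h5 : zz (Ω : H.U →ₙ* Module.End ℂ W) e * et Ω θ =
        et Ω θ * zz (Ω : H.U →ₙ* Module.End ℂ W) e := zz_comm_of _ fun s _ => et_comm Ω θ _
    rw [zz_map (Ω : H.U →ₙ* Module.End ℂ W) (Rt Ω θ) (LinearMap.mulRight ℂ (et Ω θ))
      (fun _ => rfl), LinearMap.mulRight_apply, Rt_apply, mul_assoc, ← mul_assoc (et Ω θ), ← h5,
      mul_assoc, et_idem] at h4
    rwa [mul_assoc]
  have h4 := Finset.sum_congr rfl fun θ (_ : θ ∈ Finset.univ) => h3 θ
  rwa [← Finset.mul_sum, ← Finset.mul_sum, sum_et, mul_one, mul_one] at h4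

omit hΩ in
theorem sum_omega_sq (h3 : 3 ≤ finrank F V) :
    ∃ r : ℕ, r ≤ qq F + 1 ∧ ∑ g : H.S, H.ω g * H.ω g = r * Fintype.card H.S := by
  let f : MulAction.orbitRel.Quotient H.S V → Option (selfAdjoint F) :=
    Quotient.lift (fun v => if v = 0 then none else some ⟨H.b v v, H.herm v v⟩) (by
      rintro _ v ⟨g, rfl⟩
      by_cases hv : v = 0
      · simp [hv]
      · have : g • v ≠ 0 := gsmul_ne_zero g.1 hv
        simp only [hv, this, if_false, Option.some.injEq, Subtype.mk.injEq]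
        exact Subtype.ext (b_smul_smul g.1 v v))
  have hf : Function.Injective f := by
    intro x y
    induction x using Quotient.inductionOn with | _ x =>
    induction y using Quotient.inductionOn with | _ y =>
    intro h
    simp only [f, Quotient.lift_mk] at h
    by_cases hx : x = 0 <;> by_cases hy : y = 0
    · rw [hx, hy]
    · simp [hx, hy] at h
    · simp [hx, hy] at h
    · simp only [hx, hy, if_false, Option.some.injEq, Subtype.mk.injEq] at h
      obtain ⟨k, hk, hk'⟩ := H.allQ_S.trans_norm h3 hy hx (congrArg Subtype.val h)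
      exact Quotient.sound ⟨⟨k, hk⟩, hk'⟩
  refine ⟨Fintype.card (MulAction.orbitRel.Quotient H.S V), ?_, ?_⟩
  · simpa [card_sa] using Fintype.card_le_of_injective f hf
  · rw [← Nat.cast_mul, ← MulAction.sum_card_fixedBy_eq_card_orbits_mul_card_group, Nat.cast_sum]
    refine Finset.sum_congr rfl fun g _ => ?_
    have : Fintype.card (MulAction.fixedBy V g) = qq F ^ (2 * H.kk g) := by
      rw [← card_fx]
      exact Fintype.card_congr (Equiv.subtypeEquivRight fun _ => Iff.rfl)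
    rw [this, ω, mul_mul_mul_comm, ← mul_pow, ← mul_pow, pow_mul]
    simp [sq]

/-- No centralizer has a fixed vector in the unipotent component. -/
theorem sm_cent_et_zero (hodd : Odd (finrank F V))
    (hdec : ∀ g : H.U, ∃ z, ∃ s ∈ H.S, g = H.sc z * s) (h : H.U) :
    sm (Rt Ω 0) (H.S ⊓ Subgroup.centralizer {h}) = 0 := by
  obtain ⟨B, hB, hB'⟩ := exists_cent_sum_zero hodd h
  obtain ⟨m, hm, hm'⟩ := trace_sm (Ω : H.U →ₙ* Module.End ℂ W) B
  have h1 : sm (Ω : H.U →ₙ* Module.End ℂ W) B = 0 := by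
    by_contra h1
    have h2 : ∑ c : B, LinearMap.trace ℂ W ((Ω : H.U →ₙ* Module.End ℂ W) c) = 0 := by
      refine (Finset.sum_congr rfl fun (c : B) _ => hΩ c).trans ?_
      simp only [ω, ← Finset.mul_sum, hB', mul_zero]
    rw [h2, eq_comm, mul_eq_zero, Nat.cast_eq_zero, Nat.cast_eq_zero] at hm
    exact (hm' h1).ne' (hm.resolve_left Fintype.card_ne_zero)
  set Y := sm (Rt Ω 0) (H.S ⊓ Subgroup.centralizer {h})
  have h2 : et Ω 0 * Y = Y := by
    have := mul_sm (Rt Ω 0) (H.S ⊓ Subgroup.centralizer {h}).one_mem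
    rwa [Rt_apply, map_one, one_mul] at this
  have h3 := sm_mul_of (Ω : H.U →ₙ* Module.End ℂ W) (K := B) (Y := Y) fun b hb => by
    obtain ⟨z, s, hs, rfl⟩ := hdec b
    have h4 : s ∈ Subgroup.centralizer {h} := by
      rw [Subgroup.mem_centralizer_singleton_iff]
      have := (hB _ hb).eq
      rw [mul_assoc, ← mul_assoc h, ← sc_comm, mul_assoc] at this
      exact mul_left_cancel this
    have h5 := mul_sm (Rt Ω 0) (K := H.S ⊓ Subgroup.centralizer {h}) ⟨hs, h4⟩
    change Ω (H.sc z * s) * Y = Y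
    rw [← h2, sc_comm, map_mul, mul_assoc, ← mul_assoc (Ω (H.sc z)), sc_et, AddChar.zero_apply,
      one_smul, ← mul_assoc, h2]
    exact h5
  rw [h1, zero_mul, eq_comm, smul_eq_zero, Nat.cast_eq_zero] at h3
  exact h3.resolve_left Fintype.card_ne_zero

end HS

end UW
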